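import Cfsg.Agent.E8A.Odd.Iface
import Cfsg.Agent.E8A.TwoH.Lie
import Cfsg.Agent.E8A.Reg5.AutLat

/-!
# The calculus of the long root subalgebras `sl₂` of `E₈`, odd characteristic (helper41)

* `top_of_ee` : the root vectors generate; `kf_inv`, `kf_br` : the form is invariant;
* `Rz.one`, `Rz.ee`, `Rz.plus_e`, `Rz.minus`, … : the brackets with `e`, `f`, `h = [e, f]` on the eigenspaces of `z`;
* `Sz e f` : the span of `e`, `f`, `h`; `pr e f` : the orthogonal projection; `Rz.eq_of_Sz`;
* `Nn z A g` : `g` is the element of order 4 of `A = e - f`; `Rz.exists_nn`.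
-/

set_option autoImplicit false
set_option maxRecDepth 100000
set_option linter.unusedSectionVars false
set_option linter.unusedSimpArgs false
set_option linter.unnecessarySeqFocus false

namespace Cfsg.Agent.E8A.Odd

open CoxeterSystem Cfsg Cfsg.Lie Module
open Matrix hiding J J_transpose
open Cfsg.Agent.Tits.Roots Cfsg.Agent.Nodes.Reps Cfsg.Agent.Nodes.RGDChev
open Cfsg.Agent.KFacts.RgdChevCoord
open Cfsg.Agent.H942.E8Tab (e8T)
open Cfsg.Agent.H288.E8L (Q8 wt wt_inl wt_inr rt_vec vec_ne_zero exists_idx wt_inj)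
open Cfsg.Agent.H897.T5Lat (bf_apply)
open Cfsg.Agent.H952.F4 (ev)
open Cfsg.Agent.E8A.Frm (B0 fm8 finW8)
open Cfsg.Agent.E8A.Inf (kf kf_comm kf_act kf_act' kf_nd)
open Cfsg.Agent.E8A.Par (op vec_op op_ne kf_ee act_xr ux act_ux norm_wt ext_act Extr)
open Cfsg.Agent.E8A.Reg5.Cls (ex dz Cj)
open Cfsg.Agent.E8A.Reg5.Aut (si vec_si)
open Cfsg.Agent.E8A.Two
open Cfsg.Agent.E8A.TwoH

universe u

variable {K : Type u} [Field K]

/-! ### generalities -/

theorem br_neg_left (x y : L8 K) : br (-x) y = -br x y := by rw [← neg_one_smul K x, br_smul_left, neg_one_smul]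

theorem br_neg_right (x y : L8 K) : br x (-y) = -br x y := by rw [← neg_one_smul K y, br_smul_right, neg_one_smul]

theorem B0_comm (a b : Q8) : B0 a b = B0 b a := fm8.symm a b

theorem ex_cv (r : Fin chevE8.nroots) (a : Q8) : ex (cv r) a = B0 (vec chevE8 8 r) a := by
  rw [B0_comm, bf_apply, ex]
  refine Finset.sum_congr rfl fun i _ => ?_
  rw [cv, ← pairing_vec e8T i r.2, ChevalleyStructure.CoxeterGeom.pairing, Finset.mul_sum]
  exact Finset.sum_congr rfl fun j _ => (mul_assoc _ _ _).symm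

theorem op_op (r : Fin chevE8.nroots) : op (op r) = r := vec_injective (by rw [vec_op, vec_op, neg_neg])

theorem op_ne' (r : Fin chevE8.nroots) : op r ≠ r := fun h => op_ne r (congrArg Fin.val h)

theorem gr_cases (r : Fin chevE8.nroots) (i : chevE8.Idx) :
    B0 (vec chevE8 8 r) (wt i) = 0 ∨ B0 (vec chevE8 8 r) (wt i) = 1 ∨ B0 (vec chevE8 8 r) (wt i) = -1 ∨
      (B0 (vec chevE8 8 r) (wt i) = 2 ∧ i = Sum.inr r) ∨ (B0 (vec chevE8 8 r) (wt i) = -2 ∧ i = Sum.inr (op r)) := by
  have := finW8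
  rcases i with i | s
  · left
    rw [wt_inl, map_zero]
  · rw [wt_inr]
    by_cases h1 : s = r
    · subst h1
      exact Or.inr (Or.inr (Or.inr (Or.inl ⟨B0_vec s, rfl⟩)))
    by_cases h2 : s = op r
    · subst h2
      refine Or.inr (Or.inr (Or.inr (Or.inr ⟨?_, rfl⟩)))
      rw [vec_op, map_neg, B0_vec]
    have h3 := fm8.sl _ _ (rt_vec r) (rt_vec s) (fun h => h1 (vec_injective h).symm) fun h => h2 (vec_injective (by
      rw [vec_op, h, neg_neg]))
    rw [← fm8.cpr _ _ (rt_vec s), abs_le] at h3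
    omega

/-- the root vectors generate the algebra -/
theorem top_of_ee {U : Submodule K (L8 K)} (hb : ∀ x ∈ U, ∀ y ∈ U, br x y ∈ U)
    (h : ∀ r, ee K (Sum.inr r) ∈ U) (v : L8 K) : v ∈ U := by
  have h1 : ∀ i, ee K i ∈ U := by
    rintro (i | r)
    · have h2 := hb _ (h (si (ix i))) _ (h (op (si (ix i))))
      rw [br_ee_op, vec_si] at h2
      convert h2 using 1
      funext j
      rcases j with j | s
      · show _ = (((sr (ix i) : Q8) (ix j) : ℤ) : K)
        rw [ee_apply, sr, Pi.single_apply]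
        by_cases e : j = i
        · rw [if_pos (by rw [e]), if_pos (by rw [e]), Int.cast_one]
        · rw [if_neg fun e' => e (Sum.inl.inj e'), if_neg fun e' => e (by rw [← xi_ix j, e', xi_ix]), Int.cast_zero]
      · exact ee_ne (by simp)
    · exact h r
  rw [pi_eq_sum_univ' v]
  exact U.sum_mem fun i _ => U.smul_mem _ (h1 i)

theorem kf_e_br (r : Fin chevE8.nroots) (y : L8 K) : kf K (ee K (Sum.inr r)) (br (ee K (Sum.inr r)) y) = 0 := by
  rw [kf_ee]
  have h1 : y ∈ LS K {a | -2 ≤ B0 (vec chevE8 8 r) a} := fun i _ => by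
    have := gr_cases r i
    show -2 ≤ B0 _ _
    omega
  refine LS_zero (br_LS (A := {vec chevE8 8 r}) (A'' := {a | 0 ≤ B0 (vec chevE8 8 r) a}) ?_
    (ee_mem_LS (i := Sum.inr r) rfl) h1) ?_
  · rintro a rfl b hb
    show 0 ≤ B0 _ _
    rw [map_add, B0_vec]
    have : -2 ≤ B0 (vec chevE8 8 r) b := hb
    omega
  · show ¬ 0 ≤ B0 _ _
    rw [wt_inr, vec_op, map_neg, B0_vec]
    omega

theorem kf_e_e (r : Fin chevE8.nroots) : kf K (ee K (Sum.inr r)) (ee K (Sum.inr r)) = 0 := by
  rw [kf_ee, ee_ne fun h => op_ne' r (Sum.inr.inj h)]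

theorem kf_e_f (r : Fin chevE8.nroots) : kf K (ee K (Sum.inr r)) (ee K (Sum.inr (op r))) = 1 := by rw [kf_ee, ee_self]

section two

variable (h2 : (2 : K) ≠ 0)
include h2

theorem half {v w : L8 K} (h : (2 : K) • v = (2 : K) • w) : v = w := smul_right_injective _ h2 h

theorem eq_zero_of_neg {v : L8 K} (h : v = -v) : v = 0 := half h2 (by rw [two_smul, smul_zero, ← eq_neg_iff_add_eq_zero]; exact h)

theorem kf_inv (x y z : L8 K) : kf K (br x y) z = -kf K y (br x z) := by
  let U : Submodule K (L8 K) :=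
    { carrier := {x | ∀ y z, kf K (br x y) z = -kf K y (br x z)}
      zero_mem' := fun y z => by simp [br_zero_left]
      add_mem' := fun {a b} ha hb y z => by
        rw [br_add_left, br_add_left, map_add, LinearMap.add_apply, map_add, ha, hb, neg_add]
      smul_mem' := fun c a ha y z => by
        rw [br_smul_left, br_smul_left, map_smul, LinearMap.smul_apply, map_smul, ha, smul_neg] }
  refine top_of_ee (U := U) (fun a ha b hb y z => ?_) (fun r y z => ?_) x y z
  · rw [br_jac, br_jac, map_sub, LinearMap.sub_apply, map_sub, ha, hb, hb, ha]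
    ring
  · have e1 := kf_act (xr r (1 : K)) y z
    have e2 := kf_act (xr r (-1 : K)) y z
    have e3 := kf_e_br r y
    have e4 := kf_e_br r z
    rw [kf_comm] at e3
    simp only [act_xr, map_add, map_sub, map_smul, LinearMap.add_apply, LinearMap.sub_apply, LinearMap.smul_apply,
      smul_eq_mul, e3, e4, kf_e_e] at e1 e2
    apply mul_left_cancel₀ h2
    linear_combination e1 - e2

theorem kf_br (x y z : L8 K) : kf K (br x y) z = kf K x (br y z) := by
  rw [br_anti, map_neg, LinearMap.neg_apply, kf_inv h2, neg_neg]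

theorem ee_ee (r : Fin chevE8.nroots) (v : L8 K) :
    br (ee K (Sum.inr r)) (br (ee K (Sum.inr r)) v) = (-2 * kf K (ee K (Sum.inr r)) v) • ee K (Sum.inr r) := by
  have e1 : act (xr r (1 : K)) (act (xr r (-1 : K)) v) = v := by
    rw [← act_mul, xr_add, add_neg_cancel, xr_zero, act_one]
  simp only [act_xr, br_add_right, br_sub_right, br_smul_right, br_self, map_add, map_sub, map_smul, smul_eq_mul,
    kf_e_br, kf_e_e] at e1
  linear_combination (norm := module) -e1

theorem Extr.sq {x : L8 K} (h : Extr x) (v : L8 K) : br x (br x v) = (-2 * kf K x v) • x := by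
  obtain ⟨g, r, c, -, rfl⟩ := h
  obtain ⟨w, rfl⟩ : ∃ w, v = act g w := ⟨_, (act_inv' g v).symm⟩
  rw [br_smul_left, br_smul_left, br_smul_right, ← act_br, ← act_br, ee_ee h2, map_smul, LinearMap.smul_apply, kf_act,
    act_smul, smul_eq_mul]
  module

theorem kf_pm {z : G8 K} {v w : L8 K} (hv : act z v = v) (hw : act z w = -w) : kf K v w = 0 := by
  have h := kf_act z v w
  rw [hv, hw, map_neg] at h
  apply mul_left_cancel₀ h2
  linear_combination -h

end two

/-! ### the standard position -/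

section std

variable {z : G8 K} {r : Fin chevE8.nroots}

theorem act_z (hz : mx z = dz (-1) (cv r)) (v : L8 K) (i : chevE8.Idx) :
    act z v i = (-1) ^ B0 (vec chevE8 8 r) (wt i) * v i := by rw [act_dz hz, ex_cv]

theorem fix_z (hz : mx z = dz (-1) (cv r)) {v : L8 K} (hv : v ∈ LS K {a | Even (B0 (vec chevE8 8 r) a)}) :
    act z v = v := by
  funext i
  rw [act_z hz]
  by_cases h : v i = 0
  · rw [h, mul_zero]
  · rw [Even.neg_one_zpow (hv i h), one_mul]

theorem neg_z (hz : mx z = dz (-1) (cv r)) {v : L8 K} (hv : v ∈ LS K {a | Odd (B0 (vec chevE8 8 r) a)}) :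
    act z v = -v := by
  funext i
  rw [act_z hz, Pi.neg_apply]
  by_cases h : v i = 0
  · rw [h, mul_zero, neg_zero]
  · rw [Odd.neg_one_zpow (hv i h), neg_one_mul]

theorem even_z (h2 : (2 : K) ≠ 0) (hz : mx z = dz (-1) (cv r)) {v : L8 K} (hv : act z v = v) :
    v ∈ LS K {a | Even (B0 (vec chevE8 8 r) a)} := fun i hi => by
  by_contra h
  have h1 := congrFun hv i
  rw [act_z hz, Odd.neg_one_zpow (Int.not_even_iff_odd.1 h)] at h1
  exact hi (mul_left_cancel₀ h2 (by linear_combination -h1))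

theorem odd_z (h2 : (2 : K) ≠ 0) (hz : mx z = dz (-1) (cv r)) {v : L8 K} (hv : act z v = -v) :
    v ∈ LS K {a | Odd (B0 (vec chevE8 8 r) a)} := fun i hi => by
  by_contra h
  have h1 := congrFun hv i
  rw [act_z hz, Even.neg_one_zpow (Int.not_odd_iff_even.1 h), Pi.neg_apply] at h1
  exact hi (mul_left_cancel₀ h2 (by linear_combination h1))

theorem dz_op (r : Fin chevE8.nroots) : dz (-1 : K) (cv (op r)) = dz (-1) (cv r) := by
  rw [dz, dz]
  congr 1
  funext i
  rw [ex_cv, ex_cv, vec_op, map_neg, LinearMap.neg_apply, _root_.zpow_neg]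
  rcases Int.even_or_odd (B0 (vec chevE8 8 r) (wt i)) with h | h
  · rw [Even.neg_one_zpow h, inv_one]
  · rw [Odd.neg_one_zpow h, inv_neg, inv_one]

theorem std_plus (h2 : (2 : K) ≠ 0) (hz : mx z = dz (-1) (cv r)) {v : L8 K} (hv : act z v = v) :
    br (ee K (Sum.inr r)) v = kf K (ee K (Sum.inr r)) v • hq K (vec chevE8 8 r) -
      kf K (hq K (vec chevE8 8 r)) v • ee K (Sum.inr r) := by
  have h1 := even_z h2 hz hv
  obtain ⟨w, hw⟩ : ∃ w, w = v - v (Sum.inr (op r)) • ee K (Sum.inr (op r)) := ⟨_, rfl⟩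
  have h3 : w ∈ LS K {a | 0 ≤ B0 (vec chevE8 8 r) a} := fun i hi => by
    show 0 ≤ B0 _ _
    rw [hw, Pi.sub_apply, Pi.smul_apply, smul_eq_mul] at hi
    by_cases e : i = Sum.inr (op r)
    · rw [e, ee_self, mul_one, sub_self] at hi
      exact absurd rfl hi
    · rw [ee_ne e, mul_zero, sub_zero] at hi
      have h4 : Even (B0 (vec chevE8 8 r) (wt i)) := h1 i hi
      rcases gr_cases r i with h | h | h | h | h
      · omega
      · omega
      · rw [h] at h4
        exact absurd h4 (by decide)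
      · omega
      · exact absurd h.2 e
  have h4 : br (ee K (Sum.inr r)) w ∈ LS K {a | 2 ≤ B0 (vec chevE8 8 r) a} :=
    br_LS (A := {vec chevE8 8 r}) (by
      rintro a rfl b hb
      show 2 ≤ B0 _ _
      rw [map_add, B0_vec]
      have : 0 ≤ B0 (vec chevE8 8 r) b := hb
      omega) (ee_mem_LS rfl) h3
  have h5 : br (ee K (Sum.inr r)) w ∈ LS K {vec chevE8 8 r} := fun i hi => by
    have h6 : 2 ≤ B0 (vec chevE8 8 r) (wt i) := h4 i hi
    rcases gr_cases r i with h | h | h | h | h
    · omega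
    · omega
    · omega
    · rw [h.2]
      rfl
    · omega
  have h6 : br (ee K (Sum.inr r)) w (Sum.inr r) = -kf K (hq K (vec chevE8 8 r)) v := by
    have e1 := kf_ee (op r) (br (ee K (Sum.inr r)) w)
    rw [op_op] at e1
    rw [← e1, ← kf_br h2, br_anti, br_ee_op, map_neg, LinearMap.neg_apply, kf_hq, kf_hq, hw, rl_sub, rl_smul,
      rl_congr (v := ee K (Sum.inr (op r))) (w := 0) fun i => ee_ne (by simp), rl_zero, mul_zero, sub_zero]
  have h7 : v = w + v (Sum.inr (op r)) • ee K (Sum.inr (op r)) := by rw [hw, sub_add_cancel]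
  conv_lhs => rw [h7, br_add_right, br_smul_right, br_ee_op, eq_smul_ee h5, h6]
  rw [kf_ee]
  module

theorem std_split (h2 : (2 : K) ≠ 0) (hz : mx z = dz (-1) (cv r)) {v : L8 K} (hv : act z v = -v) :
    ∃ a b, v = a + b ∧ a ∈ LS K {x | B0 (vec chevE8 8 r) x = 1} ∧ b ∈ LS K {x | B0 (vec chevE8 8 r) x = -1} := by
  classical
  have h1 := odd_z h2 hz hv
  refine ⟨fun i => if B0 (vec chevE8 8 r) (wt i) = 1 then v i else 0,
    fun i => if B0 (vec chevE8 8 r) (wt i) = 1 then 0 else v i, ?_, fun i hi => ?_, fun i hi => ?_⟩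
  · funext i
    rw [Pi.add_apply]
    split_ifs <;> simp
  · by_contra h
    exact hi (if_neg h)
  · have h3 : ¬ B0 (vec chevE8 8 r) (wt i) = 1 := fun h => hi (if_pos h)
    have h4 : Odd (B0 (vec chevE8 8 r) (wt i)) := h1 i fun h => hi ((if_neg h3).trans h)
    show B0 _ _ = -1
    rcases gr_cases r i with h | h | h | h | h
    · rw [h] at h4
      exact absurd h4 (by decide)
    · exact absurd h h3
    · exact h
    · rw [h.1] at h4
      exact absurd h4 (by decide)
    · rw [h.1] at h4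
      exact absurd h4 (by decide)

theorem br_top {a : L8 K} (ha : a ∈ LS K {x | B0 (vec chevE8 8 r) x = 1}) : br (ee K (Sum.inr r)) a = 0 := by
  funext i
  refine LS_zero (br_LS (A := {vec chevE8 8 r}) (A'' := {x | B0 (vec chevE8 8 r) x = 3}) ?_
    (ee_mem_LS (i := Sum.inr r) rfl) ha) ?_
  · rintro a rfl b hb
    show B0 _ _ = 3
    rw [map_add, B0_vec, show B0 (vec chevE8 8 r) b = 1 from hb]
    rfl
  · show ¬ B0 _ _ = 3
    have := gr_cases r i
    omega

theorem br_hq {a : Q8} {k : ℤ} {v : L8 K} (hv : v ∈ LS K {x | B0 a x = k}) : br (hq K a) v = (k : K) • v := by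
  funext i
  rw [br_T (inT_hq _), rl_hq, Pi.smul_apply, smul_eq_mul]
  by_cases h : v i = 0
  · rw [h, mul_zero, mul_zero]
  · rw [show B0 a (wt i) = k from hv i h]

theorem std_minus (h2 : (2 : K) ≠ 0) (hz : mx z = dz (-1) (cv r)) {v : L8 K} (hv : act z v = -v) :
    br (ee K (Sum.inr r)) (br (ee K (Sum.inr (op r))) v) + br (ee K (Sum.inr (op r))) (br (ee K (Sum.inr r)) v) = v := by
  obtain ⟨a, b, rfl, ha, hb⟩ := std_split h2 hz hv
  have h1 := br_top ha
  have h3 : br (ee K (Sum.inr (op r))) b = 0 := br_top fun i hi => by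
    show B0 _ _ = 1
    rw [vec_op, map_neg, LinearMap.neg_apply, show B0 (vec chevE8 8 r) (wt i) = -1 from hb i hi]
    rfl
  have h4 := br_jac (ee K (Sum.inr r)) (ee K (Sum.inr (op r))) a
  have h5 := br_jac (ee K (Sum.inr r)) (ee K (Sum.inr (op r))) b
  rw [br_ee_op, br_hq ha, h1, br_zero_right] at h4
  rw [br_ee_op, br_hq hb, h3, br_zero_right] at h5
  simp only [br_add_right, h1, h3, add_zero, zero_add]
  push_cast at h4 h5
  linear_combination (norm := module) h5 - h4

end std

/-! ### the general position -/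

theorem rz_std {z : G8 K} {r : Fin chevE8.nroots} (hz : mx z = dz (-1) (cv r)) :
    Rz z (ee K (Sum.inr r)) (ee K (Sum.inr (op r))) :=
  ⟨1, r, (act_one _).symm, (act_one _).symm, by rw [mx_one, Matrix.mul_one, Matrix.one_mul, hz]⟩

namespace Rz

variable {z y : G8 K} {e f e' f' v w : L8 K}

theorem conj (h : Rz z e f) (y : G8 K) : Rz (y * z * y⁻¹) (act y e) (act y f) := by
  obtain ⟨g, r, rfl, rfl, hz⟩ := h
  refine ⟨y * g, r, (act_mul _ _ _).symm, (act_mul _ _ _).symm, ?_⟩
  rw [← mx_mul, show y * z * y⁻¹ * (y * g) = y * (z * g) by group, mx_mul, mx_mul, hz, mx_mul, Matrix.mul_assoc]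

theorem conj' (h : Rz z e f) {z' : G8 K} (hy : y * z = z' * y) : Rz z' (act y e) (act y f) := by
  have h1 := h.conj y
  rwa [hy, mul_inv_cancel_right] at h1

theorem std (h : Rz z e f) : ∃ (g z₀ : G8 K) (r : Fin chevE8.nroots), mx z₀ = dz (-1) (cv r) ∧
    e = act g (ee K (Sum.inr r)) ∧ f = act g (ee K (Sum.inr (op r))) ∧ z = g * z₀ * g⁻¹ := by
  obtain ⟨g, r, rfl, rfl, hz⟩ := h
  exact ⟨g, g⁻¹ * z * g, r, mx_of_semi hz, rfl, rfl, by group⟩

theorem symm (h : Rz z e f) : Rz z f e := by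
  obtain ⟨g, r, rfl, rfl, hz⟩ := h
  exact ⟨g, op r, rfl, by rw [op_op], by rw [dz_op, hz]⟩

theorem extr (h : Rz z e f) : Extr e := by
  obtain ⟨g, r, rfl, -, -⟩ := h
  exact ⟨g, r, 1, one_ne_zero, (one_smul _ _).symm⟩

theorem ef (h : Rz z e f) : kf K e f = 1 := by
  obtain ⟨g, r, rfl, rfl, -⟩ := h
  rw [kf_act, kf_e_f]

theorem fe (h : Rz z e f) : kf K f e = 1 := h.symm.ef

theorem ee0 (h : Rz z e f) : kf K e e = 0 := by
  obtain ⟨g, r, rfl, -, -⟩ := h
  rw [kf_act, kf_e_e]

theorem ff0 (h : Rz z e f) : kf K f f = 0 := h.symm.ee0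

theorem ne (h : Rz z e f) : e ≠ 0 := fun h0 => by
  have h1 := h.ef
  rw [h0, map_zero, LinearMap.zero_apply] at h1
  exact zero_ne_one h1

theorem act_act (h : Rz z e f) (v : L8 K) : act z (act z v) = v := by
  obtain ⟨g, z₀, r, hz, -, -, rfl⟩ := h.std
  have h1 : ∀ w, act z₀ (act z₀ w) = w := fun w => funext fun i => by
    rw [act_z hz, act_z hz, ← mul_assoc, ← mul_zpow, neg_mul_neg, mul_one, _root_.one_zpow, one_mul]
  simp only [act_mul, act_inv, h1, act_inv']

theorem one (h : Rz z e f) : z * z = 1 := ext_act fun v => by rw [act_mul, h.act_act, act_one]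

theorem inv (h : Rz z e f) : z⁻¹ = z := inv_eq_of_mul_eq_one_left h.one

theorem fix_e (h : Rz z e f) : act z e = e := by
  obtain ⟨g, z₀, r, hz, rfl, -, rfl⟩ := h.std
  rw [act_mul, act_mul, act_inv, fix_z hz (ee_mem_LS (by
    show Even (B0 _ _)
    rw [wt_inr, B0_vec]
    decide))]

theorem fix_f (h : Rz z e f) : act z f = f := h.symm.fix_e

theorem fix_h (h : Rz z e f) : act z (br e f) = br e f := by rw [act_br, h.fix_e, h.fix_f]

theorem smul [IsAlgClosed K] (h : Rz z e f) {c : K} (hc : c ≠ 0) : Rz z (c • e) (c⁻¹ • f) := by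
  obtain ⟨g, r, rfl, rfl, hz⟩ := h
  obtain ⟨s, rfl⟩ := IsAlgClosed.exists_pow_nat_eq c two_pos
  have hs : s ≠ 0 := fun h => hc (by rw [h, zero_pow two_ne_zero])
  obtain ⟨t, -, ht⟩ := exists_tz hs (cv r)
  have h1 : ∀ (u : Fin chevE8.nroots), act t (ee K (Sum.inr u)) =
      s ^ B0 (vec chevE8 8 r) (vec chevE8 8 u) • ee K (Sum.inr u) := fun u => funext fun i => by
    rw [act_dz ht, ex_cv, Pi.smul_apply, smul_eq_mul]
    by_cases e : i = Sum.inr u
    · rw [e, wt_inr]
    · rw [ee_ne e, mul_zero, mul_zero]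
  refine ⟨g * t, r, ?_, ?_, ?_⟩
  · rw [act_mul, h1, B0_vec, act_smul, zpow_ofNat]
  · rw [act_mul, h1, vec_op, map_neg, B0_vec, act_smul, _root_.zpow_neg, zpow_ofNat]
  · rw [mx_mul, ← Matrix.mul_assoc, hz, Matrix.mul_assoc, Matrix.mul_assoc, ht, dz, dz, Matrix.diagonal_mul_diagonal,
      Matrix.diagonal_mul_diagonal]
    congr 2
    exact funext fun i => mul_comm _ _

variable (h2 : (2 : K) ≠ 0) (h : Rz z e f)
include h2 h

theorem sq (v : L8 K) : br e (br e v) = (-2 * kf K e v) • e := Extr.sq h2 h.extr v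

theorem eh : br e (br e f) = (-2 : K) • e := by rw [h.sq h2, h.ef, mul_one]

theorem fh : br f (br e f) = (2 : K) • f := by rw [br_anti e f, br_neg_right, h.symm.eh h2, neg_smul, neg_neg]

theorem he : br (br e f) e = (2 : K) • e := by rw [br_anti, h.eh h2, neg_smul, neg_neg]

theorem hf : br (br e f) f = (-2 : K) • f := by rw [br_anti, h.fh h2, neg_smul]

theorem kf_eh : kf K e (br e f) = 0 := by rw [← kf_br h2, br_self, map_zero, LinearMap.zero_apply]

theorem kf_fh : kf K f (br e f) = 0 := by rw [br_anti e f, map_neg, h.symm.kf_eh h2, neg_zero]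

theorem kf_he : kf K (br e f) e = 0 := by rw [kf_comm, h.kf_eh h2]

theorem kf_hf : kf K (br e f) f = 0 := by rw [kf_comm, h.kf_fh h2]

theorem kf_hh : kf K (br e f) (br e f) = 2 := by rw [kf_br h2, h.fh h2, map_smul, h.ef, smul_eq_mul, mul_one]

theorem plus_e (hv : act z v = v) : br e v = kf K e v • br e f - kf K (br e f) v • e := by
  obtain ⟨g, z₀, r, hz, rfl, rfl, rfl⟩ := h.std
  obtain ⟨w, rfl⟩ : ∃ w, v = act g w := ⟨_, (act_inv' g v).symm⟩
  rw [act_mul, act_mul, act_inv] at hv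
  rw [← act_br, ← act_br, kf_act, kf_act, br_ee_op, std_plus h2 hz (act_injective g hv), act_sub, act_smul, act_smul]

theorem plus_f (hv : act z v = v) : br f v = kf K (br e f) v • f - kf K f v • br e f := by
  rw [h.symm.plus_e h2 hv, br_anti f e, map_neg, LinearMap.neg_apply]
  module

theorem plus_h (hv : act z v = v) : br (br e f) v = (2 * kf K f v) • e - (2 * kf K e v) • f := by
  rw [br_jac, h.plus_f h2 hv, h.plus_e h2 hv]
  simp only [br_sub_right, br_smul_right, h.eh h2, h.fh h2, br_anti f e]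
  module

theorem minus (hv : act z v = -v) : br e (br f v) + br f (br e v) = v := by
  obtain ⟨g, z₀, r, hz, rfl, rfl, rfl⟩ := h.std
  obtain ⟨w, rfl⟩ : ∃ w, v = act g w := ⟨_, (act_inv' g v).symm⟩
  rw [act_mul, act_mul, act_inv, ← act_neg] at hv
  rw [← act_br, ← act_br, ← act_br, ← act_br, ← act_add, std_minus h2 hz (act_injective g hv)]

theorem minus_kf (hv : act z v = -v) : kf K e v = 0 := kf_pm h2 h.fix_e hv

theorem minus_ee (hv : act z v = -v) : br e (br e v) = 0 := by rw [h.sq h2, h.minus_kf h2 hv, mul_zero, zero_smul]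

theorem minus_ff (hv : act z v = -v) : br f (br f v) = 0 := h.symm.minus_ee h2 hv

omit h2 in
theorem minus_e (hv : act z v = -v) : act z (br e v) = -br e v := by rw [act_br, h.fix_e, hv, br_neg_right]

omit h2 in
theorem minus_f (hv : act z v = -v) : act z (br f v) = -br f v := h.symm.minus_e hv

theorem minus_hh (hv : act z v = -v) : br (br e f) (br (br e f) v) = v := by
  have h1 := h.minus h2 (h.minus_e (h.minus_f hv))
  have h3 := h.minus h2 (h.minus_f (h.minus_e hv))
  have h4 := h.minus h2 hv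
  rw [h.minus_ee h2 (h.minus_f hv), br_zero_right, add_zero] at h1
  rw [h.minus_ff h2 (h.minus_e hv), br_zero_right, zero_add] at h3
  simp only [br_jac, br_sub_right, h.minus_ee h2 (h.minus_f hv), h.minus_ff h2 (h.minus_e hv), br_zero_right, h1, h3]
  linear_combination (norm := module) h4

/-- the decomposition into the eigenspaces -/
theorem split (v : L8 K) : ∃ a b, v = a + b ∧ act z a = a ∧ act z b = -b := by
  refine ⟨(2⁻¹ : K) • (v + act z v), (2⁻¹ : K) • (v - act z v), ?_, ?_, ?_⟩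
  · rw [← smul_add, add_add_sub_cancel, ← two_smul K v, smul_smul, inv_mul_cancel₀ h2, one_smul]
  · rw [act_smul, act_add, h.act_act, add_comm]
  · rw [act_smul, act_sub, h.act_act, ← smul_neg, neg_sub]

theorem ext {a b : G8 K} (h1 : ∀ v, act z v = v → act a v = act b v) (h3 : ∀ v, act z v = -v → act a v = act b v) :
    a = b := ext_act fun v => by
  obtain ⟨x, y, rfl, hx, hy⟩ := h.split h2 v
  rw [act_add, act_add, h1 x hx, h3 y hy]

end Rz

/-! ### the subalgebra and the projection -/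

/-- the span of `e`, `f`, `[e, f]` -/
noncomputable def Sz (e f : L8 K) : Submodule K (L8 K) := Submodule.span K {e, f, br e f}

/-- the orthogonal projection -/
noncomputable def pr (e f v : L8 K) : L8 K := kf K f v • e + kf K e v • f + (2⁻¹ * kf K (br e f) v) • br e f

theorem mem_Sz {e f v : L8 K} : v ∈ Sz e f ↔ ∃ a b c : K, v = a • e + b • f + c • br e f := by
  rw [Sz, Submodule.mem_span_triple]
  exact exists_congr fun _ => exists_congr fun _ => exists_congr fun _ => eq_comm

theorem e_mem (e f : L8 K) : e ∈ Sz e f := Submodule.subset_span (by simp)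

theorem f_mem (e f : L8 K) : f ∈ Sz e f := Submodule.subset_span (by simp)

theorem h_mem (e f : L8 K) : br e f ∈ Sz e f := Submodule.subset_span (by simp)

theorem pr_mem (e f v : L8 K) : pr e f v ∈ Sz e f := mem_Sz.2 ⟨_, _, _, rfl⟩

theorem Sz_symm (e f : L8 K) : Sz f e = Sz e f := by
  have h : ∀ e f : L8 K, Sz f e ≤ Sz e f := fun e f v hv => by
    obtain ⟨a, b, c, rfl⟩ := mem_Sz.1 hv
    exact mem_Sz.2 ⟨b, a, -c, by rw [br_anti f e]; module⟩
  exact le_antisymm (h e f) (h f e)

theorem act_Sz (y : G8 K) {e f v : L8 K} (hv : v ∈ Sz e f) : act y v ∈ Sz (act y e) (act y f) := by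
  obtain ⟨a, b, c, rfl⟩ := mem_Sz.1 hv
  exact mem_Sz.2 ⟨a, b, c, by simp only [act_add, act_smul, act_br]⟩

theorem fix_Sz {y : G8 K} {e f v : L8 K} (he : act y e = e) (hf : act y f = f) (hv : v ∈ Sz e f) : act y v = v := by
  obtain ⟨a, b, c, rfl⟩ := mem_Sz.1 hv
  simp only [act_add, act_smul, act_br, he, hf]

theorem br_Sz_zero {e f v w : L8 K} (he : br e w = 0) (hf : br f w = 0) (hv : v ∈ Sz e f) : br v w = 0 := by
  obtain ⟨a, b, c, rfl⟩ := mem_Sz.1 hv
  simp only [br_add_left, br_smul_left, br_jac, he, hf, br_zero_right, smul_zero, add_zero, sub_zero]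

theorem act_pr (y : G8 K) (e f v : L8 K) : act y (pr e f v) = pr (act y e) (act y f) (act y v) := by
  simp only [pr, act_add, act_smul, ← act_br, kf_act]

theorem pr_add (e f v w : L8 K) : pr e f (v + w) = pr e f v + pr e f w := by
  simp only [pr, map_add]
  module

theorem pr_smul (e f : L8 K) (c : K) (v : L8 K) : pr e f (c • v) = c • pr e f v := by
  simp only [pr, map_smul, smul_eq_mul]
  module

namespace Rz

variable {z y : G8 K} {e f e' f' v w : L8 K} (h2 : (2 : K) ≠ 0) (h : Rz z e f)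
include h

theorem fix_of_mem (hv : v ∈ Sz e f) : act z v = v := fix_Sz h.fix_e h.fix_f hv

include h2

theorem kf_pr_e (v : L8 K) : kf K e (pr e f v) = kf K e v := by
  simp only [pr, map_add, map_smul, h.ee0, h.ef, h.kf_eh h2, smul_eq_mul]
  ring

theorem kf_pr_f (v : L8 K) : kf K f (pr e f v) = kf K f v := by
  simp only [pr, map_add, map_smul, h.ff0, h.fe, h.kf_fh h2, smul_eq_mul]
  ring

theorem kf_pr_h (v : L8 K) : kf K (br e f) (pr e f v) = kf K (br e f) v := by
  simp only [pr, map_add, map_smul, h.kf_he h2, h.kf_hf h2, h.kf_hh h2, smul_eq_mul]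
  field_simp
  ring

theorem kf_pr (hw : w ∈ Sz e f) (v : L8 K) : kf K w (pr e f v) = kf K w v := by
  obtain ⟨a, b, c, rfl⟩ := mem_Sz.1 hw
  simp only [map_add, map_smul, LinearMap.add_apply, LinearMap.smul_apply, h.kf_pr_e h2, h.kf_pr_f h2, h.kf_pr_h h2]

theorem pr_eq (hv : v ∈ Sz e f) : pr e f v = v := by
  obtain ⟨a, b, c, rfl⟩ := mem_Sz.1 hv
  simp only [pr, map_add, map_smul, h.ee0, h.ef, h.kf_eh h2, h.ff0, h.fe, h.kf_fh h2, h.kf_he h2, h.kf_hf h2,
    h.kf_hh h2, smul_eq_mul]
  match_scalars <;> field_simp <;> ring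

/-- the form is nondegenerate on the subalgebra -/
theorem nd (hv : v ∈ Sz e f) (h0 : ∀ w ∈ Sz e f, kf K w v = 0) : v = 0 := by
  rw [← h.pr_eq h2 hv, pr, h0 _ (e_mem e f), h0 _ (f_mem e f), h0 _ (h_mem e f)]
  simp

theorem pr_congr (h' : Rz y e' f') (hS : Sz e f = Sz e' f') (v : L8 K) : pr e f v = pr e' f' v := by
  rw [← sub_eq_zero]
  refine h.nd h2 (sub_mem (pr_mem e f v) (hS ▸ pr_mem e' f' v)) fun w hw => ?_
  rw [map_sub, h.kf_pr h2 hw, h'.kf_pr h2 (hS ▸ hw), sub_self]

/-- the subalgebra is an ideal of the fixed space of `z` -/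
theorem br_mem (hv : v ∈ Sz e f) (hw : act z w = w) : br v w ∈ Sz e f := by
  obtain ⟨a, b, c, rfl⟩ := mem_Sz.1 hv
  simp only [br_add_left, br_smul_left, h.plus_e h2 hw, h.plus_f h2 hw, h.plus_h h2 hw]
  exact add_mem (add_mem (Submodule.smul_mem _ _ (sub_mem (Submodule.smul_mem _ _ (h_mem e f))
    (Submodule.smul_mem _ _ (e_mem e f)))) (Submodule.smul_mem _ _ (sub_mem (Submodule.smul_mem _ _ (f_mem e f))
    (Submodule.smul_mem _ _ (h_mem e f))))) (Submodule.smul_mem _ _ (sub_mem (Submodule.smul_mem _ _ (e_mem e f))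
    (Submodule.smul_mem _ _ (f_mem e f))))

/-- a fixed vector orthogonal to the subalgebra commutes with it -/
theorem br_perp (hv : v ∈ Sz e f) (hw : act z w = w) (h0 : ∀ x ∈ Sz e f, kf K x w = 0) : br v w = 0 :=
  br_Sz_zero (by rw [h.plus_e h2 hw, h0 _ (e_mem e f), h0 _ (h_mem e f)]; simp)
    (by rw [h.plus_f h2 hw, h0 _ (f_mem e f), h0 _ (h_mem e f)]; simp) hv

theorem br_pr (hv : v ∈ Sz e f) (hw : act z w = w) : br v w = br v (pr e f w) := by
  rw [← sub_eq_zero, ← br_sub_right]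
  refine h.br_perp h2 hv (by rw [act_sub, hw, h.fix_of_mem (pr_mem e f w)]) fun x hx => ?_
  rw [map_sub, h.kf_pr h2 hx, sub_self]

/-- a vector commuting with `e`, `f` is fixed by `z` -/
theorem fix_of_br (he : br e w = 0) (hf : br f w = 0) : act z w = w := by
  obtain ⟨a, b, rfl, ha, hb⟩ := h.split h2 w
  have h1 : ∀ {x}, act z x = x → br x (a + b) = 0 → br x b = 0 := fun {x} hx h0 => by
    have h3 := congrArg (act z) h0
    rw [act_br, hx, act_add, ha, hb, act_zero] at h3
    refine half h2 ?_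
    simp only [br_add_right, br_neg_right] at h0 h3
    linear_combination (norm := module) h0 - h3
  have h3 := h.minus h2 hb
  rw [h1 h.fix_e he, h1 h.fix_f hf, br_zero_right, br_zero_right, add_zero] at h3
  rw [← h3, add_zero, ha]

/-- the subalgebra determines the involution -/
theorem eq_of_Sz (h' : Rz y e' f') (hS : Sz e f = Sz e' f') : z = y := by
  have key : ∀ {z y : G8 K} {e f e' f' : L8 K}, Rz z e f → Rz y e' f' → Sz e f = Sz e' f' →
      ∀ v, act z v = v → act y v = v := by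
    intro z y e f e' f' h h' hS v hv
    have h1 : act z (v - pr e f v) = v - pr e f v := by rw [act_sub, hv, h.fix_of_mem (pr_mem e f v)]
    have h3 : ∀ x ∈ Sz e f, kf K x (v - pr e f v) = 0 := fun x hx => by rw [map_sub, h.kf_pr h2 hx, sub_self]
    have h4 := h'.fix_of_br h2 (h.br_perp h2 (hS ▸ e_mem e' f') h1 h3) (h.br_perp h2 (hS ▸ f_mem e' f') h1 h3)
    rw [act_sub, h'.fix_of_mem (v := pr e f v) (hS ▸ pr_mem e f v)] at h4
    exact sub_left_injective h4
  refine h.ext h2 (fun v hv => by rw [hv, key h h' hS v hv]) fun v hv => ?_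
  obtain ⟨a, b, rfl, ha, hb⟩ := h'.split h2 v
  have h1 : a = 0 := kf_nd fun w => by
    obtain ⟨c, d, rfl, hc, hd⟩ := h'.split h2 w
    have h3 := kf_pm h2 (key h' h hS.symm c hc) hv
    rw [map_add, kf_pm h2 hc hb, add_zero] at h3
    rw [map_add, kf_pm h2 ha hd, add_zero, kf_comm, h3]
  rw [hv, act_add, ha, hb, h1, zero_add, zero_add]

/-- an extremal vector fixed by `z` lies in the subalgebra or is orthogonal to it -/
theorem extr_mem (hv : Extr v) (hz : act z v = v) (hw : w ∈ Sz e f) (h0 : kf K v w ≠ 0) : v ∈ Sz e f := by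
  have h1 : br v w ∈ Sz e f := by
    rw [br_anti]
    exact neg_mem (h.br_mem h2 hw hz)
  have h3 : br v (br v w) ∈ Sz e f := by
    rw [br_anti]
    exact neg_mem (h.br_mem h2 h1 hz)
  rw [Extr.sq h2 hv] at h3
  exact (Submodule.smul_mem_iff _ (mul_ne_zero (neg_ne_zero.2 h2) h0)).1 h3

theorem indep {a b c : K} (h0 : a • e + b • f + c • br e f = 0) : a = 0 ∧ b = 0 ∧ c = 0 := by
  have h1 := congrArg (kf K e) h0
  have h3 := congrArg (kf K f) h0
  have h4 := congrArg (kf K (br e f)) h0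
  simp only [map_add, map_smul, h.ee0, h.ef, h.kf_eh h2, h.ff0, h.fe, h.kf_fh h2, h.kf_he h2, h.kf_hf h2,
    h.kf_hh h2, smul_eq_mul, map_zero] at h1 h3 h4
  exact ⟨by linear_combination h3, by linear_combination h1, mul_left_cancel₀ h2 (by linear_combination h4)⟩

theorem finrank_Sz : finrank K ↥(Sz e f) = 3 := by
  have h1 : LinearIndependent K ![e, f, br e f] := by
    rw [Fintype.linearIndependent_iff]
    intro g hg i
    simp only [Fin.sum_univ_three, Matrix.cons_val] at hg
    obtain ⟨e1, e2, e3⟩ := h.indep h2 hg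
    fin_cases i
    exacts [e1, e2, e3]
  have h3 := finrank_span_eq_card h1
  rwa [show Set.range ![e, f, br e f] = {e, f, br e f} by
    rw [Matrix.range_cons, Matrix.range_cons, Matrix.range_cons_empty]; rfl] at h3

theorem Sz_eq (h' : Rz y e' f') (he : e' ∈ Sz e f) (hf : f' ∈ Sz e f) : Sz e' f' = Sz e f := by
  refine Submodule.eq_of_le_of_finrank_eq ?_ (by rw [h.finrank_Sz h2, h'.finrank_Sz h2])
  rw [Sz, Submodule.span_le]
  rintro x (rfl | rfl | rfl)
  exacts [he, hf, h.br_mem h2 he (h.fix_of_mem hf)]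

end Rz

/-! ### the elements of order 4 -/

/-- `g` acts as `ad A` on the `-1`-eigenspace of `z` and as `1 + (ad A) ^ 2 / 2` on the fixed space -/
structure Nn (z : G8 K) (A : L8 K) (g : G8 K) : Prop where
  minus : ∀ v, act z v = -v → act g v = br A v
  plus : ∀ v, act z v = v → act g v = v + (2⁻¹ : K) • br A (br A v)

theorem Nn.conj {z g z' : G8 K} {A : L8 K} (h : Nn z A g) {y : G8 K} (hy : y * z = z' * y) :
    Nn z' (act y A) (y * g * y⁻¹) := by
  have h1 : ∀ w, act z' (act y w) = act y (act z w) := fun w => by rw [← act_mul, ← hy, act_mul]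
  constructor
  · intro v hv
    obtain ⟨w, rfl⟩ : ∃ w, v = act y w := ⟨_, (act_inv' y v).symm⟩
    rw [h1, ← act_neg] at hv
    rw [act_mul, act_mul, act_inv, h.minus w (act_injective y hv), act_br]
  · intro v hv
    obtain ⟨w, rfl⟩ : ∃ w, v = act y w := ⟨_, (act_inv' y v).symm⟩
    rw [h1] at hv
    rw [act_mul, act_mul, act_inv, h.plus w (act_injective y hv), act_add, act_smul, act_br, act_br]

theorem Nn.neg {z g : G8 K} {A : L8 K} (h : Nn z A g) : Nn z (-A) (g * z) := by
  constructor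
  · intro v hv
    rw [act_mul, hv, act_neg, h.minus v hv, br_neg_left]
  · intro v hv
    rw [act_mul, hv, h.plus v hv, br_neg_left, br_neg_left, br_neg_right, neg_neg]

namespace Rz

variable {z g g' : G8 K} {e f A v : L8 K} (h2 : (2 : K) ≠ 0) (h : Rz z e f)
include h2 h

theorem nn_unique (H : Nn z A g) (H' : Nn z A g') : g = g' :=
  h.ext h2 (fun v hv => by rw [H.plus v hv, H'.plus v hv]) fun v hv => by rw [H.minus v hv, H'.minus v hv]

theorem AA_minus (hv : act z v = -v) : br (e - f) (br (e - f) v) = -v := by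
  simp only [br_sub_left, br_sub_right, h.minus_ee h2 hv, h.minus_ff h2 hv]
  linear_combination (norm := module) -h.minus h2 hv

theorem AA_plus (hv : act z v = v) : br (e - f) (br (e - f) v) =
    (-2 * kf K (br e f) v) • br e f - (2 * (kf K e v + kf K f v)) • (e + f) := by
  simp only [br_sub_left, br_sub_right, br_smul_right, h.plus_e h2 hv, h.plus_f h2 hv, h.eh h2, h.fh h2, br_self,
    br_anti f e]
  module

theorem exists_nn : ∃ g, Nn z (e - f) g := by
  have h' := h
  obtain ⟨y, r, he, hf, -⟩ := h'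
  have a1 : ∀ v, act (ux y r 1) v = v + br e v - kf K e v • e := fun v => by
    rw [act_ux, ← he, one_smul, one_pow, one_mul]
  have a2 : ∀ v, act (ux y (op r) (-1)) v = v - br f v - kf K f v • f := fun v => by
    rw [act_ux, ← hf, neg_one_smul, neg_one_sq, one_mul, sub_eq_add_neg v]
  refine ⟨ux y r 1 * ux y (op r) (-1) * ux y r 1, fun v hv => ?_, fun v hv => ?_⟩
  · have b1 : ∀ v, act z v = -v → act (ux y r 1) v = v + br e v := fun v hv => by
      rw [a1, h.minus_kf h2 hv, zero_smul, sub_zero]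
    have b2 : ∀ v, act z v = -v → act (ux y (op r) (-1)) v = v - br f v := fun v hv => by
      rw [a2, h.symm.minus_kf h2 hv, zero_smul, sub_zero]
    have c1 := h.minus_e hv
    have c2 := h.minus_f hv
    have c3 := h.minus_f c1
    have d1 := h.minus h2 hv
    have d2 := h.minus h2 c1
    rw [h.minus_ee h2 hv, br_zero_right, add_zero] at d2
    simp only [act_mul, act_add, act_sub, b1 v hv, b2 v hv, b2 _ c1, b1 _ c1, b1 _ c2, b1 _ c3, h.minus_ee h2 hv, d2,
      br_sub_left]
    linear_combination (norm := module) -d1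
  · rw [h.AA_plus h2 hv]
    simp only [act_mul, a1, a2, br_add_right, br_sub_right, br_smul_right, map_add, map_sub, map_smul, smul_eq_mul,
      h.plus_e h2 hv, h.plus_f h2 hv, h.eh h2, h.fh h2, br_self, br_anti f e, h.ee0, h.ff0, h.ef, h.fe, h.kf_eh h2,
      h.kf_fh h2, map_neg, br_neg_right]
    match_scalars <;> field_simp <;> ring

theorem nn_sq (H : Nn z (e - f) g) : g * g = z := by
  refine h.ext h2 (fun v hv => ?_) fun v hv => ?_
  · have b1 : ∀ v, act z v = v → act g v = v - kf K (br e f) v • br e f - (kf K e v + kf K f v) • (e + f) :=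
      fun v hv => by
        rw [H.plus v hv, h.AA_plus h2 hv]
        match_scalars <;> field_simp
    simp only [act_mul, act_sub, act_add, act_smul, b1 v hv, b1 _ h.fix_e, b1 _ h.fix_f, b1 _ h.fix_h, hv, h.ee0,
      h.ff0, h.ef, h.fe, h.kf_eh h2, h.kf_fh h2, h.kf_he h2, h.kf_hf h2, h.kf_hh h2]
    module
  · rw [act_mul, H.minus v hv, H.minus _ (by rw [act_br, act_sub, h.fix_e, h.fix_f, hv, br_neg_right]),
      h.AA_minus h2 hv, hv]

theorem nn_inv (H : Nn z (e - f) g) : g⁻¹ = g * z := by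
  rw [inv_eq_iff_mul_eq_one, ← mul_assoc, h.nn_sq h2 H, h.one]

theorem nn_neg (H : Nn z (e - f) g) : Nn z (-(e - f)) g⁻¹ := by
  rw [h.nn_inv h2 H]
  exact H.neg

end Rz

end Cfsg.Agent.E8A.Odd
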