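import Cfsg.Agent.E8A.Odd.Num
import Cfsg.Agent.R2.T1.T2p.GenA

/-!
# S5772 in odd characteristic: the assembly of the boxes (helper44)

* `odd_all` : degree at least 8; `h3_of`, `h5_of`, `no14_of`.
-/

set_option autoImplicit false
set_option maxRecDepth 100000

namespace Cfsg.Agent.E8A.Odd

open Cfsg Cfsg.Lie Module Equiv Equiv.Perm
open Cfsg.Agent.H952.F4 (MaxAlt ev)
open Cfsg.Agent.R2.T1.Odd

universe u v w

section

variable {F : Type u} [Field F] {K : Type v} [Field K] {n : ℕ} [NeZero n]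

theorem all_P (hn : 2 ≤ n) (S : Subgroup (Alt n)) (h : ∀ l, vl n l = true → P n l ∈ S) (a : Alt n) : a ∈ S := by
  refine R2.T1.T2p.gen_alt S (fun _ => True) (p0 := Fin.ofNat n 0) (p1 := Fin.ofNat n 1)
    (fun e => zero_ne_one (ofNat_inj (by omega) (by omega) e)) trivial (fun k _ hk b hb => ?_) a
    fun i hi => absurd trivial hi
  have h3 : vl n [(0, 1), (0, k.val)] = true := vl_iff.2 ⟨by simp, by
    intro x hx
    rcases List.mem_pair.1 hx with rfl | rfl
    · exact ⟨by omega, by omega, zero_ne_one⟩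
    · exact ⟨by omega, k.2, fun e => hk (Fin.ext ((show 0 = k.val from e).symm.trans (val_ofNat' (by omega)).symm))⟩⟩
  have h4 : b = P n [(0, 1), (0, k.val)] := by
    apply Subtype.ext
    rw [coe_P le_rfl h3, pm_cons, pm_cons, pm_nil, mul_one, hb]
    congr 2
    exact Fin.ext (val_ofNat' k.2).symm
  rw [h4]
  exact h _ h3

theorem em_em {L : Type w} [Field L] (f : F →+* K) (g : K →+* L) (x : G8 F) : em g (em f x) = em (g.comp f) x := by
  apply Subtype.ext
  apply Units.ext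
  show mx (em g (em f x)) = mx (em (g.comp f) x)
  rw [mx_em, mx_em, mx_em, Matrix.map_map, RingHom.coe_comp]

theorem num_em (f : F →+* K) {φ : Alt n →* G8 F} (h : Num φ) : Num ((em f).comp φ) := by
  have h1 : finrank K ↥(inv (Inf.rp ((em f).comp φ)) (Tg n gQs)) = finrank F ↥(inv (Inf.rp φ) (Tg n gQs)) := by
    rw [inv_eq_invariants, inv_eq_invariants]
    exact Inf.finrank_inv_em f (φ.comp (Tg n gQs).subtype)
  unfold Num at h ⊢
  rwa [h1, MonoidHom.comp_apply, MonoidHom.comp_apply, Inf.ev_em_one, Inf.ev_em_one]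

theorem ell_em (f : F →+* K) {g : G8 F} {v : L8 F} (h : Ell g v) : Ell (em f g) (mp f v) := by
  unfold Ell at h ⊢
  rw [← map_inv, adm_mp, mx_em, mx_em, ← Matrix.map_sub _ (map_sub f), ← Matrix.map_add _ (map_add f), ← map_zero f,
    H815.F4Chg.ev_map]
  exact h

theorem so3_em (f : F →+* K) (hf : Function.Surjective f) {a x t : G8 F} (h : So3 a x t) :
    So3 (em f a) (em f x) (em f t) := by
  obtain ⟨A, g, h1, h2, h3, h4, h5, h6, h7, h8, h9⟩ := h
  have hs : ∀ v : L8 K, ∃ w, mp f w = v := fun v => ⟨fun i => (hf (v i)).choose, funext fun i => (hf (v i)).choose_spec⟩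
  refine ⟨mp f A, em f g, ?_, ?_, ?_, ?_, ?_, ?_, fun v hv => ?_, fun v hv => ?_, fun v hv hv' => ?_⟩
  · rw [act_em, act_em, ← mp_add, ← mp_add]
    exact ell_em f h1
  · rw [act_em, h2]
  · rw [act_em, act_em, h3, mp_neg]
  · rw [act_em, act_em, act_em, h4, mp_neg]
  · rw [act_em, act_em, br_mp, h5]
  · rw [← map_mul, h6]
  · obtain ⟨w, rfl⟩ := hs v
    rw [act_em, ← mp_neg] at hv
    rw [act_em, br_mp, h7 w (mp_injective f hv)]
  · obtain ⟨w, rfl⟩ := hs v
    rw [act_em] at hv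
    rw [act_em, br_mp, br_mp, h8 w (mp_injective f hv), mp_add, mp_smul, map_inv₀, map_ofNat]
  · obtain ⟨w, rfl⟩ := hs v
    rw [act_em] at hv
    rw [act_em, ← mp_neg] at hv'
    rw [br_mp, h9 w (mp_injective f hv) (mp_injective f hv'), mp_zero]

theorem exists_iso (F : Type u) [Field F] [Finite F] (p : ℕ) [Fact p.Prime] [CharP F p] :
    Nonempty (Kb F ≃+* Kb (ZMod p)) := by
  let _ := ZMod.algebra F p
  have : Algebra.IsAlgebraic (ZMod p) F := Algebra.IsAlgebraic.of_finite _ _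
  exact ⟨(IsAlgClosure.equivOfAlgebraic (ZMod p) F (Kb F) (Kb (ZMod p))).toRingEquiv⟩

end

/-- **odd characteristic, degree at least 8** -/
theorem odd_all (hA : THA) (h2 : PT2) (h3 : PT3.{u}) {F : Type u} [Field F] [Finite F] (p : ℕ) [Fact p.Prime] [CharP F p]
    (hp : p ≠ 2) {H : Subgroup (G8 F)} {n : ℕ} {φ : Alt n →* G8 F} (hM : MaxAlt H n φ) (h8 : 8 ≤ n) (h18 : n ≤ 18)
    (hfx : n = 8 → NoFx φ) : False := by
  have : NeZero n := ⟨by omega⟩
  have hF : (2 : F) ≠ 0 := fun h => hp ((Nat.prime_dvd_prime_iff_eq Fact.out Nat.prime_two).1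
    ((CharP.cast_eq_zero_iff F p 2).1 (by exact_mod_cast h)))
  obtain ⟨f⟩ := exists_iso F p
  let ι : F →+* Kb (ZMod p) := f.toRingHom.comp (algebraMap F (Kb F))
  have k1 : ∀ σ : MulAut (Alt n), Num ((em ι).comp (φ.comp σ.toMonoidHom)) := fun σ =>
    num_em ι (num F hF n h8 _ (hM.inj.comp σ.injective))
  have k2 : ∀ σ : MulAut (Alt n), Function.Injective ((em ι).comp (φ.comp σ.toMonoidHom)) := fun σ =>
    (em_injective ι).comp (hM.inj.comp σ.injective)
  have k3 : ∀ σ : MulAut (Alt n), ThA ((em ι).comp (φ.comp σ.toMonoidHom)) := fun σ =>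
    hA p hp n h8 _ (k2 σ) fun τ => k1 (σ * τ)
  by_cases hn : n = 8
  · have h4 := Inf.NoFx.em ι (hfx hn)
    subst hn
    obtain ⟨-, z, e, e', ⟨g, r, he, -⟩, h5⟩ := k3 1
    refine ee_ne_zero (K := Kb (ZMod p)) (Sum.inr r) (act_eq_zero (g := g) ?_)
    rw [← he]
    exact h4 e (all_P (by norm_num) ((stab e).comap ((em ι).comp φ)) fun l hl => (h5 l hl).1)
  · refine h3 F hF n (by omega) h18 H φ hM fun σ => ?_
    have h4 := so3_em f.symm.toRingHom f.symm.surjective (h2 p hp n (by omega) _ (k2 σ) (k1 σ).1 (k3 σ))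
    have h5 : ∀ y : G8 F, em f.symm.toRingHom (em ι y) = emb0 y := fun y => by
      rw [em_em]
      congr 2
      exact RingHom.ext fun c => f.symm_apply_apply _
    simp only [MonoidHom.comp_apply, h5] at h4
    exact h4

theorem h3_of (hA : THA) (h2 : PT2) (h3 : PT3.{u}) : ∀ n, 8 ≤ n → n ≤ 18 → CASE.{u} n fun p => p = 3 :=
  fun _ h8 h18 _ _ _ p _ _ hp _ _ hM hfx => odd_all hA h2 h3 p (by omega) hM h8 h18 fun _ => hfx

theorem h5_of (hA : THA) (h2 : PT2) (h3 : PT3.{u}) : ∀ n, 8 ≤ n → n ≤ 17 → CASE.{u} n fun p => 5 ≤ p :=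
  fun _ h8 h17 _ _ _ p _ _ hp _ _ hM hfx => odd_all hA h2 h3 p (by omega) hM h8 (by omega) fun _ => hfx

theorem no14_of (hA : THA) (h2 : PT2) (h3 : PT3.{u}) : NO14.{u} := by
  intro F _ _ hq H n φ hM h14 h18
  obtain ⟨p, hp, _⟩ := exists_char F
  have := Fact.mk hp
  have := Fintype.ofFinite F
  refine odd_all hA h2 h3 p ?_ hM (by omega) h18 fun h => by omega
  rintro rfl
  obtain ⟨k, -, hk⟩ := FiniteField.card F 2
  rw [Nat.card_eq_fintype_card, hk] at hq
  have h4 : 2 ∣ 2 ^ (k : ℕ) := dvd_pow_self 2 k.ne_zero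
  omega

end Cfsg.Agent.E8A.Odd
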