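import Cfsg.Agent.E8A.Odd.Iface
import Cfsg.Agent.E8A.Two.El
import Cfsg.Agent.E8A.Inf.Tab

/-!
# S5772 in odd characteristic: the box NUM (helper44)
-/

set_option autoImplicit false
set_option maxRecDepth 100000

namespace Cfsg.Agent.E8A.Odd.Nm

open Cfsg Cfsg.Lie Module
open Cfsg.Agent.H952.F4 (MaxAlt ev)
open Cfsg.Agent.R2.T1.Odd Cfsg.Agent.R2.T1.Art Cfsg.Agent.E8A.Two.Mk

universe u

/-- the Sylow 2-subgroup -/
def gB : List SW := [[(0, 1), (2, 3)], [(0, 2), (1, 3)], [(4, 5), (6, 7)], [(4, 6), (5, 7)], [(0, 4), (1, 5), (2, 6), (3, 7)], [(0, 1), (4, 5)]]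

/-- the elements -/
def eB : List (List ℕ) := [[], [0], [1], [2], [3], [4], [5], [0, 1], [0, 2], [0, 3], [0, 4], [0, 5], [1, 2], [1, 3], [1, 4], [1, 5], [2, 3], [2, 4], [2, 5], [3, 4], [3, 5], [4, 5], [5, 1], [5, 3], [0, 1, 2], [0, 1, 3], [0, 1, 4], [0, 2, 3], [0, 2, 4], [0, 2, 5], [0, 3, 4], [0, 3, 5], [0, 4, 5], [0, 5, 3], [1, 2, 3], [1, 2, 4], [1, 2, 5], [1, 3, 4], [1, 3, 5], [1, 4, 5], [1, 5, 3], [2, 3, 4], [2, 4, 5], [2, 5, 1], [3, 4, 5], [3, 5, 1], [4, 5, 1], [4, 5, 3], [5, 1, 3], [0, 1, 2, 3], [0, 1, 2, 4], [0, 1, 3, 4], [0, 2, 3, 4], [0, 2, 4, 5], [0, 3, 4, 5], [0, 4, 5, 1], [1, 2, 3, 4], [1, 2, 4, 5], [1, 3, 4, 5], [1, 4, 5, 1], [2, 4, 5, 3], [3, 4, 5, 3], [4, 5, 1, 3], [0, 1, 2, 3, 4]]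

/-- the classes -/
def dB : List (ℕ × SW) :=
  [(0, []),
   (1, []),
   (1, [(1, 2), (2, 3)]),
   (1, [(0, 4), (1, 5), (2, 6), (3, 7)]),
   (1, [(0, 4), (1, 6), (2, 5), (3, 7)]),
   (2, [(0, 5), (2, 7)]),
   (1, [(2, 4), (3, 5)]),
   (1, [(1, 3), (3, 2)]),
   (2, []),
   (2, [(5, 6), (6, 7)]),
   (4, [(1, 4), (4, 2), (3, 5), (5, 6)]),
   (1, [(0, 5), (1, 4)]),
   (2, [(0, 3), (4, 5)]),
   (2, [(1, 2), (5, 6)]),
   (4, [(1, 4), (3, 6)]),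
   (3, [(1, 3), (3, 2)]),
   (1, [(0, 7), (1, 4), (2, 6), (3, 5)]),
   (4, [(0, 3), (3, 7), (7, 4), (1, 6)]),
   (1, [(2, 6), (3, 7)]),
   (4, [(1, 6), (3, 4)]),
   (3, [(0, 4), (1, 7), (7, 3), (3, 6), (6, 2), (2, 5)]),
   (2, [(0, 4), (2, 7)]),
   (3, [(0, 2), (2, 3)]),
   (3, [(0, 5), (5, 1), (1, 7), (7, 2), (2, 4), (3, 6)]),
   (2, [(1, 3), (3, 2)]),
   (2, [(1, 3), (4, 7)]),
   (4, [(1, 4), (2, 3), (3, 7), (7, 6)]),
   (2, [(5, 7), (7, 6)]),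
   (2, [(0, 4), (2, 6)]),
   (1, [(0, 6), (6, 5), (1, 7), (2, 3)]),
   (4, [(0, 5), (5, 1), (2, 6), (6, 7)]),
   (3, [(0, 4), (4, 2), (2, 5), (5, 3), (3, 6), (1, 7)]),
   (4, [(0, 3), (3, 6), (6, 5), (1, 7)]),
   (3, [(0, 5), (5, 3), (3, 6), (6, 1), (1, 7), (2, 4)]),
   (2, [(1, 2), (5, 7)]),
   (4, [(1, 5), (5, 4), (2, 3), (3, 6)]),
   (3, [(1, 3), (3, 2), (4, 6), (5, 7)]),
   (2, [(0, 7), (3, 4)]),
   (4, [(0, 3), (4, 7)]),
   (4, [(0, 7), (7, 5), (5, 6), (2, 4)]),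
   (4, [(0, 3), (5, 6)]),
   (4, [(0, 4), (4, 5), (5, 1), (2, 7)]),
   (4, [(0, 6), (1, 2), (2, 7), (7, 4)]),
   (3, [(0, 2), (2, 3), (4, 6), (5, 7)]),
   (4, [(0, 6), (1, 2), (2, 4), (4, 3)]),
   (4, [(1, 2), (4, 7)]),
   (4, [(0, 7), (7, 6), (1, 3), (2, 4)]),
   (4, [(0, 6), (2, 4), (4, 3), (5, 7)]),
   (4, [(1, 2), (5, 6)]),
   (2, [(0, 2), (4, 6)]),
   (4, [(1, 5), (5, 4), (3, 7), (7, 6)]),
   (4, [(0, 3), (3, 4), (1, 5), (5, 6)]),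
   (4, [(1, 7), (7, 4), (3, 5), (5, 6)]),
   (2, [(1, 4), (3, 7)]),
   (4, [(0, 6), (1, 3), (2, 5), (5, 4)]),
   (4, [(0, 4), (4, 1), (2, 6), (5, 7)]),
   (4, [(1, 7), (7, 4), (4, 2), (3, 6)]),
   (4, [(0, 6), (6, 2), (2, 4), (4, 1)]),
   (4, [(0, 5), (5, 6), (1, 2), (2, 4)]),
   (2, [(0, 7), (3, 5)]),
   (4, [(0, 6), (2, 5), (5, 7), (7, 4)]),
   (2, [(0, 6), (2, 5)]),
   (4, [(0, 3), (3, 5), (1, 4), (4, 7)]),
   (2, [(0, 6), (2, 4)])]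

theorem cGB : chkG 8 gB eB = true := by decide +kernel

theorem cKB : chkC 8 gB eB [] [[], lt, ls, l42, l44] dB = true := by decide +kernel

theorem cnB : (List.range 5).map (fun k => (dB.map Prod.fst).count k) = [1, 10, 17, 8, 28] := by decide +kernel

theorem gQ_le {n : ℕ} [NeZero n] : Tg n gQ ≤ Tg n gQs := by
  refine Subgroup.closure_mono ?_
  rintro x ⟨y, hy, rfl⟩
  exact ⟨y, (by decide : ∀ y ∈ gQ, y ∈ gQs) y hy, rfl⟩

end Cfsg.Agent.E8A.Odd.Nm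

namespace Cfsg.Agent.E8A.Odd

open Cfsg Cfsg.Lie Module
open Cfsg.Agent.H952.F4 (MaxAlt ev)
open Cfsg.Agent.R2.T1.Odd Cfsg.Agent.R2.T1.Art Cfsg.Agent.E8A.Two.Mk Cfsg.Agent.E8A.Odd.Nm

universe u

/-- **NUM** -/
theorem num : NUM.{u} := by
  intro F _ _ h2 n _ hn φ hφ
  let ρ : Representation F (Alt n) (L8 F) := Inf.rp φ
  have hρ : ∀ a, ρ a = LK F (φ a) := fun _ => rfl
  have h1 := dim_Q hn h2 ρ
  have h3 := dim_Qs hn h2 ρ
  have h4 := dim_Qj hn h2 ρ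
  have h5 := dimC hn cGB cKB (N := 64) (K := 5) rfl rfl (by simpa using two_pow_ne h2 6) cnB ρ
  simp only [Finset.sum_range_succ, Finset.sum_range_zero, List.getD_cons_zero, List.getD_cons_succ, P_nil] at h5
  have h6 : finrank F ↥(inv ρ (Tg n gQs)) ≤ finrank F ↥(inv ρ (Tg n gQ)) := Submodule.finrank_mono (inv_mono gQ_le)
  have e1 : ev (ρ (P n l42 ^ 2)) 1 = ev (ρ (P n lt)) 1 := by
    rw [← P_pwl hn (by decide)]
    exact evP ρ hn [(1, 2), (2, 3)] (by decide)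
  have e2 : ev (ρ (P n l44 ^ 2)) 1 = ev (ρ (P n ls)) 1 := by
    rw [← P_pwl hn (by decide)]
    exact evP ρ hn [(1, 2), (5, 6)] (by decide)
  have o1 := om_prime ρ Nat.prime_two (orderOf_P (l := lt) hn (by decide +kernel))
  have o2 := om_prime ρ Nat.prime_two (orderOf_P (l := ls) hn (by decide +kernel))
  have o3 := om_four ρ (orderOf_P (l := l42) hn (by decide +kernel))
  have o4 := om_four ρ (orderOf_P (l := l44) hn (by decide +kernel))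
  rw [e1] at o3
  rw [e2] at o4
  rw [Inf.finrank_L8] at o1 o2
  rw [om_one, Inf.finrank_L8, o1, o2] at h1
  rw [om_one, Inf.finrank_L8, o1, o2, o4] at h3
  rw [om_one, Inf.finrank_L8, o1, o2, o3, o4] at h4 h5
  have h4' : (4 : F) ≠ 0 := by
    rw [show (4 : F) = 2 * 2 by norm_num]
    exact mul_ne_zero h2 h2
  have ne : ∀ {a : SW}, (vl 8 a && !(cd 8 a == cd 8 [])) = true → φ (P n a) ≠ 1 := fun h e =>
    P_ne_one hn h (hφ (e.trans (map_one φ).symm))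
  have pw : ∀ {a : SW} {k : ℕ}, vl 8 a = true → cd 8 (pwl a k) = cd 8 [] → φ (P n a) ^ k = 1 := fun h hc => by
    rw [← map_pow, P_pow_one hn h hc, map_one]
  have t1 := Inf.two h2 (x := φ (P n lt)) (pw (by decide) (by decide)) (ne (by decide))
  have t2 := Inf.two h2 (x := φ (P n ls)) (pw (by decide) (by decide)) (ne (by decide))
  have t3 := Inf.tab Inf.chk_T4 (by exact_mod_cast h4') (x := φ (P n l42)) (pw (by decide) (by decide)) (by simp)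
  have t4 := Inf.tab Inf.chk_T4 (by exact_mod_cast h4') (x := φ (P n l44)) (pw (by decide) (by decide)) (by simp)
  simp only [Inf.T4, List.map, pow_one, ← map_pow, ← hρ, e1, e2, List.mem_cons, List.cons.injEq, and_true,
    List.not_mem_nil, or_false] at t3 t4
  rw [← hρ] at t1 t2
  show ev (ρ (P n ls)) 1 = 120 ∧ (ev (ρ (P n lt)) 1 = 120 ∨
    (ev (ρ (P n lt)) 1 = 136 ∧ finrank F ↥(inv ρ (Tg n gQs)) = 9))
  generalize ev (ρ (P n lt)) 1 = dt at *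
  generalize ev (ρ (P n ls)) 1 = ds at *
  generalize ev (ρ (P n l42)) 1 = d42 at *
  generalize ev (ρ (P n l44)) 1 = d44 at *
  generalize finrank F ↥(inv ρ (Tg n gQs)) = fQ at *
  generalize finrank F ↥(inv ρ (Tg n gQ)) = fD at *
  generalize finrank F ↥(inv ρ (Tg n gQj)) = fJ at *
  generalize finrank F ↥(inv ρ (Tg n gB)) = fB at *
  have k1 : 16 * fD + 3472 = 12 * dt + 18 * ds := by
    have : (16 * fD + 3472 : ℚ) = 12 * dt + 18 * ds := by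
      push_cast at h1
      linarith
    exact_mod_cast this
  have k3 : 32 * fQ + 4464 = 12 * dt + 14 * ds + 24 * d44 := by
    have : (32 * fQ + 4464 : ℚ) = 12 * dt + 14 * ds + 24 * d44 := by
      push_cast at h3
      linarith
    exact_mod_cast this
  have k4 : 32 * fJ + 4464 = 12 * dt + 14 * ds + 16 * d42 + 8 * d44 := by
    have : (32 * fJ + 4464 : ℚ) = 12 * dt + 14 * ds + 16 * d42 + 8 * d44 := by
      push_cast at h4
      linarith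
    exact_mod_cast this
  have k5 : 64 * fB + 6448 = 12 * dt + 6 * ds + 16 * d42 + 56 * d44 := by
    have : (64 * fB + 6448 : ℚ) = 12 * dt + 6 * ds + 16 * d42 + 56 * d44 := by
      push_cast at h5
      linarith
    exact_mod_cast this
  clear h1 h3 h4 h5 o1 o2 o3 o4 e1 e2
  rcases t1 with rfl | rfl <;> rcases t2 with rfl | rfl <;> omega

end Cfsg.Agent.E8A.Odd
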