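import Mathlib

/-!
# Box PT2: a lemma of linear algebra in dimension 3 (helper41)

* `la3` : two commuting maps `M`, `N = - M*` which anticommute with an orthogonal involution are equal up to sign.
-/

set_option autoImplicit false

namespace Cfsg.Agent.E8A.Odd

open Module

variable {K V : Type*} [Field K] [AddCommGroup V] [Module K V]

/-- the data -/
structure La (U : Submodule K V) (B : V →ₗ[K] V →ₗ[K] K) (c M N : V →ₗ[K] V) : Prop where
  symm : ∀ u ∈ U, ∀ v ∈ U, B u v = B v u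
  nd : ∀ u ∈ U, (∀ v ∈ U, B u v = 0) → u = 0
  cU : ∀ u ∈ U, c u ∈ U
  MU : ∀ u ∈ U, M u ∈ U
  NU : ∀ u ∈ U, N u ∈ U
  cc : ∀ u ∈ U, c (c u) = u
  cB : ∀ u ∈ U, ∀ v ∈ U, B (c u) (c v) = B u v
  adj : ∀ u ∈ U, ∀ v ∈ U, B (N u) v = -B u (M v)
  cM : ∀ u ∈ U, c (M u) = -M (c u)
  cN : ∀ u ∈ U, c (N u) = -N (c u)
  MN : ∀ u ∈ U, M (N u) = N (M u)

variable {U : Submodule K V} {B : V →ₗ[K] V →ₗ[K] K} {c M N : V →ₗ[K] V}

theorem La.neg (h : La U B c M N) : La U B (-c) M N :=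
  ⟨h.symm, h.nd, fun u hu => U.neg_mem (h.cU u hu), h.MU, h.NU, fun u hu => by simp [h.cc u hu],
    fun u hu v hv => by simp [h.cB u hu v hv], h.adj, fun u hu => by simp [h.cM u hu], fun u hu => by simp [h.cN u hu],
    h.MN⟩

theorem La.aux (h2 : (2 : K) ≠ 0) (h : La U B c M N) {ξ : V} (hξ : ξ ∈ U) (hc : c ξ = ξ)
    (h1 : ∀ u ∈ U, c u = u → ∃ t : K, t • ξ = u) : ∃ t : K, t * t = 1 ∧ ∀ u ∈ U, N u = t • M u := by
  have sp : ∀ u ∈ U, ∃ (s : K) (w : V), w ∈ U ∧ c w = -w ∧ u = s • ξ + w := fun u hu => by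
    obtain ⟨s, hs⟩ := h1 ((2⁻¹ : K) • (u + c u)) (U.smul_mem _ (U.add_mem hu (h.cU u hu)))
      (by rw [map_smul, map_add, h.cc u hu, add_comm])
    refine ⟨s, (2⁻¹ : K) • (u - c u), U.smul_mem _ (U.sub_mem hu (h.cU u hu)), ?_, ?_⟩
    · rw [map_smul, map_sub, h.cc u hu, ← smul_neg, neg_sub]
    · rw [hs, ← smul_add, add_add_sub_cancel, ← two_smul K, smul_smul, inv_mul_cancel₀ h2, one_smul]
  have pm : ∀ w ∈ U, c w = -w → B ξ w = 0 := fun w hw e => by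
    have h3 := h.cB ξ hξ w hw
    rw [hc, e, map_neg] at h3
    exact (mul_eq_zero.1 (show 2 * B ξ w = 0 by linear_combination -h3)).resolve_left h2
  have nd' : ∀ w ∈ U, c w = -w → (∀ v ∈ U, c v = -v → B w v = 0) → w = 0 := fun w hw e h0 =>
    h.nd w hw fun v hv => by
      obtain ⟨s, v', hv', e', rfl⟩ := sp v hv
      rw [map_add, map_smul, h0 v' hv' e', h.symm w hw ξ hξ, pm w hw e, smul_zero, add_zero]
  have hM : ∀ w ∈ U, c w = -w → ∃ s : K, s • ξ = M w := fun w hw e =>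
    h1 _ (h.MU w hw) (by rw [h.cM w hw, e, map_neg, neg_neg])
  have hN : ∀ w ∈ U, c w = -w → ∃ s : K, s • ξ = N w := fun w hw e =>
    h1 _ (h.NU w hw) (by rw [h.cN w hw, e, map_neg, neg_neg])
  by_cases h0 : ξ = 0
  · refine ⟨1, one_mul 1, fun u hu => ?_⟩
    obtain ⟨s, w, hw, e, rfl⟩ := sp u hu
    obtain ⟨a, ha⟩ := hM w hw e
    obtain ⟨b, hb⟩ := hN w hw e
    simp [h0, ← ha, ← hb]
  have hβ : B ξ ξ ≠ 0 := fun e => h0 (h.nd ξ hξ fun v hv => by
    obtain ⟨s, w, hw, e', rfl⟩ := sp v hv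
    rw [map_add, map_smul, e, pm w hw e', smul_zero, add_zero])
  have cπ : c (M ξ) = -M ξ := by rw [h.cM ξ hξ, hc]
  have cπ' : c (N ξ) = -N ξ := by rw [h.cN ξ hξ, hc]
  have key : ∀ w ∈ U, c w = -w → ∃ a b : K, M w = a • ξ ∧ N w = b • ξ ∧ a * B ξ ξ = -B (N ξ) w ∧
      b * B ξ ξ = -B (M ξ) w ∧ B (M ξ) w • M ξ = B (N ξ) w • N ξ := fun w hw e => by
    obtain ⟨a, ha⟩ := hM w hw e
    obtain ⟨b, hb⟩ := hN w hw e
    have e1 := h.adj ξ hξ w hw
    have e2 := h.adj w hw ξ hξ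
    have e3 := h.MN w hw
    rw [← ha, map_smul, smul_eq_mul] at e1
    rw [← hb, map_smul, LinearMap.smul_apply, smul_eq_mul, h.symm w hw _ (h.MU ξ hξ)] at e2
    rw [← ha, ← hb, map_smul, map_smul] at e3
    refine ⟨a, b, ha.symm, hb.symm, by rw [e1, neg_neg], e2, ?_⟩
    rw [e1, ← neg_eq_iff_eq_neg.2 e2, neg_smul, neg_smul, mul_comm a, mul_comm b, mul_smul, mul_smul, e3]
  obtain ⟨t, ht, hπ⟩ : ∃ t : K, t * t = 1 ∧ M ξ = t • N ξ := by
    by_cases h3 : M ξ = 0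
    · refine ⟨1, one_mul 1, ?_⟩
      by_contra h4
      rw [h3, one_smul] at h4
      refine h4 (nd' _ (h.NU ξ hξ) cπ' fun v hv e => ?_).symm
      obtain ⟨-, -, -, -, -, -, e5⟩ := key v hv e
      rw [h3, smul_zero] at e5
      exact (smul_eq_zero.1 e5.symm).resolve_right (Ne.symm h4)
    · obtain ⟨v, hv, e, h4⟩ : ∃ v ∈ U, c v = -v ∧ B (M ξ) v ≠ 0 := by
        by_contra h4
        push Not at h4
        exact h3 (nd' _ (h.MU ξ hξ) cπ h4)
      obtain ⟨-, -, -, -, -, -, e5⟩ := key v hv e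
      have e6 : M ξ = ((B (M ξ) v)⁻¹ * B (N ξ) v) • N ξ := by
        rw [mul_smul, ← e5, smul_smul, inv_mul_cancel₀ h4, one_smul]
      generalize (B (M ξ) v)⁻¹ * B (N ξ) v = t at e6
      refine ⟨t, ?_, e6⟩
      have h5 : N ξ ≠ 0 := fun e7 => h3 (by rw [e6, e7, smul_zero])
      have h6 : B (M ξ) v = t * B (N ξ) v := by rw [e6, map_smul, LinearMap.smul_apply, smul_eq_mul]
      have h7 : B (N ξ) v ≠ 0 := fun e7 => h4 (by rw [h6, e7, mul_zero])
      rw [h6] at e5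
      nth_rewrite 1 [e6] at e5
      rw [smul_smul] at e5
      exact mul_right_cancel₀ h7 (by linear_combination smul_left_injective K h5 e5)
  refine ⟨t, ht, fun u hu => ?_⟩
  obtain ⟨s, w, hw, e, rfl⟩ := sp u hu
  obtain ⟨a, b, ha, hb, e1, e2, -⟩ := key w hw e
  have e3 : b = t * a := mul_right_cancel₀ hβ (by
    rw [e2, hπ, map_smul, LinearMap.smul_apply, smul_eq_mul, mul_assoc, e1, mul_neg])
  rw [map_add, map_add, map_smul, map_smul, ha, hb, hπ, e3, smul_add, smul_smul, smul_smul, smul_smul,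
    show t * s * t = s by linear_combination s * ht]

theorem la3 (h2 : (2 : K) ≠ 0) [FiniteDimensional K V] (hU : finrank K U ≤ 3) (h : La U B c M N) :
    (∀ u ∈ U, N u = M u) ∨ ∀ u ∈ U, N u = -M u := by
  have key : ∀ {c : V →ₗ[K] V}, La U B c M N → finrank K ↥(U ⊓ LinearMap.ker (c - 1)) ≤ 1 →
      (∀ u ∈ U, N u = M u) ∨ ∀ u ∈ U, N u = -M u := fun {c} h h1 => by
    obtain ⟨ξ, hξ⟩ := finrank_le_one_iff.1 h1
    obtain ⟨t, ht, h3⟩ := h.aux h2 ξ.2.1 (by simpa [sub_eq_zero] using ξ.2.2) fun u hu e => by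
      obtain ⟨t, ht⟩ := hξ ⟨u, hu, by simpa [sub_eq_zero] using e⟩
      exact ⟨t, congrArg Subtype.val ht⟩
    rcases mul_self_eq_one_iff.1 ht with rfl | rfl
    · exact Or.inl fun u hu => by rw [h3 u hu, one_smul]
    · exact Or.inr fun u hu => by rw [h3 u hu, neg_one_smul]
  have h1 := Submodule.finrank_sup_add_finrank_inf_eq (U ⊓ LinearMap.ker (c - 1)) (U ⊓ LinearMap.ker (-c - 1))
  have h3 : U ⊓ LinearMap.ker (c - 1) ⊓ (U ⊓ LinearMap.ker (-c - 1)) = ⊥ := by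
    rw [eq_bot_iff]
    rintro v ⟨⟨-, e1⟩, -, e2⟩
    simp only [SetLike.mem_coe, LinearMap.mem_ker, LinearMap.sub_apply, LinearMap.neg_apply, Module.End.one_apply] at e1 e2
    exact (smul_eq_zero.1 (show (2 : K) • v = 0 by linear_combination (norm := module) -e1 - e2)).resolve_left h2
  have h4 := Submodule.finrank_mono (show U ⊓ LinearMap.ker (c - 1) ⊔ U ⊓ LinearMap.ker (-c - 1) ≤ U from
    sup_le inf_le_left inf_le_left)
  rw [h3, finrank_bot] at h1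
  by_cases h5 : finrank K ↥(U ⊓ LinearMap.ker (c - 1)) ≤ 1
  · exact key h h5
  · exact key h.neg (by omega)

end Cfsg.Agent.E8A.Odd
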