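import Cfsg.Agent.E8A.Odd.Pt3a
import Cfsg.Agent.StandardComponent.AltAut

/-!
# Box PT3 (helper8)

* `lc ψ i j k` : the vector of the 3-cycle `(i j k)`; `rel` : the relations; `key` : the relation which comes from the
  element `g` of order 4; `pt3 : PT3`.
-/

set_option autoImplicit false
set_option maxRecDepth 100000

namespace Cfsg.Agent.E8A.Odd.Pt3

open Cfsg Cfsg.Lie Module Equiv Equiv.Perm
open Cfsg.Agent.H952.F4 (MaxAlt)
open Cfsg.Agent.R2.T1.Odd (P lt l3 vl ap pm coe_P pm_cons pm_nil pm_apply vl_iff ofNat_inj val_ofNat' ap_lt P_pow_one P_ne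
  P_nil)
open Cfsg.Agent.E8A.Par (ext_act stab_box)
open Cfsg.Agent.E8A.TwoH (br_anti br_self br_zero_right br_zero_left)

universe u

section perm

variable {n : ℕ}

open Classical in
/-- the 3-cycle `(i j k)` -/
noncomputable def c3 (i j k : Fin n) : Alt n :=
  if h : swap i j * swap j k ∈ alternatingGroup (Fin n) then ⟨_, h⟩ else 1

theorem coe_c3 {i j k : Fin n} (h1 : i ≠ j) (h2 : j ≠ k) : (c3 i j k : Perm (Fin n)) = swap i j * swap j k := by
  rw [c3, dif_pos (by rw [mem_alternatingGroup, Perm.sign_mul, sign_swap h1, sign_swap h2]; decide)]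

theorem c3_conj (s : Perm (Fin n)) {i j k : Fin n} (h1 : i ≠ j) (h2 : j ≠ k) :
    (c3 (s i) (s j) (s k) : Perm (Fin n)) = s * c3 i j k * s⁻¹ := by
  rw [coe_c3 h1 h2, coe_c3 (s.injective.ne h1) (s.injective.ne h2), swap_apply_apply, swap_apply_apply]
  group

theorem c3_cyc {i j k : Fin n} (h1 : i ≠ j) (h2 : i ≠ k) (h3 : j ≠ k) : c3 j k i = c3 i j k := by
  apply Subtype.ext
  have h := swap_apply_apply (swap j k) i j
  rw [swap_apply_of_ne_of_ne h1 h2, swap_apply_left, swap_inv] at h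
  rw [coe_c3 h1 h3, coe_c3 h3 h2.symm, swap_comm k i, h, ← mul_assoc, ← mul_assoc, swap_mul_self, one_mul]

theorem c3_inv {i j k : Fin n} (h1 : i ≠ j) (h2 : i ≠ k) (h3 : j ≠ k) : c3 i k j = (c3 i j k)⁻¹ := by
  rw [← c3_cyc h2 h1 h3.symm]
  apply Subtype.ext
  rw [Subgroup.coe_inv, coe_c3 h1 h3, coe_c3 h3.symm h1.symm, mul_inv_rev, swap_inv, swap_inv, swap_comm k j, swap_comm j i]

theorem c3_fix {i j k z : Fin n} (h1 : i ≠ j) (h3 : j ≠ k) (hi : z ≠ i) (hj : z ≠ j) (hk : z ≠ k) :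
    (c3 i j k : Perm (Fin n)) z = z := by
  rw [coe_c3 h1 h3, Perm.mul_apply, swap_apply_of_ne_of_ne hj hk, swap_apply_of_ne_of_ne hi hj]

theorem c3_last {i j k : Fin n} (h1 : i ≠ j) (h3 : j ≠ k) : (c3 i j k : Perm (Fin n)) k = i := by
  rw [coe_c3 h1 h3, Perm.mul_apply, swap_apply_right, swap_apply_right]

theorem c3_first {i j k : Fin n} (h1 : i ≠ j) (h2 : i ≠ k) (h3 : j ≠ k) : (c3 i j k : Perm (Fin n)) i = j := by
  rw [coe_c3 h1 h3, Perm.mul_apply, swap_apply_of_ne_of_ne h1 h2, swap_apply_left]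

/-- conjugation by a permutation -/
def cj (s : Perm (Fin n)) : MulAut (Alt n) := MulAut.conjNormal s

theorem coe_cj (s : Perm (Fin n)) (a : Alt n) : (cj s a : Perm (Fin n)) = s * a * s⁻¹ := rfl

variable {G : Type*} [Group G] {H : Subgroup G} {φ : Alt n →* G}

theorem max_comp (hM : MaxAlt H n φ) (σ : MulAut (Alt n)) : MaxAlt H n (φ.comp σ.toMonoidHom) := by
  have hr : (φ.comp σ.toMonoidHom).range = φ.range := by
    ext x
    constructor
    · rintro ⟨a, rfl⟩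
      exact ⟨σ a, rfl⟩
    · rintro ⟨a, rfl⟩
      exact ⟨σ.symm a, congrArg φ (σ.apply_symm_apply a)⟩
  exact ⟨hM.coatom, hM.inj.comp σ.injective, hr ▸ hM.le, hr ▸ hM.norm, hr ▸ hM.sq, hr ▸ hM.min, hM.card, hr ▸ hM.five⟩

theorem exists_perm (hn : 7 ≤ n) (hM : MaxAlt H n φ) {h : G} (hh : h ∈ H) :
    ∃ s : Perm (Fin n), ∀ a b : Alt n, (b : Perm (Fin n)) = s * a * s⁻¹ → h * φ a * h⁻¹ = φ b := by
  have hex : ∀ a, ∃ b, φ b = h * φ a * h⁻¹ := fun a => hM.norm h hh _ ⟨a, rfl⟩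
  choose f hf using hex
  let e0 : Alt n →* Alt n := MonoidHom.mk' f fun a b => hM.inj (by
    rw [hf, map_mul, map_mul, hf, hf]; group)
  have he0 : ∀ a, φ (e0 a) = h * φ a * h⁻¹ := hf
  have hinj : Function.Injective e0 := by
    intro a b hab
    apply hM.inj
    have h1 : h * φ a * h⁻¹ = h * φ b * h⁻¹ := by rw [← he0, ← he0, hab]
    exact mul_left_cancel (mul_right_cancel h1)
  let e : MulAut (Alt n) := MulEquiv.ofBijective e0 (Finite.injective_iff_bijective.1 hinj)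
  obtain ⟨ψ, hψ⟩ := Cfsg.Agent.StandardComponent.AltAut.exists_autHom n hn
  refine ⟨ψ e, fun a b hb => ?_⟩
  have h1 : e a = b := Subtype.ext (by rw [hψ e a, hb])
  rw [← h1, ← he0]
  rfl

variable [NeZero n]

/-- the points -/
def pt (n : ℕ) [NeZero n] (k : ℕ) : Fin n := Fin.ofNat n k

theorem pt_ne (hn : 9 ≤ n) {i j : ℕ} (h : i < 9 ∧ j < 9 ∧ i ≠ j) : pt n i ≠ pt n j := fun e =>
  h.2.2 (ofNat_inj (by omega) (by omega) e)

theorem P_pt (hn : 9 ≤ n) {l : List (ℕ × ℕ)} {i j : ℕ} (h : vl 9 l = true ∧ i < 9 ∧ ap l i = j) :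
    (P n l : Perm (Fin n)) (pt n i) = pt n j := by
  have h1 := (vl_iff.1 h.1).2
  have h2 := ap_lt h1 h.2.1
  refine Fin.ext ?_
  rw [coe_P hn h.1, pm_apply (h1.mono hn), pt, pt, val_ofNat' (by omega), val_ofNat' (by omega), h.2.2]

theorem P_l3 (hn : 9 ≤ n) : P n l3 = c3 (pt n 0) (pt n 1) (pt n 2) := by
  apply Subtype.ext
  rw [coe_P hn (by decide), coe_c3 (pt_ne hn (by decide)) (pt_ne hn (by decide)), show l3 = [(0, 1), (1, 2)] from rfl,
    pm_cons, pm_cons, pm_nil, mul_one]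
  rfl

theorem lt_fix (hn : 9 ≤ n) {z : Fin n} (h0 : z ≠ pt n 0) (h1 : z ≠ pt n 1) (h2 : z ≠ pt n 2) (h3 : z ≠ pt n 3) :
    (P n lt : Perm (Fin n)) z = z := by
  rw [coe_P hn (by decide), show lt = [(0, 1), (2, 3)] from rfl, pm_cons, pm_cons, pm_nil, mul_one, Perm.mul_apply]
  exact (congrArg _ (swap_apply_of_ne_of_ne h2 h3)).trans (swap_apply_of_ne_of_ne h0 h1)

theorem exists_label (hn : 9 ≤ n) {m : ℕ} (hm : m ≤ 9) (k : Fin m → ℕ) (hk : ∀ a, k a < 9) (hk' : Function.Injective k)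
    (f : Fin m → Fin n) (hf : Function.Injective f) : ∃ s : Perm (Fin n), ∀ a, s (pt n (k a)) = f a :=
  Perm.exists_extending_pair (fun a => pt n (k a)) f (fun a b e => by
    have := hm
    by_contra h
    exact pt_ne hn ⟨hk a, hk b, fun e' => h (hk' e')⟩ e) hf

end perm

section vec

variable {K : Type u} [Field K] {n : ℕ}

/-- the vector of a 3-cycle -/
noncomputable def lc (ψ : Alt n →* G8 K) (i j k : Fin n) : L8 K := ell (ψ (c3 i j k))

variable {ψ : Alt n →* G8 K}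

theorem lv_act {g : G8 K} {s : Perm (Fin n)} (hs : ∀ a b : Alt n, (b : Perm (Fin n)) = s * a * s⁻¹ → g * ψ a * g⁻¹ = ψ b)
    {i j k : Fin n} (h1 : i ≠ j) (h2 : j ≠ k) : act g (lc ψ i j k) = lc ψ (s i) (s j) (s k) := by
  rw [lc, lc, ← hs _ _ (c3_conj s h1 h2), ell_conj]

theorem lv_alt (a : Alt n) {i j k : Fin n} (h1 : i ≠ j) (h2 : j ≠ k) :
    act (ψ a) (lc ψ i j k) = lc ψ ((a : Perm (Fin n)) i) ((a : Perm (Fin n)) j) ((a : Perm (Fin n)) k) :=
  lv_act (fun x y h => by rw [← map_inv, ← map_mul, ← map_mul, show y = a * x * a⁻¹ from Subtype.ext h]) h1 h2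

theorem lv_comp (s : Perm (Fin n)) {i j k : Fin n} (h1 : i ≠ j) (h2 : j ≠ k) :
    lc (ψ.comp (cj s).toMonoidHom) i j k = lc ψ (s i) (s j) (s k) := by
  have h : cj s (c3 i j k) = c3 (s i) (s j) (s k) := Subtype.ext (by rw [coe_cj, c3_conj s h1 h2])
  rw [lc, lc, ← h]
  rfl

theorem lv_cyc {i j k : Fin n} (h1 : i ≠ j) (h2 : i ≠ k) (h3 : j ≠ k) : lc ψ j k i = lc ψ i j k := by
  rw [lc, lc, c3_cyc h1 h2 h3]

theorem lv_neg {i j k : Fin n} (h1 : i ≠ j) (h2 : i ≠ k) (h3 : j ≠ k) : lc ψ i k j = -lc ψ i j k := by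
  rw [lc, lc, c3_inv h1 h2 h3, map_inv, ell_inv]

variable [NeZero n]

theorem lv_P (hn : 9 ≤ n) {l : List (ℕ × ℕ)} {i j k i' j' k' : ℕ}
    (h : vl 9 l = true ∧ i < 9 ∧ j < 9 ∧ k < 9 ∧ i ≠ j ∧ j ≠ k ∧ ap l i = i' ∧ ap l j = j' ∧ ap l k = k') :
    act (ψ (P n l)) (lc ψ (pt n i) (pt n j) (pt n k)) = lc ψ (pt n i') (pt n j') (pt n k') := by
  obtain ⟨h1, h2, h3, h4, h5, h6, h7, h8, h9⟩ := h
  rw [lv_alt _ (pt_ne hn ⟨h2, h3, h5⟩) (pt_ne hn ⟨h3, h4, h6⟩), P_pt hn ⟨h1, h2, h7⟩, P_pt hn ⟨h1, h3, h8⟩,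
    P_pt hn ⟨h1, h4, h9⟩]

/-- the four vectors of `A₄` -/
theorem four (hn : 9 ≤ n) {A : L8 K} (h1 : Ell (ψ (P n l3)) (A + act (ψ (P n l3)) A + act (ψ (P n l3)) (act (ψ (P n l3)) A)))
    (h2 : act (ψ (P n lt)) A = A) (h3 : act (ψ (P n lt)) (act (ψ (P n l3)) A) = -act (ψ (P n l3)) A)
    (h4 : act (ψ (P n lt)) (act (ψ (P n l3)) (act (ψ (P n l3)) A)) = -act (ψ (P n l3)) (act (ψ (P n l3)) A))
    (h5 : br A (act (ψ (P n l3)) A) = act (ψ (P n l3)) (act (ψ (P n l3)) A)) : ∃ B C : L8 K,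
    lc ψ (pt n 0) (pt n 1) (pt n 2) = A + B + C ∧ lc ψ (pt n 0) (pt n 1) (pt n 3) = -A + B + C ∧
    lc ψ (pt n 1) (pt n 2) (pt n 3) = A - B + C ∧ lc ψ (pt n 0) (pt n 2) (pt n 3) = -A - B + C ∧
    br A B = C ∧ br B C = A ∧ br C A = B := by
  obtain ⟨B, hB⟩ : ∃ B, B = act (ψ (P n l3)) A := ⟨_, rfl⟩
  rw [← hB] at h1 h3 h4 h5
  obtain ⟨C, hC⟩ : ∃ C, C = act (ψ (P n l3)) B := ⟨_, rfl⟩
  rw [← hC] at h1 h4 h5
  have hA : act (ψ (P n l3)) C = A := by
    rw [hC, hB, ← act_mul, ← act_mul, ← map_mul, ← map_mul, ← pow_three', P_pow_one hn (by decide) (by decide), map_one,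
      act_one]
  have e1 : lc ψ (pt n 0) (pt n 1) (pt n 2) = A + B + C := by rw [lc, ← P_l3 hn, ell_eq h1]
  have e2 : lc ψ (pt n 0) (pt n 1) (pt n 3) = -A + B + C := by
    have h := lv_P (ψ := ψ) hn (l := lt) (i := 0) (j := 1) (k := 2) (i' := 1) (j' := 0) (k' := 3) (by decide)
    rw [e1, act_add, act_add, h2, h3, h4, lv_neg (pt_ne hn (by decide)) (pt_ne hn (by decide)) (pt_ne hn (by decide)),
      lv_cyc (pt_ne hn (by decide)) (pt_ne hn (by decide)) (pt_ne hn (by decide)), eq_neg_iff_add_eq_zero] at h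
    rw [← neg_eq_of_add_eq_zero_right h]
    abel
  have e3 : lc ψ (pt n 1) (pt n 2) (pt n 3) = A - B + C := by
    rw [← lv_P (ψ := ψ) hn (l := l3) (i := 0) (j := 1) (k := 3) (by decide), e2, act_add, act_add, act_neg, ← hB, ← hC, hA]
    abel
  have e4 : lc ψ (pt n 0) (pt n 2) (pt n 3) = -A - B + C := by
    have h := lv_P (ψ := ψ) hn (l := l3) (i := 1) (j := 2) (k := 3) (i' := 2) (j' := 0) (k' := 3) (by decide)
    rw [e3, act_add, act_sub, ← hB, ← hC, hA, lv_neg (pt_ne hn (by decide)) (pt_ne hn (by decide)) (pt_ne hn (by decide)),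
      lv_cyc (pt_ne hn (by decide)) (pt_ne hn (by decide)) (pt_ne hn (by decide)), eq_neg_iff_add_eq_zero] at h
    rw [← neg_eq_of_add_eq_zero_right h]
    abel
  have e5 : br B C = A := by rw [← hA, ← h5, act_br, ← hB, h5, ← hC]
  exact ⟨B, C, e1, e2, e3, e4, h5, e5, by rw [hB, ← e5, act_br, ← hC, e5, hA]⟩

/-- the hypothesis of the box -/
def Hy (ψ : Alt n →* G8 K) : Prop :=
  ∀ σ : MulAut (Alt n), So3 (ψ (σ (P n lt))) (ψ (σ (P n l3))) (ψ (σ (P n [(4, 5), (6, 7)])))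

theorem Hy.comp (h : Hy ψ) (σ : MulAut (Alt n)) : Hy (ψ.comp σ.toMonoidHom) := fun τ => h (σ * τ)

theorem Hy.one (h : Hy ψ) : So3 (ψ (P n lt)) (ψ (P n l3)) (ψ (P n [(4, 5), (6, 7)])) := h 1

theorem rel (hn : 9 ≤ n) (h : Hy ψ) : Rel (lc ψ) := by
  refine ⟨fun i j k => lv_cyc, fun i j k => lv_neg, fun i j k m h1 h2 h3 h4 h5 h6 => ?_⟩
  obtain ⟨s, hs⟩ := exists_label hn (m := 4) (by norm_num) Fin.val (fun a => by omega) Fin.val_injective ![i, j, k, m] (by
    intro a b e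
    fin_cases a <;> fin_cases b <;> first | rfl | exact absurd e (by assumption) | exact absurd e.symm (by assumption))
  obtain ⟨A, g, k1, k2, k3, k4, k5, -⟩ := h (cj s)
  obtain ⟨B, C, e1, e2, e3, e4, e5, e6, e7⟩ := four (ψ := ψ.comp (cj s).toMonoidHom) hn k1 k2 k3 k4 k5
  rw [lv_comp s (pt_ne hn (by decide)) (pt_ne hn (by decide))] at e1 e2 e3 e4
  have s0 : s (pt n 0) = i := hs 0
  have s1 : s (pt n 1) = j := hs 1
  have s2 : s (pt n 2) = k := hs 2
  have s3 : s (pt n 3) = m := hs 3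
  rw [s0, s1, s2] at e1
  rw [s0, s1, s3] at e2
  rw [s1, s2, s3] at e3
  rw [s0, s2, s3] at e4
  rw [e1, e2, e3, e4]
  refine ⟨by abel, ?_⟩
  simp only [br_add_left, br_add_right, br_neg_right, br_self]
  rw [br_anti B A, br_anti A C, br_anti C B, e5, e6, e7, two_smul]
  abel

end vec

section main

variable {F : Type u} [Field F] [Finite F] {n : ℕ} [NeZero n] {H : Subgroup (G8 F)} {φ : Alt n →* G8 F}

omit [Finite F] in
theorem two_ne (h2 : (2 : F) ≠ 0) : (2 : Kb F) ≠ 0 := fun h => h2 ((algebraMap F (Kb F)).injective (by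
  rw [map_ofNat, map_zero, h]))

theorem half {K : Type u} [Field K] (h2 : (2 : K) ≠ 0) (v : L8 K) : (2⁻¹ : K) • (v + v) = v := by
  rw [← two_smul K v, inv_smul_smul₀ h2]

/-- the formula for `g` -/
theorem g_form {K : Type u} [Field K] (h2 : (2 : K) ≠ 0) {a g : G8 K} {A : L8 K} (ha : a * a = 1)
    (h1 : ∀ v, act a v = -v → act g v = br A v) (h3 : ∀ v, act a v = v → act g v = v + (2⁻¹ : K) • br A (br A v))
    (v : L8 K) : act g v = br A ((2⁻¹ : K) • (v - act a v)) + ((2⁻¹ : K) • (v + act a v) +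
      (2⁻¹ : K) • br A (br A ((2⁻¹ : K) • (v + act a v)))) := by
  rw [← h1 _ (by rw [act_smul, act_sub, ← act_mul, ha, act_one, ← smul_neg, neg_sub]),
    ← h3 _ (by rw [act_smul, act_add, ← act_mul, ha, act_one, add_comm]), ← act_add, ← smul_add, sub_add_add_cancel,
    half h2]

theorem g_comm {K : Type u} [Field K] {a g b : G8 K} {A : L8 K}
    (hg : ∀ v, act g v = br A ((2⁻¹ : K) • (v - act a v)) + ((2⁻¹ : K) • (v + act a v) +
      (2⁻¹ : K) • br A (br A ((2⁻¹ : K) • (v + act a v))))) (h1 : act b A = A) (h3 : b * a = a * b) : g * b = b * g := by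
  have h4 : ∀ v, act b (act a v) = act a (act b v) := fun v => by rw [← act_mul, ← act_mul, h3]
  refine ext_act fun v => ?_
  rw [act_mul, act_mul, hg, hg]
  simp only [act_add, act_sub, act_smul, act_br, h1, h4]

theorem g_em {K : Type u} [Field K] (f : K →+* K) {a g : G8 K} {A : L8 K}
    (hg : ∀ v, act g v = br A ((2⁻¹ : K) • (v - act a v)) + ((2⁻¹ : K) • (v + act a v) +
      (2⁻¹ : K) • br A (br A ((2⁻¹ : K) • (v + act a v))))) (h1 : mp f A = A) (h3 : em f a = a) : em f g = g := by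
  have h2 : f 2⁻¹ = 2⁻¹ := by rw [map_inv₀, map_ofNat]
  have h4 : ∀ v, mp f (act a v) = act a (mp f v) := fun v => by rw [← act_em, h3]
  apply mx_injective
  ext i j
  have h5 : act (em f g) (mp f (ee _ j)) = act g (mp f (ee _ j)) := by
    rw [act_em, hg, hg]
    simp only [mp_add, mp_sub, mp_smul, ← br_mp, h1, h2, h4]
  rw [mp_ee] at h5
  rw [← act_ee, ← act_ee, h5]

theorem key (h2 : (2 : F) ≠ 0) (hn : 9 ≤ n) (hn' : n ≤ 18) (hM : MaxAlt H n φ) (hy : Hy (emb0.comp φ)) :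
    lc (emb0.comp φ) (pt n 0) (pt n 4) (pt n 5) + lc (emb0.comp φ) (pt n 1) (pt n 4) (pt n 5) =
      lc (emb0.comp φ) (pt n 2) (pt n 4) (pt n 5) + lc (emb0.comp φ) (pt n 3) (pt n 4) (pt n 5) := by
  have h2' := two_ne h2
  have hr := rel hn hy
  have hψ : ∀ a, (emb0.comp φ) a = emb0 (φ a) := fun _ => rfl
  have hq : ∀ i j k, mp (fq F) (lc (emb0.comp φ) i j k) = lc (emb0.comp φ) i j k := fun i j k => ell_frq _
  have hH : ∀ h ∈ H, ∃ s : Perm (Fin n), ∀ a b : Alt n, (b : Perm (Fin n)) = s * a * s⁻¹ →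
      emb0 h * (emb0.comp φ) a * (emb0 h)⁻¹ = (emb0.comp φ) b := fun h hh => by
    obtain ⟨s, hs⟩ := exists_perm (by omega) hM hh
    exact ⟨s, fun a b e => by rw [hψ, hψ, ← hs a b e, map_mul, map_mul, map_inv]⟩
  have hi : Function.Injective (emb0.comp φ) := emb0_injective.comp hM.inj
  have hsg : ∀ a, sg ((emb0.comp φ) a) = (emb0.comp φ) a := fun a => sg_emb0 _
  generalize emb0.comp φ = ψ at *
  have ne : ∀ {i j : ℕ}, i < 9 ∧ j < 9 ∧ i ≠ j → pt n i ≠ pt n j := pt_ne hn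
  by_cases h0 : WW (lc ψ) = ⊥
  · have h1 : ∀ i, i < 4 → lc ψ (pt n i) (pt n 4) (pt n 5) = 0 := fun i hi =>
      (Submodule.mem_bot _).1 (h0 ▸ mem_WW (ne (by omega)) (ne (by omega)) (ne (by omega)))
    rw [h1 0 (by norm_num), h1 1 (by norm_num), h1 2 (by norm_num), h1 3 (by norm_num)]
  obtain ⟨A, g, k1, k2, k3, k4, k5, k6, k7, k8, k9⟩ := hy.one
  obtain ⟨B, C, e1, e2, -⟩ := four hn k1 k2 k3 k4 k5
  have hA : A = (2⁻¹ : Kb F) • (lc ψ (pt n 0) (pt n 1) (pt n 2) - lc ψ (pt n 0) (pt n 1) (pt n 3)) := by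
    rw [e1, e2, ← half h2' A]
    congr 1
    rw [half h2']
    abel
  have ha : ψ (P n lt) * ψ (P n lt) = 1 := by rw [← map_mul, ← pow_two, P_pow_one hn (by decide) (by decide), map_one]
  have hg := g_form h2' ha k7 k8
  have st : ∀ (x : G8 (Kb F)) (s : Perm (Fin n)), (∀ a b : Alt n, (b : Perm (Fin n)) = s * a * s⁻¹ → x * ψ a * x⁻¹ = ψ b) →
      ∀ w ∈ WW (lc ψ), act x w ∈ WW (lc ψ) := fun x s hs =>
    WW_le hr (pt n 0) (U := (WW (lc ψ)).comap (LK _ x)) fun j k h1 h3 h4 => by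
      rw [Submodule.mem_comap, LK_apply, lv_act hs h1 h4.ne]
      exact mem_WW (s.injective.ne h1) (s.injective.ne h3) (s.injective.ne h4.ne)
  have hAW : A ∈ WW (lc ψ) := by
    rw [hA]
    exact Submodule.smul_mem _ _ (sub_mem (mem_WW (ne (by decide)) (ne (by decide)) (ne (by decide)))
      (mem_WW (ne (by decide)) (ne (by decide)) (ne (by decide))))
  have hgW : ∀ w ∈ WW (lc ψ), act g w ∈ WW (lc ψ) := fun w hw => by
    have h1 := st (ψ (P n lt)) (P n lt) (fun x y h => by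
      rw [← map_inv, ← map_mul, ← map_mul, show y = P n lt * x * (P n lt)⁻¹ from Subtype.ext h]) w hw
    have h3 := Submodule.smul_mem _ (2⁻¹ : Kb F) (add_mem hw h1)
    rw [hg]
    exact add_mem (span_sub h2' hr (pt n 0) hAW (Submodule.smul_mem _ _ (sub_mem hw h1))) (add_mem h3
      (Submodule.smul_mem _ _ (span_sub h2' hr (pt n 0) hAW (span_sub h2' hr (pt n 0) hAW h3))))
  have hq2 : fq F 2⁻¹ = 2⁻¹ := by rw [map_inv₀, map_ofNat]
  have hqA : mp (fq F) A = A := by rw [hA, mp_smul, mp_sub, hq, hq, hq2]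
  have hsgg : sg g = g := g_em (fq F) hg hqA (hsg _)
  obtain ⟨g0, rfl⟩ := fix_G hsgg
  obtain ⟨s, hs⟩ := hH g0 (stab_box F H hM.coatom _ h0 (span_dim hr (pt n 0) hn') (fun h hh => by
    obtain ⟨s, hs⟩ := hH h hh
    exact st _ s hs) g0 hgW)
  generalize emb0 g0 = g at *
  -- the permutation `s`
  have cm : ∀ i j k : Fin n, i ≠ j → j ≠ k → (∀ m < 4, pt n m ≠ i ∧ pt n m ≠ j ∧ pt n m ≠ k) →
      ∀ z, (c3 i j k : Perm (Fin n)) (s z) = s ((c3 i j k : Perm (Fin n)) z) := by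
    intro i j k h1 h3 h4 z
    have h5 : ∀ m < 4, (c3 i j k : Perm (Fin n)) (pt n m) = pt n m := fun m hm =>
      c3_fix h1 h3 (h4 m hm).1 (h4 m hm).2.1 (h4 m hm).2.2
    have h6 : act (ψ (c3 i j k)) A = A := by
      rw [hA, act_smul, act_sub, lv_alt _ (ne (by decide)) (ne (by decide)), lv_alt _ (ne (by decide)) (ne (by decide)),
        h5 0 (by norm_num), h5 1 (by norm_num), h5 2 (by norm_num), h5 3 (by norm_num)]
    have h7 : P n lt * c3 i j k * (P n lt)⁻¹ = c3 i j k := Subtype.ext (by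
      have h8 : ∀ z : Fin n, (∀ m < 4, pt n m ≠ z) → (P n lt : Perm (Fin n)) z = z := fun z hz =>
        lt_fix hn (hz 0 (by norm_num)).symm (hz 1 (by norm_num)).symm (hz 2 (by norm_num)).symm (hz 3 (by norm_num)).symm
      have h9 := c3_conj (P n lt : Perm (Fin n)) h1 h3
      rw [h8 i fun m hm => (h4 m hm).1, h8 j fun m hm => (h4 m hm).2.1, h8 k fun m hm => (h4 m hm).2.2] at h9
      exact h9.symm)
    have h9 : g * ψ (c3 i j k) = ψ (c3 i j k) * g :=
      g_comm hg h6 (by rw [← map_mul, ← map_mul, mul_inv_eq_iff_eq_mul.1 h7])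
    have h10 := hs (c3 i j k) (cj s (c3 i j k)) (coe_cj _ _)
    rw [h9, mul_inv_cancel_right] at h10
    have h11 := congrArg (fun x : Alt n => (x : Perm (Fin n)) (s z)) (hi h10)
    simp only [coe_cj, Perm.mul_apply] at h11
    rwa [show s⁻¹ (s z) = z from s.symm_apply_apply z] at h11
  have lit : ∀ i j k : ℕ, 4 ≤ i ∧ i < 9 ∧ 4 ≤ j ∧ j < 9 ∧ 4 ≤ k ∧ k < 9 → ∀ m < 4,
      pt n m ≠ pt n i ∧ pt n m ≠ pt n j ∧ pt n m ≠ pt n k := fun i j k h m hm =>
    ⟨ne (by omega), ne (by omega), ne (by omega)⟩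
  have mov : ∀ j k : ℕ, 4 < j ∧ j < 9 ∧ 4 < k ∧ k < 9 ∧ j ≠ k →
      s (pt n 4) = pt n 4 ∨ s (pt n 4) = pt n j ∨ s (pt n 4) = pt n k := fun j k h => by
    by_contra hcon
    rw [not_or, not_or] at hcon
    have h1 := cm (pt n 4) (pt n j) (pt n k) (ne (by omega)) (ne (by omega)) (lit _ _ _ (by omega)) (pt n 4)
    rw [c3_fix (ne (by omega)) (ne (by omega)) hcon.1 hcon.2.1 hcon.2.2,
      c3_first (ne (by omega)) (ne (by omega)) (ne (by omega))] at h1
    exact ne (i := 4) (j := j) (by omega) (s.injective h1)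
  have s4 : s (pt n 4) = pt n 4 := by
    rcases mov 5 6 (by decide) with h | h | h
    · exact h
    · rcases mov 7 8 (by decide) with h' | h' | h'
      exacts [h', absurd (h.symm.trans h') (ne (by decide)), absurd (h.symm.trans h') (ne (by decide))]
    · rcases mov 7 8 (by decide) with h' | h' | h'
      exacts [h', absurd (h.symm.trans h') (ne (by decide)), absurd (h.symm.trans h') (ne (by decide))]
  have s5 : s (pt n 5) = pt n 5 := by
    have h1 := cm (pt n 4) (pt n 5) (pt n 6) (ne (by decide)) (ne (by decide)) (lit _ _ _ (by decide)) (pt n 4)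
    rw [s4, c3_first (ne (by decide)) (ne (by decide)) (ne (by decide))] at h1
    exact h1.symm
  have ss : ∀ i j : ℕ, i < 4 ∧ ap lt i = j → s (s (pt n i)) = pt n j := fun i j h => by
    have n1 : pt n i ≠ pt n 4 := ne (by omega)
    have n2 : pt n 4 ≠ pt n 5 := ne (by decide)
    have h1 := hs _ _ (c3_conj s n1 n2)
    have h3 := hs _ _ (c3_conj s (s.injective.ne n1) (s.injective.ne n2))
    have h4 : ψ (P n lt * c3 (pt n i) (pt n 4) (pt n 5) * (P n lt)⁻¹) = ψ (c3 (s (s (pt n i))) (s (s (pt n 4))) (s (s (pt n 5)))) := by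
      rw [← h3, ← h1, map_mul, map_mul, map_inv, ← k6]
      group
    have h5 : ((P n lt : Perm (Fin n)) * (c3 (pt n i) (pt n 4) (pt n 5) : Perm (Fin n)) * (P n lt : Perm (Fin n))⁻¹)
        (pt n 5) = (c3 (s (s (pt n i))) (s (s (pt n 4))) (s (s (pt n 5))) : Perm (Fin n)) (pt n 5) :=
      congrArg (fun x : Alt n => (x : Perm (Fin n)) (pt n 5)) (hi h4)
    have h6 := c3_conj (P n lt : Perm (Fin n)) n1 n2
    rw [P_pt hn (j := j) ⟨by decide, by omega, h.2⟩, P_pt hn (i := 4) (j := 4) (by decide),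
      P_pt hn (i := 5) (j := 5) (by decide)] at h6
    have n3 : s (s (pt n i)) ≠ pt n 4 := fun e => n1 (s.injective (s.injective (by rw [e, s4, s4])))
    have n4 : pt n j ≠ pt n 4 := ne (by
      have h7 : ∀ i < 4, ap lt i < 4 := by decide
      have h8 := h7 i h.1
      omega)
    rw [← h6, s4, s4, s5, s5, c3_last n4 n2, c3_last n3 n2] at h5
    exact h5.symm
  have s00 := ss 0 1 (by decide)
  have s11 := ss 1 0 (by decide)
  have s22 := ss 2 3 (by decide)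
  have s33 := ss 3 2 (by decide)
  have s0 : s (pt n 0) = pt n 2 ∨ s (pt n 0) = pt n 3 := by
    by_contra hcon
    rw [not_or] at hcon
    have n0 : s (pt n 0) ≠ pt n 0 := fun e => by
      rw [e, e] at s00
      exact ne (by decide) s00
    have n1 : s (pt n 0) ≠ pt n 1 := fun e => by
      rw [e] at s00
      exact ne (by decide) (s.injective (e.trans s00.symm))
    have n4 : s (pt n 0) ≠ pt n 4 := fun e => ne (by decide) (s.injective (e.trans s4.symm))
    have n5 : s (pt n 0) ≠ pt n 5 := fun e => ne (by decide) (s.injective (e.trans s5.symm))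
    have h1 := cm (s (pt n 0)) (pt n 4) (pt n 5) n4 (ne (by decide)) (fun m hm => ⟨by
      interval_cases m
      exacts [n0.symm, n1.symm, Ne.symm hcon.1, Ne.symm hcon.2], ne (by omega), ne (by omega)⟩) (pt n 0)
    rw [c3_first n4 n5 (ne (by decide)), c3_fix n4 (ne (by decide)) n0.symm (ne (by decide)) (ne (by decide))] at h1
    exact n4 h1.symm
  -- the vector `u`
  have ga : ∀ i < 4, act g (lc ψ (pt n i) (pt n 4) (pt n 5)) = lc ψ (s (pt n i)) (pt n 4) (pt n 5) := fun i hi => by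
    rw [lv_act hs (ne (by omega)) (ne (by decide)), s4, s5]
  have aa : ∀ i j : ℕ, i < 4 ∧ ap lt i = j → act (ψ (P n lt)) (lc ψ (pt n i) (pt n 4) (pt n 5)) =
      lc ψ (pt n j) (pt n 4) (pt n 5) := fun i j h =>
    lv_P hn ⟨by decide, by omega, by decide, by decide, by omega, by decide, h.2, by decide, by decide⟩
  have ta : ∀ i < 4, act (ψ (P n [(4, 5), (6, 7)])) (lc ψ (pt n i) (pt n 4) (pt n 5)) = -lc ψ (pt n i) (pt n 4) (pt n 5) :=
    fun i hi => by
      have h1 : ∀ i < 4, ap [(4, 5), (6, 7)] i = i := by decide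
      rw [← lv_neg (ne (by omega)) (ne (by omega)) (ne (by decide))]
      exact lv_P hn ⟨by decide, by omega, by decide, by decide, by omega, by decide, h1 i hi, by decide, by decide⟩
  obtain ⟨u, hu⟩ : ∃ u, u = lc ψ (pt n 0) (pt n 4) (pt n 5) + lc ψ (pt n 1) (pt n 4) (pt n 5) -
    (lc ψ (pt n 2) (pt n 4) (pt n 5) + lc ψ (pt n 3) (pt n 4) (pt n 5)) := ⟨_, rfl⟩
  have u1 : act (ψ (P n lt)) u = u := by
    rw [hu, act_sub, act_add, act_add, aa 0 1 (by decide), aa 1 0 (by decide), aa 2 3 (by decide), aa 3 2 (by decide)]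
    abel
  have u2 : act (ψ (P n [(4, 5), (6, 7)])) u = -u := by
    rw [hu, act_sub, act_add, act_add, ta 0 (by norm_num), ta 1 (by norm_num), ta 2 (by norm_num), ta 3 (by norm_num)]
    abel
  have u3 : act g u = u := by rw [k8 u u1, k9 u u1 u2, br_zero_right, smul_zero, add_zero]
  have u4 : act g u = -u := by
    rw [hu, act_sub, act_add, act_add, ga 0 (by norm_num), ga 1 (by norm_num), ga 2 (by norm_num), ga 3 (by norm_num)]
    rcases s0 with h | h
    · rw [h] at s00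
      rw [s00] at s22
      rw [s22] at s11
      rw [h, s00, s22, s11]
      abel
    · rw [h] at s00
      rw [s00] at s33
      rw [s33] at s11
      rw [h, s00, s33, s11]
      abel
  rw [u3, eq_neg_iff_add_eq_zero] at u4
  rw [← sub_eq_zero, ← hu, ← half h2' u, u4, smul_zero]

end main

end Cfsg.Agent.E8A.Odd.Pt3

namespace Cfsg.Agent.E8A.Odd

open Cfsg.Agent.E8A.Odd.Pt3
open Cfsg.Agent.R2.T1.Odd (P lt P_pow_one P_ne P_nil)

universe u

/-- **PT3** -/
theorem pt3 : PT3.{u} := by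
  intro F _ _ h2 n _ hn hn' H φ hM hy
  have h2' := two_ne h2
  have ne : ∀ {i j : ℕ}, i < 9 ∧ j < 9 ∧ i ≠ j → pt n i ≠ pt n j := pt_ne hn
  have hy' : Hy (emb0.comp φ) := hy
  have k1 : ∀ s : Equiv.Perm (Fin n), lc (emb0.comp φ) (s (pt n 0)) (s (pt n 4)) (s (pt n 5)) +
      lc (emb0.comp φ) (s (pt n 1)) (s (pt n 4)) (s (pt n 5)) = lc (emb0.comp φ) (s (pt n 2)) (s (pt n 4)) (s (pt n 5)) +
      lc (emb0.comp φ) (s (pt n 3)) (s (pt n 4)) (s (pt n 5)) := fun s => by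
    have h := key h2 hn hn' (max_comp hM (cj s)) (by rw [← MonoidHom.comp_assoc]; exact hy'.comp (cj s))
    rw [← MonoidHom.comp_assoc] at h
    rwa [lv_comp s (ne (by decide)) (ne (by decide)), lv_comp s (ne (by decide)) (ne (by decide)),
      lv_comp s (ne (by decide)) (ne (by decide)), lv_comp s (ne (by decide)) (ne (by decide))] at h
  have k2 : ∀ f : Fin 6 → ℕ, (∀ a, f a < 9) → Function.Injective f →
      lc (emb0.comp φ) (pt n (f 0)) (pt n (f 4)) (pt n (f 5)) + lc (emb0.comp φ) (pt n (f 1)) (pt n (f 4)) (pt n (f 5)) =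
      lc (emb0.comp φ) (pt n (f 2)) (pt n (f 4)) (pt n (f 5)) +
        lc (emb0.comp φ) (pt n (f 3)) (pt n (f 4)) (pt n (f 5)) := fun f hf hf' => by
    obtain ⟨s, hs⟩ := exists_label hn (m := 6) (by norm_num) Fin.val (fun a => by omega) Fin.val_injective
      (fun a => pt n (f a)) fun a b e => by
        by_contra h
        exact ne ⟨hf a, hf b, fun e' => h (hf' e')⟩ e
    rw [← hs 0, ← hs 1, ← hs 2, ← hs 3, ← hs 4, ← hs 5]
    exact k1 s
  have k3 : lc (emb0.comp φ) (pt n 4) (pt n 0) (pt n 1) + lc (emb0.comp φ) (pt n 2) (pt n 0) (pt n 1) =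
      lc (emb0.comp φ) (pt n 3) (pt n 0) (pt n 1) + lc (emb0.comp φ) (pt n 5) (pt n 0) (pt n 1) :=
    k2 ![4, 2, 3, 5, 0, 1] (by decide) (by decide)
  have k4 : lc (emb0.comp φ) (pt n 4) (pt n 0) (pt n 1) + lc (emb0.comp φ) (pt n 3) (pt n 0) (pt n 1) =
      lc (emb0.comp φ) (pt n 2) (pt n 0) (pt n 1) + lc (emb0.comp φ) (pt n 5) (pt n 0) (pt n 1) :=
    k2 ![4, 3, 2, 5, 0, 1] (by decide) (by decide)
  obtain ⟨A, g, j1, j2, j3, j4, j5, -, j7, -⟩ := hy'.one
  obtain ⟨B, C, e1, e2, -⟩ := four hn j1 j2 j3 j4 j5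
  rw [lv_cyc (ne (by decide)) (ne (by decide)) (ne (by decide))] at e1 e2
  rw [e1, e2] at k3 k4
  have hA : A = 0 := by
    have h1 := congrArg₂ (· - ·) k3 k4
    have h3 : A + A + (A + A) = 0 := by
      rw [← sub_eq_zero] at h1
      rw [← h1]
      abel
    rw [← half h2' A, ← half h2' (A + A), h3, smul_zero, smul_zero]
  have ha : (emb0.comp φ) (P n lt) * (emb0.comp φ) (P n lt) = 1 := by
    rw [← map_mul, ← pow_two, P_pow_one hn (by decide) (by decide), map_one]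
  have h1 : (emb0.comp φ) (P n lt) = 1 := Par.ext_act fun v => by
    have h3 := j7 (v - act ((emb0.comp φ) (P n lt)) v) (by rw [act_sub, ← act_mul, ha, act_one, neg_sub])
    rw [hA, TwoH.br_zero_left] at h3
    rw [act_one, ← sub_eq_zero.1 (act_eq_zero h3)]
  rw [← map_one (emb0.comp φ), ← P_nil] at h1
  exact P_ne hn (by decide) (by decide) (by decide) ((emb0_injective.comp hM.inj) h1)

end Cfsg.Agent.E8A.Odd
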