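import Cfsg.Agent.E8A.Odd.Iface
import Cfsg.Agent.E8A.TwoH.Lie

/-!
# Box PT3: the vector `ell g` with `ad v = g - g⁻¹` on a large subspace (helper8)

* `Ell.uniq`, `Ell.conj`, `Ell.inv`, `Ell.em`; `ell`, `ell_eq`, `ell_conj`, `ell_inv`, `ell_frq`;
* `span_sub`, `span_dim` : the span of a family `l i j k` with the relations of `so₃` is a small subalgebra.
-/

set_option autoImplicit false
set_option maxRecDepth 100000

namespace Cfsg.Agent.E8A.Odd.Pt3

open Cfsg Cfsg.Lie Module Matrix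
open Cfsg.Agent.KFacts.RgdChevCoord Cfsg.Agent.ChevalleyStructure.CoxeterGeomTypes
open Cfsg.Agent.Nodes.Reps Cfsg.Agent.Nodes.BNOf Cfsg.Agent.Nodes.RGDChev
open Cfsg.Agent.H952.F4 (ev)
open Cfsg.Agent.H288.E8L (Q8 wt wt_inr wt_inj vec_ne_zero)
open Cfsg.Agent.H897.T5Lat (bf_apply)
open Cfsg.Agent.E8A.Frm (B0 fm8 finW8)
open Cfsg.Agent.E8A.Par (op vec_op norm_wt)
open Cfsg.Agent.E8A.Inf (finrank_L8)
open Cfsg.Agent.E8A.TwoH (br_anti br_self br_jac br_der brL br_ee_op br_of_norm B0_vec B0_add finrank_LS hq inT_hq rl_hq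
  br_zero_right br_zero_left)

universe u v

variable {K : Type u} [Field K]

/-- the subspace of `Ell` -/
noncomputable def KE (g : G8 K) (v : L8 K) : Submodule K (L8 K) :=
  Module.End.eigenspace (Matrix.toLin' (adm v - mx g + mx g⁻¹)) 0

theorem mem_KE {g : G8 K} {v w : L8 K} : w ∈ KE g v ↔ br v w - act g w + act g⁻¹ w = 0 := by
  unfold KE
  rw [Module.End.mem_eigenspace_iff, zero_smul, Matrix.toLin'_apply, Matrix.add_mulVec, Matrix.sub_mulVec]
  rfl

theorem ell_iff {g : G8 K} {v : L8 K} : Ell g v ↔ 240 ≤ finrank K ↥(KE g v) := Iff.rfl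

theorem Ell_conj {g : G8 K} {v : L8 K} (h : Ell g v) (c : G8 K) : Ell (c * g * c⁻¹) (act c v) := by
  rw [ell_iff] at h ⊢
  have h1 : (KE g v).map (LK K c) ≤ KE (c * g * c⁻¹) (act c v) := by
    rintro _ ⟨w, hw, rfl⟩
    have h2 := congrArg (act c) (mem_KE.1 hw)
    rw [act_add, act_sub, act_br, act_zero] at h2
    rw [mem_KE, LK_apply, ← act_mul, ← act_mul, inv_mul_cancel_right, show (c * g * c⁻¹)⁻¹ * c = c * g⁻¹ by group, act_mul,
      act_mul, h2]
  have h2 := Submodule.finrank_mono h1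
  rw [← LinearEquiv.finrank_eq (Submodule.equivMapOfInjective (LK K c) (act_injective c) (KE g v))] at h2
  omega

theorem Ell_inv {g : G8 K} {v : L8 K} (h : Ell g v) : Ell g⁻¹ (-v) := by
  rw [ell_iff] at h ⊢
  refine h.trans (Submodule.finrank_mono fun w hw => ?_)
  have h1 := mem_KE.1 hw
  rw [mem_KE, inv_inv, ← neg_one_smul K v, br_smul_left, neg_one_smul, ← neg_eq_zero, ← h1]
  abel

theorem Ell_em {L : Type v} [Field L] (f : K →+* L) {g : G8 K} {v : L8 K} (h : Ell g v) : Ell (em f g) (mp f v) := by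
  have h1 := H815.F4Chg.ev_map f (adm v - mx g + mx g⁻¹) 0
  unfold Ell
  rw [adm_mp, ← map_inv, mx_em, mx_em, ← Matrix.map_sub _ (map_sub f), ← Matrix.map_add _ (map_add f), ← map_zero f, h1]
  exact h

/-- the highest root -/
def th : Fin chevE8.nroots := ⟨239, by decide⟩

theorem B0_th (a : Q8) : B0 (vec chevE8 8 th) a = a 7 := by
  have h : ∀ j : Fin 8, ∑ i : Fin 8, vec chevE8 8 th i * cartanOf chevE8 8 i j = if j = 7 then 1 else 0 := by decide +kernel
  rw [bf_apply, Finset.sum_comm]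
  have h1 : ∀ j ∈ (Finset.univ : Finset (Fin 8)), ∑ i : Fin 8, vec chevE8 8 th i * cartanOf chevE8 8 i j * a j =
      if j = 7 then a j else 0 := fun j _ => by
    rw [← Finset.sum_mul, h]
    split_ifs
    · rw [one_mul]
    · rw [zero_mul]
  rw [Finset.sum_congr rfl h1, Finset.sum_ite_eq', if_pos (Finset.mem_univ _)]

theorem eq_zero_of_br {u w : L8 K} (hu : u (Sum.inr (op th)) ≠ 0) (hw : w ∈ LS K {a | a 7 = 1}) (h : br u w = 0) : w = 0 := by
  have := finW8
  obtain ⟨c, hc⟩ : ∃ c, c = u (Sum.inr (op th)) := ⟨_, rfl⟩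
  have h1 : u - c • ee K (Sum.inr (op th)) ∈ LS K {a | -1 ≤ a 7} := by
    intro i hi
    by_contra hcon
    have h2 : wt i 7 ≤ -2 := by
      have h3 : ¬ -1 ≤ wt i 7 := hcon
      omega
    have h3 := B0_add (vec chevE8 8 th) (wt i)
    rw [B0_vec, B0_th] at h3
    have h4 := norm_wt i
    have h5 : vec chevE8 8 th + wt i = 0 := fm8.eq_zero (by omega)
    have h6 : wt i = vec chevE8 8 (op th) := by rw [vec_op, eq_neg_iff_add_eq_zero, add_comm, h5]
    have h7 : i = Sum.inr (op th) := wt_inj (h6.trans (wt_inr _).symm) (by rw [h6]; exact vec_ne_zero _)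
    apply hi
    rw [h7, Pi.sub_apply, Pi.smul_apply, ee_self, smul_eq_mul, mul_one, hc, sub_self]
  have h2 : br (u - c • ee K (Sum.inr (op th))) w ∈ LS K {a | 0 ≤ a 7} := br_LS (fun a ha b hb => by
    have ha' : -1 ≤ a 7 := ha
    have hb' : b 7 = 1 := hb
    show 0 ≤ a 7 + b 7
    omega) h1 hw
  have h3 : br (ee K (Sum.inr (op th))) w ∈ LS K {a | a 7 = -1} := br_LS (A := {vec chevE8 8 (op th)}) (fun a ha b hb => by
    have hb' : b 7 = 1 := hb
    have h4 := B0_vec th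
    rw [B0_th] at h4
    show a 7 + b 7 = -1
    rw [Set.mem_singleton_iff.1 ha, vec_op, Pi.neg_apply]
    omega) (ee_mem_LS rfl) hw
  rw [br_sub_left, h, zero_sub, br_smul_left] at h2
  have h4 : br (ee K (Sum.inr (op th))) w = 0 := by
    have h5 := eq_zero_of_LS h2 (neg_mem (Submodule.smul_mem _ c h3)) fun a ha hb => by
      have ha' : 0 ≤ a 7 := ha
      have hb' : a 7 = -1 := hb
      omega
    exact (smul_eq_zero.1 (neg_eq_zero.1 h5)).resolve_left (hc ▸ hu)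
  have h5 : br (ee K (Sum.inr th)) w = 0 := br_of_norm (A := {vec chevE8 8 th}) (fun a ha b hb => by
    have hb' : b 7 = 1 := hb
    have h6 := fm8.nonneg b
    rw [Set.mem_singleton_iff.1 ha, B0_add, B0_vec, B0_th]
    omega) (ee_mem_LS rfl) hw
  have h6 := br_jac (ee K (Sum.inr th)) (ee K (Sum.inr (op th))) w
  rw [h4, h5, br_zero_right, br_zero_right, sub_zero, br_ee_op] at h6
  funext i
  by_contra hi
  have h7 := congrFun h6 i
  have h8 : wt i 7 = 1 := hw i hi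
  rw [br_T (inT_hq _), rl_hq, B0_th, h8, Int.cast_one, one_mul] at h7
  exact hi h7

theorem exists_coef {u : L8 K} (hu : u ≠ 0) (j : chevE8.Idx) : ∃ c : G8 K, act c u j ≠ 0 := by
  by_contra hcon
  have h0 : ∀ c : G8 K, act c u j = 0 := fun c => by
    by_contra h
    exact hcon ⟨c, h⟩
  let W : Submodule K (L8 K) :=
    { carrier := {w | ∀ c : G8 K, act c w j = 0}
      add_mem' := fun {a b} ha hb c => by rw [act_add, Pi.add_apply, ha c, hb c, add_zero]
      zero_mem' := fun c => by rw [act_zero]; rfl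
      smul_mem' := fun t a ha c => by rw [act_smul, Pi.smul_apply, ha c, smul_zero] }
  rcases Inf.irr (W := W) (fun g w hw c => by rw [← act_mul]; exact hw _) with h | h
  · have h1 : u ∈ W := h0
    rw [h] at h1
    exact hu h1
  · have h1 : ee K j ∈ W := h ▸ Submodule.mem_top
    have h2 := h1 1
    rw [act_one, ee_self] at h2
    exact one_ne_zero h2

/-- **(U)** -/
theorem Ell_uniq {g : G8 K} {v v' : L8 K} (h : Ell g v) (h' : Ell g v') : v = v' := by
  by_contra hne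
  obtain ⟨c, hc⟩ := exists_coef (sub_ne_zero.2 hne) (Sum.inr (op th))
  have k := ell_iff.1 (Ell_conj h c)
  have k' := ell_iff.1 (Ell_conj h' c)
  have h1 : finrank K ↥(LS K {a | a 7 = 1}) = 56 := by
    rw [finrank_LS]
    decide +kernel
  have h2 : (KE (c * g * c⁻¹) (act c v) ⊓ KE (c * g * c⁻¹) (act c v')) ⊓ LS K {a | a 7 = 1} = ⊥ := by
    rw [eq_bot_iff]
    rintro w ⟨⟨h3, h4⟩, h5⟩
    refine eq_zero_of_br hc h5 ?_
    have h6 := (mem_KE.1 h3).trans (mem_KE.1 h4).symm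
    rw [act_sub, br_sub_left, sub_eq_zero]
    exact sub_left_injective (add_right_cancel h6)
  have h3 := Submodule.finrank_sup_add_finrank_inf_eq (KE (c * g * c⁻¹) (act c v)) (KE (c * g * c⁻¹) (act c v'))
  have h4 := Submodule.finrank_sup_add_finrank_inf_eq (KE (c * g * c⁻¹) (act c v) ⊓ KE (c * g * c⁻¹) (act c v'))
    (LS K {a | a 7 = 1})
  have h5 := Submodule.finrank_le (KE (c * g * c⁻¹) (act c v) ⊔ KE (c * g * c⁻¹) (act c v'))
  have h6 := Submodule.finrank_le ((KE (c * g * c⁻¹) (act c v) ⊓ KE (c * g * c⁻¹) (act c v')) ⊔ LS K {a | a 7 = 1})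
  rw [h2, finrank_bot, h1] at h4
  rw [finrank_L8] at h5 h6
  omega

open Classical in
/-- the vector of `g` -/
noncomputable def ell (g : G8 K) : L8 K := if h : ∃ v, Ell g v then h.choose else 0

theorem ell_eq {g : G8 K} {v : L8 K} (h : Ell g v) : ell g = v := by
  have h1 : ∃ v, Ell g v := ⟨v, h⟩
  rw [ell, dif_pos h1]
  exact Ell_uniq h1.choose_spec h

theorem ell_conj (c g : G8 K) : ell (c * g * c⁻¹) = act c (ell g) := by
  by_cases h : ∃ v, Ell g v
  · obtain ⟨v, hv⟩ := h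
    rw [ell_eq hv, ell_eq (Ell_conj hv c)]
  · have h1 : ¬ ∃ v, Ell (c * g * c⁻¹) v := fun ⟨v, hv⟩ => h ⟨_, by
      have h2 := Ell_conj hv c⁻¹
      rwa [show c⁻¹ * (c * g * c⁻¹) * c⁻¹⁻¹ = g by group] at h2⟩
    rw [ell, ell, dif_neg h, dif_neg h1, act_zero]

theorem ell_inv (g : G8 K) : ell g⁻¹ = -ell g := by
  by_cases h : ∃ v, Ell g v
  · obtain ⟨v, hv⟩ := h
    rw [ell_eq hv, ell_eq (Ell_inv hv)]
  · have h1 : ¬ ∃ v, Ell g⁻¹ v := fun ⟨v, hv⟩ => h ⟨_, by
      have h2 := Ell_inv hv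
      rwa [inv_inv] at h2⟩
    rw [ell, ell, dif_neg h, dif_neg h1, neg_zero]

theorem ell_frq {F : Type u} [Field F] [Finite F] (g : G8 F) : mp (fq F) (ell (emb0 g)) = ell (emb0 g) := by
  by_cases h : ∃ v, Ell (emb0 g) v
  · obtain ⟨v, hv⟩ := h
    have h1 := Ell_em (fq F) hv
    rw [show em (fq F) (emb0 g) = emb0 g from sg_emb0 g] at h1
    rw [ell_eq hv]
    exact Ell_uniq h1 hv
  · rw [ell, dif_neg h, mp_zero]

/-! ### the span of the vectors -/

section span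

variable {n : ℕ} (l : Fin n → Fin n → Fin n → L8 K)

/-- the relations -/
structure Rel : Prop where
  cyc : ∀ i j k, i ≠ j → i ≠ k → j ≠ k → l j k i = l i j k
  neg : ∀ i j k, i ≠ j → i ≠ k → j ≠ k → l i k j = -l i j k
  so : ∀ i j k m, i ≠ j → i ≠ k → i ≠ m → j ≠ k → j ≠ m → k ≠ m → l j k m = l i j k - l i j m + l i k m ∧
    br (l i j k) (l i j m) = (2 : K) • l i k m + l i j k - l i j m

/-- the span -/
def WW : Submodule K (L8 K) := Submodule.span K {v | ∃ i j k, i ≠ j ∧ i ≠ k ∧ j ≠ k ∧ v = l i j k}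

variable {l}

theorem mem_WW {i j k : Fin n} (h1 : i ≠ j) (h2 : i ≠ k) (h3 : j ≠ k) : l i j k ∈ WW l :=
  Submodule.subset_span ⟨i, j, k, h1, h2, h3, rfl⟩

theorem WW_le (hl : Rel l) (o : Fin n) {U : Submodule K (L8 K)} (h : ∀ j k, o ≠ j → o ≠ k → j < k → l o j k ∈ U) :
    WW l ≤ U := by
  have h' : ∀ j k, o ≠ j → o ≠ k → j ≠ k → l o j k ∈ U := fun j k h1 h2 h3 => by
    rcases lt_or_gt_of_ne h3 with h4 | h4
    · exact h j k h1 h2 h4
    · rw [hl.neg o k j h2 h1 h3.symm]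
      exact neg_mem (h k j h2 h1 h4)
  refine Submodule.span_le.2 ?_
  rintro _ ⟨i, j, k, h1, h2, h3, rfl⟩
  by_cases e1 : o = i
  · subst e1
    exact h' j k h1 h2 h3
  by_cases e2 : o = j
  · subst e2
    rw [← hl.cyc i o k h1 h2 h3]
    exact h' k i h3 h1.symm h2.symm
  by_cases e3 : o = k
  · subst e3
    rw [hl.cyc o i j e1 e2 h1]
    exact h' i j e1 e2 h1
  rw [(hl.so o i j k e1 e2 e3 h1 h2 h3).1]
  exact add_mem (sub_mem (h' _ _ e1 e2 h1) (h' _ _ e1 e3 h2)) (h' _ _ e2 e3 h3)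

theorem span_dim (hl : Rel l) (o : Fin n) (hn : n ≤ 18) : WW l ≠ ⊤ := by
  classical
  intro ht
  let s : Finset (Fin n × Fin n) := {x ∈ Finset.univ ×ˢ Finset.univ | x.1 < x.2}
  have h1 : WW l ≤ Submodule.span K ((s.image fun x => l o x.1 x.2 : Finset (L8 K)) : Set (L8 K)) :=
    WW_le hl o fun j k _ _ h => Submodule.subset_span (Finset.mem_coe.2 (Finset.mem_image.2
      ⟨(j, k), Finset.mem_filter.2 ⟨Finset.mem_product.2 ⟨Finset.mem_univ _, Finset.mem_univ _⟩, h⟩, rfl⟩))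
  have h2 := Submodule.finrank_mono h1
  have h3 := finrank_span_finset_le_card (R := K) (s.image fun x => l o x.1 x.2)
  have h4 : (s.image fun x => l o x.1 x.2).card ≤ s.card := Finset.card_image_le
  have h5 : s.card = n.choose 2 := by rw [Finset.card_product_filter_lt, Finset.card_univ, Fintype.card_fin]
  have h6 : n.choose 2 ≤ 153 := (Nat.choose_le_choose 2 hn).trans (by decide)
  rw [ht, finrank_top, finrank_L8] at h2
  unfold Set.finrank at h3
  omega

theorem br_neg_left (x y : L8 K) : br (-x) y = -br x y := by rw [← neg_one_smul K x, br_smul_left, neg_one_smul]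

theorem br_neg_right (x y : L8 K) : br x (-y) = -br x y := by rw [← neg_one_smul K y, br_smul_right, neg_one_smul]

theorem span_sub (h2 : (2 : K) ≠ 0) (hl : Rel l) (o : Fin n) {x y : L8 K} (hx : x ∈ WW l) (hy : y ∈ WW l) :
    br x y ∈ WW l := by
  have m1 : ∀ j k m, o ≠ j → o ≠ k → o ≠ m → j ≠ k → j ≠ m → br (l o j k) (l o j m) ∈ WW l := by
    intro j k m h1 h3 h4 h5 h6
    by_cases e : k = m
    · rw [e, br_self]
      exact zero_mem _
    rw [(hl.so o j k m h1 h3 h4 h5 h6 e).2]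
    exact sub_mem (add_mem (Submodule.smul_mem _ _ (mem_WW h3 h4 e)) (mem_WW h1 h3 h5)) (mem_WW h1 h4 h6)
  have m2 : ∀ j k m, o ≠ j → o ≠ k → o ≠ m → j ≠ k → m ≠ k → br (l o j k) (l o m k) ∈ WW l := by
    intro j k m h1 h3 h4 h5 h6
    rw [hl.neg o k j h3 h1 h5.symm, hl.neg o k m h3 h4 h6.symm, br_neg_left, br_neg_right, neg_neg]
    exact m1 k j m h3 h1 h4 h5.symm h6.symm
  have m3 : ∀ j k m r, o ≠ j → o ≠ k → o ≠ m → o ≠ r → j ≠ k → j ≠ m → j ≠ r → k ≠ m → k ≠ r → m ≠ r →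
      (2 : K) • br (l o j k) (l o m r) - (2 : K) • br (l o k m) (l o j r) - (2 : K) • br (l o j m) (l o k r) ∈ WW l := by
    intro j k m r h1 h3 h4 h5 h6 h7 h8 h9 h10 h11
    have e1 := (hl.so o j m r h1 h4 h5 h7 h8 h11).2
    have e2 := (hl.so o j k m h1 h3 h4 h6 h7 h9).2
    have e3 := (hl.so o j k r h1 h3 h5 h6 h8 h10).2
    have e4 := br_der (l o j k) (l o j m) (l o j r)
    rw [e1, e2, e3] at e4
    simp only [br_add_left, br_sub_left, br_smul_left, br_add_right, br_sub_right, br_smul_right] at e4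
    have e5 : (2 : K) • br (l o j k) (l o m r) - (2 : K) • br (l o k m) (l o j r) - (2 : K) • br (l o j m) (l o k r) =
        br (l o j k) (l o j r) - br (l o j k) (l o j m) + (br (l o j k) (l o j r) - br (l o j m) (l o j r)) +
          (br (l o j m) (l o j k) - br (l o j m) (l o j r)) := by
      rw [← sub_eq_zero] at e4 ⊢
      rw [← e4]
      abel
    rw [e5]
    exact add_mem (add_mem (sub_mem (m1 _ _ _ h1 h3 h5 h6 h8) (m1 _ _ _ h1 h3 h4 h6 h7))
      (sub_mem (m1 _ _ _ h1 h3 h5 h6 h8) (m1 _ _ _ h1 h4 h5 h7 h8)))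
      (sub_mem (m1 _ _ _ h1 h4 h3 h7 h6) (m1 _ _ _ h1 h4 h5 h7 h8))
  have m4 : ∀ j k m r, o ≠ j → o ≠ k → o ≠ m → o ≠ r → j ≠ k → m ≠ r → br (l o j k) (l o m r) ∈ WW l := by
    intro j k m r h1 h3 h4 h5 h6 h11
    by_cases e1 : j = m
    · subst e1
      exact m1 _ _ _ h1 h3 h5 h6 h11
    by_cases e2 : k = r
    · subst e2
      exact m2 _ _ _ h1 h3 h4 h6 h11
    by_cases e3 : j = r
    · subst e3
      rw [hl.neg o j m h1 h4 e1, br_neg_right]
      exact neg_mem (m1 _ _ _ h1 h3 h4 h6 e1)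
    by_cases e4 : k = m
    · subst e4
      rw [hl.neg o k j h3 h1 h6.symm, br_neg_left]
      exact neg_mem (m1 _ _ _ h3 h1 h5 h6.symm e2)
    have k1 := sub_mem (m3 j k m r h1 h3 h4 h5 h6 e1 e3 e4 e2 h11) (m3 k j m r h3 h1 h4 h5 h6.symm e4 e2 e1 e3 h11)
    rw [hl.neg o j k h1 h3 h6, br_neg_left] at k1
    have k2 := Submodule.smul_mem _ ((2 : K)⁻¹ * (2 : K)⁻¹) k1
    have e5 : ∀ X Y Z : L8 K, ((2 : K)⁻¹ * (2 : K)⁻¹) • ((2 : K) • X - (2 : K) • Y - (2 : K) • Z -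
        ((2 : K) • -X - (2 : K) • Z - (2 : K) • Y)) = X := fun X Y Z => by
      have e6 : (2 : K) • X - (2 : K) • Y - (2 : K) • Z - ((2 : K) • -X - (2 : K) • Z - (2 : K) • Y) =
          (2 : K) • ((2 : K) • X) := by
        rw [smul_neg, two_smul K ((2 : K) • X)]
        abel
      rw [e6, mul_smul, inv_smul_smul₀ h2, inv_smul_smul₀ h2]
    rwa [e5] at k2
  have m5 : ∀ j k, o ≠ j → o ≠ k → j ≠ k → WW l ≤ (WW l).comap (brL K (l o j k)) := fun j k h1 h3 h4 =>
    WW_le hl o fun m r h5 h6 h7 => m4 j k m r h1 h3 h5 h6 h4 h7.ne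
  exact WW_le hl o (U := (WW l).comap ((brL K).flip y)) (fun j k h1 h3 h4 => m5 j k h1 h3 h4.ne hy) hx

end span

end Cfsg.Agent.E8A.Odd.Pt3
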