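import Cfsg.Agent.E8A.Odd.Sl2
import Cfsg.Agent.DS.Nt.Base

/-!
# The long root subalgebra of an involution of type `E₇ A₁` (helper41)

* `Rz.ev_eq`, `exists_rz`, `exists_root` : the class of the involutions;
* `Rz.Sz_unique` : the subalgebra depends only on the involution; `Rz.act_mem`;
* `pair_frame`, `fix_of_types`, `neg_of_types` : two commuting involutions;
* `Rz.fix_of_two` : an involution of the subalgebra which fixes a plane is trivial;
* `comm_tz` : elements which commute with the torus of the subalgebra.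
-/

set_option autoImplicit false
set_option maxRecDepth 100000
set_option linter.unusedSectionVars false

namespace Cfsg.Agent.E8A.Odd

open CoxeterSystem Cfsg Cfsg.Lie Module
open Matrix hiding J J_transpose
open Cfsg.Agent.ChevalleyStructure.CoxeterGeom Cfsg.Agent.ChevalleyStructure.CoxeterGeomTypes
open Cfsg.Agent.Tits.Roots Cfsg.Agent.Nodes.Reps Cfsg.Agent.Nodes.RGDChev
open Cfsg.Agent.KFacts.RgdChevCoord Cfsg.Agent.H129.TorusChar
open Cfsg.Agent.H942.E8Tab (e8T)
open Cfsg.Agent.H942.CB (W8 cs8)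
open Cfsg.Agent.H288.E8L (Q8 wt act8 wt_inl wt_inr rt_vec vec_ne_zero exists_idx wt_inj)
open Cfsg.Agent.H952.F4 (ev)
open Cfsg.Agent.H944.Kac (srefl)
open Cfsg.Agent.E8A.Frm (B0 fm8 finW8)
open Cfsg.Agent.E8A.Inf (kf kf_comm kf_act kf_act' kf_nd)
open Cfsg.Agent.E8A.Par (op vec_op op_ne kf_ee act_xr ux act_ux norm_wt ext_act Extr)
open Cfsg.Agent.E8A.Reg5.Cls (ex dz Cj mv dfx_of_cj ev_eq_dfx exists_tb tb dz_congr)
open Cfsg.Agent.E8A.Reg5.Aut (si vec_si B0_sr)
open Cfsg.Agent.E8A.Two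
open Cfsg.Agent.E8A.TwoH

universe u

/-! ### the lattice -/

theorem even_norm (x : Q8) : Even (B0 x x) := by
  have := finW8
  obtain ⟨L, hL, rfl⟩ := H897.T5Lat.Frm.exists_list (cs := cs8) (h := e8T.isCartan) x
  induction L with
  | nil => simp
  | cons a L ih =>
    rw [List.sum_cons, B0_add, fm8.self (hL a List.mem_cons_self)]
    exact ((even_two).add (even_two_mul _)).add (ih fun y hy => hL y (List.mem_cons_of_mem _ hy))

theorem eight_dvd {v : Q8} (h : ∀ i, Even (B0 (sr i) v)) : 8 ∣ B0 v v := by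
  have h1 : ∀ m, Even (v m) := fun m => by
    have h2 : v m = ∑ j, B8 m j * B0 (sr j) v := by
      simp only [B0_sr, pairing, Finset.mul_sum, ← mul_assoc]
      rw [Finset.sum_comm]
      simp only [← Finset.sum_mul, B8_left, ite_mul, one_mul, zero_mul, Finset.sum_ite_eq, Finset.mem_univ, if_true]
    rw [h2]
    exact Finset.even_sum _ fun j _ => (h j).mul_left _
  choose l hl using h1
  obtain ⟨k, hk⟩ := even_norm l
  have h3 : v = l + l := funext hl
  rw [h3, B0_add, hk]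
  exact ⟨k, by ring⟩

theorem parity {K : Type u} [Field K] (h2 : (2 : K) ≠ 0) {a b : ℤ} (h : (-1 : K) ^ a = (-1) ^ b) : Even (a - b) := by
  have h3 : (1 : K) ≠ -1 := fun e => h2 (by linear_combination e)
  rcases Int.even_or_odd a with ha | ha <;> rcases Int.even_or_odd b with hb | hb
  · exact ha.sub hb
  · rw [ha.neg_one_zpow, hb.neg_one_zpow] at h
    exact absurd h h3
  · rw [ha.neg_one_zpow, hb.neg_one_zpow] at h
    exact absurd h.symm h3
  · exact ha.sub_odd hb

theorem eq_or_op {r s : Fin chevE8.nroots}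
    (h : ∀ i, Even (B0 (vec chevE8 8 r) (sr i) - B0 (vec chevE8 8 s) (sr i))) : s = r ∨ s = op r := by
  have := finW8
  have h1 := eight_dvd (v := vec chevE8 8 r - vec chevE8 8 s) fun i => by
    rw [B0_comm, map_sub, LinearMap.sub_apply]
    exact h i
  have h3 := fm8.norm_sub_smul (vec chevE8 8 r) (vec chevE8 8 s) 1
  rw [one_smul, B0_vec, B0_vec] at h3
  have h4 := gr_cases r (Sum.inr s)
  rw [wt_inr] at h4
  rcases h4 with h4 | h4 | h4 | h4 | h4
  · omega
  · omega
  · omega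
  · exact Or.inl (Sum.inr.inj h4.2)
  · exact Or.inr (Sum.inr.inj h4.2)

theorem exists_add {r s : Fin chevE8.nroots} (h : B0 (vec chevE8 8 r) (vec chevE8 8 s) = -1) :
    ∃ u : Fin chevE8.nroots, vec chevE8 8 u = vec chevE8 8 r + vec chevE8 8 s := by
  by_contra hn
  have h1 : br (ee ℚ (Sum.inr r)) (ee ℚ (Sum.inr s)) = 0 := by
    funext i
    refine LS_zero (br_LS (A := {vec chevE8 8 r}) (A' := {vec chevE8 8 s}) (A'' := {vec chevE8 8 r + vec chevE8 8 s}) ?_
      (ee_mem_LS (i := Sum.inr r) rfl) (ee_mem_LS (i := Sum.inr s) rfl)) fun hi => ?_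
    · rintro a rfl b rfl
      rfl
    · rcases i with i | u
      · have h3 := congrArg (B0 (vec chevE8 8 r)) (show (0 : Q8) = _ from hi)
        rw [map_zero, map_add, B0_vec, h] at h3
        omega
      · exact hn ⟨u, hi⟩
  have h2 := congrFun (br_jac (ee ℚ (Sum.inr r)) (ee ℚ (Sum.inr (op r))) (ee ℚ (Sum.inr s))) (Sum.inr s)
  rw [br_ee_op, br_ee_zero (r := op r) (by rw [vec_op, map_neg, LinearMap.neg_apply, h]; norm_num), h1,
    br_zero_right, br_zero_right, sub_zero, br_T (inT_hq _), wt_inr, rl_hq, h, ee_self] at h2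
  simp at h2

theorem cv_add {r s u : Fin chevE8.nroots} (h : vec chevE8 8 u = vec chevE8 8 r + vec chevE8 8 s) :
    cv u = cv r + cv s := by
  funext i
  rw [Pi.add_apply, ← ex_sr (cv u), ← ex_sr (cv r), ← ex_sr (cv s), ex_cv, ex_cv, ex_cv, h, map_add, LinearMap.add_apply]

theorem mv_si : ∀ i : Fin 8, mv 2 (cv (si i)) = 112 := by decide +kernel

theorem cv_refl {r s : Fin chevE8.nroots} {j : Fin 8} (hs : vec chevE8 8 s = rp8 (cs8.simple j) (vec chevE8 8 r)) :
    cv s = srefl chevE8 8 j (cv r) := by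
  funext k
  have h1 : pairing (cartanOf chevE8 8) k (sr j) = cartanOf chevE8 8 k j := ex_sr' k j
  rw [cv, ← pairing_vec e8T k s.2, hs, rep_simple_eq, sub_eq_add_neg, ← neg_smul, pairing_add, pairing_smul, h1,
    pairing_vec e8T k r.2, pairing_vec e8T j r.2, srefl, cv, cv, Int.cast_id, cartan_symm j k]
  ring

theorem cv_top : cv ⟨239, by decide⟩ = Pi.single 7 1 := by decide +kernel

theorem tb_two : ∀ x ∈ tb 2, x.2 = 136 → (fun i : Fin 8 => ((x.1.getD i 0 : ℕ) : ℤ)) = Pi.single 7 1 := by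
  decide +kernel

section

variable {K : Type u} [Field K] (h2 : (2 : K) ≠ 0)
include h2

theorem prim_neg : IsPrimitiveRoot (-1 : K) 2 :=
  IsPrimitiveRoot.mk_of_lt _ two_pos neg_one_sq fun l h0 hl => by
    obtain rfl : l = 1 := by omega
    rw [pow_one]
    exact fun e => h2 (by linear_combination -e)

theorem Rz.ev_eq {z : G8 K} {e f : L8 K} (h : Rz z e f) : ev (LK K z) 1 = 136 := by
  obtain ⟨g, r, -, -, hz⟩ := h
  refine Reg5.Aut.root_ind (P := fun a => ∀ r : Fin chevE8.nroots, vec chevE8 8 r = a → Cj z (-1) (cv r) →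
    ev (LK K z) 1 = 136) (fun i r hr hc => ?_) (fun i a ha ih s hs hc => ?_) (rt_vec r) r rfl ⟨g, hz⟩
  · have h1 := dfx_of_cj (prim_neg h2) hc
    rw [vec_injective (hr.trans (vec_si i).symm), mv_si, ← ev_eq_dfx] at h1
    omega
  · obtain ⟨u, hu⟩ := exists_idx ha
    refine ih u hu ?_
    rw [cv_refl (r := s) (j := i) (by
      rw [hs, hu]
      show a = act8 _ (act8 _ a)
      rw [← act8_mul, cs8.simple_mul_simple_self, act8_one])]
    exact hc.refl i

omit h2 in
theorem act_z_ee {z : G8 K} {r : Fin chevE8.nroots} (hz : mx z = dz (-1) (cv r)) (s : Fin chevE8.nroots) :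
    act z (ee K (Sum.inr s)) = (-1 : K) ^ B0 (vec chevE8 8 r) (vec chevE8 8 s) • ee K (Sum.inr s) := by
  funext i
  rw [act_z hz, Pi.smul_apply, smul_eq_mul]
  by_cases e : i = Sum.inr s
  · rw [e, wt_inr]
  · rw [ee_ne e, mul_zero, mul_zero]

/-- an involution of the subalgebra which fixes a plane is trivial -/
theorem Rz.fix_of_two {z y : G8 K} {e f v w : L8 K} (h : Rz z e f) (hy : y * y = 1)
    (hS : ∀ x ∈ Sz e f, act y x ∈ Sz e f) (hv : v ∈ Sz e f) (hw : w ∈ Sz e f) (hi : LinearIndependent K ![v, w])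
    (h1 : act y v = v) (h3 : act y w = w) {x : L8 K} (hx : x ∈ Sz e f) : act y x = x := by
  have yy : ∀ x, act y (act y x) = x := fun x => by rw [← act_mul, hy, act_one]
  obtain ⟨u, hu⟩ : ∃ u, u = act y x - x := ⟨_, rfl⟩
  have hu1 : u ∈ Sz e f := hu ▸ sub_mem (hS x hx) hx
  have hu2 : act y u = -u := by rw [hu, act_sub, yy, neg_sub]
  have hb : act y (br v w) = br v w := by rw [act_br, h1, h3]
  obtain ⟨a, b, c, rfl⟩ := mem_Sz.1 hv
  obtain ⟨a', b', c', rfl⟩ := mem_Sz.1 hw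
  obtain ⟨d, d', d'', e3⟩ := mem_Sz.1 hu1
  have k1 := kf_pm h2 h1 hu2
  have k2 := kf_pm h2 h3 hu2
  have k3 := kf_pm h2 hb hu2
  rw [e3] at k1 k2 k3
  simp only [br_add_left, br_add_right, br_smul_left, br_smul_right, br_self, br_anti f e, h.eh h2, h.fh h2, h.he h2,
    h.hf h2, map_add, map_smul, map_neg, map_zero, LinearMap.add_apply, LinearMap.smul_apply, LinearMap.neg_apply,
    LinearMap.zero_apply, smul_eq_mul, h.ee0, h.ef, h.kf_eh h2, h.ff0, h.fe, h.kf_fh h2, h.kf_he h2, h.kf_hf h2,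
    h.kf_hh h2] at k1 k2 k3
  by_contra hne
  have hu0 : u ≠ 0 := fun h0 => hne (sub_eq_zero.1 (hu ▸ h0))
  -- the cross product of `v`, `w` is proportional to `u` and orthogonal to it
  have hb2 : ∀ {s}, s ∈ Sz e f → act y s = s → act y (br s u) = -br s u := fun {s} _ hs => by
    rw [act_br, hs, hu2, br_neg_right]
  have hind : ∀ s ∈ Sz e f, act y s = -s → ∃ t : K, s = t • u := fun s hs hs' => by
    by_contra hn
    have h4 : LinearIndependent K ![u, s] := by
      rw [LinearIndependent.pair_iff' hu0]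
      exact fun t ht => hn ⟨t, ht.symm⟩
    have h5 : LinearIndependent K ![a • e + b • f + c • br e f, a' • e + b' • f + c' • br e f, u, s] := by
      rw [Fintype.linearIndependent_iff]
      intro g hg
      simp only [Fin.sum_univ_four, Matrix.cons_val] at hg
      have h6 := congrArg (act y) hg
      rw [act_add, act_add, act_add, act_smul, act_smul, act_smul, act_smul, h1, h3, hu2, hs', act_zero] at h6
      obtain ⟨e1, e2⟩ := LinearIndependent.pair_iff.1 hi (g 0) (g 1) (half h2 (by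
        linear_combination (norm := module) hg + h6))
      obtain ⟨e4, e5⟩ := LinearIndependent.pair_iff.1 h4 (g 2) (g 3) (half h2 (by
        linear_combination (norm := module) hg - h6))
      intro i
      fin_cases i
      exacts [e1, e2, e4, e5]
    have h7 := finrank_span_eq_card h5
    have h8 : Submodule.span K (Set.range ![a • e + b • f + c • br e f, a' • e + b' • f + c' • br e f, u, s]) ≤ Sz e f := by
      rw [Submodule.span_le]
      rintro _ ⟨i, rfl⟩
      fin_cases i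
      exacts [hv, hw, hu1, hs]
    have h9 := Submodule.finrank_mono h8
    rw [h7, h.finrank_Sz h2] at h9
    simp at h9
  -- `u` is an eigenvector of `v`, `w`, orthogonal to them, not isotropic
  have huu : kf K u u ≠ 0 := fun h0 => hu0 (h.nd h2 hu1 fun s hs => by
    have h4 : s = (2⁻¹ : K) • (s + act y s) + (2⁻¹ : K) • (s - act y s) := by
      rw [← smul_add, add_add_sub_cancel, ← two_smul K s, smul_smul, inv_mul_cancel₀ h2, one_smul]
    obtain ⟨t, ht⟩ := hind _ (sub_mem hs (hS s hs)) (by rw [act_sub, yy, neg_sub])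
    rw [h4, ht, map_add, map_smul, map_smul, map_smul, LinearMap.add_apply, LinearMap.smul_apply, LinearMap.smul_apply,
      LinearMap.smul_apply, h0, kf_pm h2 (by rw [act_add, yy, add_comm]) hu2]
    simp)
  have hc : ∀ s ∈ Sz e f, act y s = s → br s u = 0 := fun s hs hs' => by
    obtain ⟨t, ht⟩ := hind _ (h.br_mem h2 hs (h.fix_of_mem hu1)) (hb2 hs hs')
    have h4 : kf K (br s u) u = 0 := by rw [kf_br h2, br_self, map_zero]
    rw [ht, map_smul, LinearMap.smul_apply, smul_eq_mul] at h4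
    rw [ht, (mul_eq_zero.1 h4).resolve_right huu, zero_smul]
  have c1 := hc _ hv h1
  have c2 := hc _ hw h3
  rw [e3] at c1 c2 huu
  simp only [br_add_left, br_add_right, br_smul_left, br_smul_right, br_self, br_anti f e, h.eh h2, h.fh h2, h.he h2,
    h.hf h2] at c1 c2
  obtain ⟨p1, p2, p3⟩ := h.indep h2 (a := 2 * (c * d - a * d'')) (b := 2 * (b * d'' - c * d')) (c := a * d' - b * d)
    (by linear_combination (norm := module) c1)
  obtain ⟨q1, q2, q3⟩ := h.indep h2 (a := 2 * (c' * d - a' * d'')) (b := 2 * (b' * d'' - c' * d')) (c := a' * d' - b' * d)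
    (by linear_combination (norm := module) c2)
  have p1' := (mul_eq_zero.1 p1).resolve_left h2
  have p2' := (mul_eq_zero.1 p2).resolve_left h2
  simp only [map_add, map_smul, LinearMap.add_apply, LinearMap.smul_apply, smul_eq_mul, h.ee0, h.ef, h.kf_eh h2, h.ff0,
    h.fe, h.kf_fh h2, h.kf_he h2, h.kf_hf h2, h.kf_hh h2] at huu
  have r1 : a = 0 := (mul_eq_zero.1 (show a * _ = 0 by
    linear_combination d * k1 + d * p3 - 2 * d'' * p1')).resolve_right huu
  have r2 : b = 0 := (mul_eq_zero.1 (show b * _ = 0 by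
    linear_combination d' * k1 - d' * p3 + 2 * d'' * p2')).resolve_right huu
  have r3 : c = 0 := (mul_eq_zero.1 (show c * _ = 0 by
    linear_combination d'' * k1 + d' * p1' - d * p2')).resolve_right huu
  exact hi.ne_zero 0 (by simp [r1, r2, r3])

/-- an element which commutes with `z` and fixes `e`, `f` commutes with the torus of the subalgebra -/
theorem comm_tz {z t y : G8 K} {r : Fin chevE8.nroots} {c : K} (hz : mx z = dz (-1) (cv r)) (ht : mx t = dz c (cv r))
    (hy : y * z = z * y) (he : act y (ee K (Sum.inr r)) = ee K (Sum.inr r))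
    (hf : act y (ee K (Sum.inr (op r))) = ee K (Sum.inr (op r))) : y * t = t * y := by
  have h3 : (1 : K) ≠ -1 := fun e => h2 (by linear_combination e)
  have hzy : ∀ v, act z (act y v) = act y (act z v) := fun v => by rw [← act_mul, ← hy, act_mul]
  have hh : act y (hq K (vec chevE8 8 r)) = hq K (vec chevE8 8 r) := by rw [← br_ee_op, act_br, he, hf]
  have h1 : ∀ (k : ℤ) (v : L8 K), v ∈ LS K {x | B0 (vec chevE8 8 r) x = k} → act t v = c ^ k • v := fun k v hv => by
    funext i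
    rw [act_dz ht, ex_cv, Pi.smul_apply, smul_eq_mul]
    by_cases h : v i = 0
    · rw [h, mul_zero, mul_zero]
    · rw [show B0 _ (wt i) = k from hv i h]
  have h4 : ∀ j, act y (ee K j) ∈ LS K {x | B0 (vec chevE8 8 r) x = B0 (vec chevE8 8 r) (wt j)} := by
    intro j i hi
    have h5 : ee K j ∈ LS K {x | B0 (vec chevE8 8 r) x = B0 (vec chevE8 8 r) (wt j)} := ee_mem_LS rfl
    have h6 := congrFun (hzy (ee K j)) i
    have h7 : act z (ee K j) = (-1 : K) ^ B0 (vec chevE8 8 r) (wt j) • ee K j := funext fun k => by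
      rw [act_z hz, Pi.smul_apply, smul_eq_mul]
      by_cases e : k = j
      · rw [e]
      · rw [ee_ne e, mul_zero, mul_zero]
    rw [act_z hz, h7, act_smul, Pi.smul_apply, smul_eq_mul] at h6
    have h8 := parity h2 (mul_right_cancel₀ hi h6)
    have h9 := congrFun (act_br y (hq K (vec chevE8 8 r)) (ee K j)) i
    rw [hh, br_hq h5, act_smul, br_T (inT_hq _), rl_hq, Pi.smul_apply, smul_eq_mul] at h9
    have h10 := mul_right_cancel₀ hi h9
    have h11 : ∀ s, act y (ee K (Sum.inr (op s))) = ee K (Sum.inr (op s)) → i = Sum.inr s → j = Sum.inr s := by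
      rintro s hs rfl
      by_contra hn
      have h12 := kf_act y (ee K (Sum.inr (op s))) (ee K j)
      rw [hs, kf_ee, kf_ee, op_op, ee_ne (Ne.symm hn)] at h12
      exact hi h12
    have h13 : ∀ s, act y (ee K (Sum.inr s)) = ee K (Sum.inr s) → j = Sum.inr s → i = j := by
      rintro s hs rfl
      by_contra hn
      exact hi (by rw [hs, ee_ne hn])
    show B0 _ _ = B0 _ _
    obtain ⟨m, hm⟩ := h8
    rcases gr_cases r i with a | a | a | a | a
    · rcases gr_cases r j with b | b | b | b | b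
      · omega
      · omega
      · omega
      · rw [h13 _ he b.2]
      · rw [h13 _ hf b.2]
    · rcases gr_cases r j with b | b | b | b | b
      · omega
      · omega
      · rw [a, b] at h10
        exact absurd (by exact_mod_cast h10.symm) h3
      · omega
      · omega
    · rcases gr_cases r j with b | b | b | b | b
      · omega
      · rw [a, b] at h10
        exact absurd (by exact_mod_cast h10) h3
      · omega
      · omega
      · omega
    · rw [h11 r hf a.2, a.2]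
    · rw [h11 (op r) (by rw [op_op, he]) a.2, a.2]
  apply mx_injective
  ext i j
  rw [← act_ee, ← act_ee, act_mul, act_mul, h1 _ _ (h4 j), h1 _ _ (ee_mem_LS rfl), act_smul]

end

section

variable {p : ℕ} [Fact p.Prime] (hp : p ≠ 2)
include hp

theorem two_zmod : (2 : ZMod p) ≠ 0 := fun h =>
  hp ((Nat.prime_dvd_prime_iff_eq Fact.out Nat.prime_two).1 ((ZMod.natCast_eq_zero_iff 2 p).1 (by exact_mod_cast h)))

theorem two_K : (2 : Kb (ZMod p)) ≠ 0 := fun h =>
  two_zmod hp ((algebraMap (ZMod p) (Kb (ZMod p))).injective (by rw [map_ofNat, map_zero, h]))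

theorem cj_136 {z : G8 (Kb (ZMod p))} (hz : z * z = 1) (h : ev (LK _ z) 1 = 136) : Cj z (-1) (Pi.single 7 1) := by
  obtain ⟨e, he, h1, h3⟩ := exists_tb (F := ZMod p) p (N := 2) (by decide)
    ((Nat.coprime_primes Nat.prime_two Fact.out).2 hp.symm) (prim_neg (two_K hp)) (g := z) (by rw [pow_two, hz])
  rwa [tb_two e he (by rw [← h3, ← ev_eq_dfx, h])] at h1

theorem exists_rz {z : G8 (Kb (ZMod p))} (hz : z * z = 1) (h : ev (LK _ z) 1 = 136) : ∃ e f, Rz z e f := by
  obtain ⟨g, hg⟩ := cj_136 hp hz h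
  exact ⟨_, _, g, ⟨239, by decide⟩, rfl, rfl, by rw [cv_top, hg]⟩

theorem exists_root {z : G8 (Kb (ZMod p))} (ht : z ∈ TT chevE8 (Kb (ZMod p))) (hz : z * z = 1)
    (h : ev (LK _ z) 1 = 136) : ∃ r, mx z = dz (-1) (cv r) := by
  have hζ := prim_neg (two_K hp)
  obtain ⟨a, ha⟩ := exists_dz hζ two_ne_zero ht (by rw [pow_two, hz])
  obtain ⟨a', ⟨r, hr⟩, h3⟩ := cj_ind hζ two_ne_zero (g := z) (a := a)
    ⟨1, by rw [mx_one, Matrix.mul_one, Matrix.one_mul, ha]⟩ (cj_136 hp hz h) (P := IsRt)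
    (fun _ i hy => IsRt.refl hy i) isRt_seven
  exact ⟨r, by rw [ha, ← dz_congr hζ two_ne_zero h3, show a' = cv r from funext hr]⟩

omit hp in
theorem mem_TT {z : G8 (Kb (ZMod p))} {c : Kb (ZMod p)} (hc : c ≠ 0) {y : Q8} (hz : mx z = dz c y) :
    z ∈ TT chevE8 (Kb (ZMod p)) := by
  obtain ⟨t, ht, h⟩ := exists_tz hc y
  rwa [mx_injective (hz.trans h.symm)]

omit hp in
theorem cX_dz {z : G8 (Kb (ZMod p))} {c : Kb (ZMod p)} (hc : c ≠ 0) {y : Q8} (hz : mx z = dz c y) (i : chevE8.Idx) :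
    cX e8T z (wt i) = c ^ ex y (wt i) := by
  have h := mx_TT (mem_TT hc hz)
  rw [hz, dz] at h
  exact (congrFun (Matrix.diagonal_injective h) i).symm

theorem std_mem {z z' c : G8 (Kb (ZMod p))} {r s : Fin chevE8.nroots} (hz : mx z = dz (-1) (cv r))
    (hz' : mx z' = dz (-1) (cv s)) (hc : c * z = z' * c) :
    act c (ee _ (Sum.inr r)) ∈ Sz (ee (Kb (ZMod p)) (Sum.inr s)) (ee _ (Sum.inr (op s))) := by
  have := finW8
  have h2 := two_K hp
  have h0 : (-1 : Kb (ZMod p)) ≠ 0 := neg_ne_zero.2 one_ne_zero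
  have R := rz_std hz'
  obtain ⟨m, hm, w, k, hk, hkz, rfl⟩ := DS.Nt.form₂ e8T (p := p) (ι := Unit) (s := fun _ => z) (t := fun _ => z')
    (fun _ => mem_TT h0 hz) (fun _ => mem_TT h0 hz') (c := c) fun _ => hc
  have hk' : RepK w k := hk.toT
  obtain ⟨u, hu⟩ := exists_idx ((rt_vec r).act w)
  have h3 : u = s ∨ u = op s := eq_or_op fun i => parity h2 (by
    obtain ⟨j, hj⟩ := exists_idx ((Reg5.Aut.rt_sr i).act w⁻¹)
    obtain ⟨d, hd, h4⟩ := hk'.ee (r := j) (s := si i) (by rw [vec_si, hj]; exact (act8_act_inv w _).symm)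
    have h5 := congrArg (fun g => act g (ee _ (Sum.inr j))) (hkz ())
    simp only [act_mul] at h5
    rw [act_z_ee hz, act_smul, h4, act_smul, act_z_ee hz', smul_comm, vec_si] at h5
    have h6 := smul_left_injective _ (ee_ne_zero (K := Kb (ZMod p)) (Sum.inr (si i))) (smul_right_injective _ hd h5)
    rw [← h6, hu, hj, ← fm8.inv w]
    congr 2
    exact act8_act_inv w _)
  obtain ⟨d, -, h4⟩ := hk'.ee (r := r) (s := u) hu
  have h5 : act k (ee _ (Sum.inr r)) ∈ Sz (ee (Kb (ZMod p)) (Sum.inr s)) (ee _ (Sum.inr (op s))) := by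
    rw [h4]
    rcases h3 with rfl | rfl
    exacts [Submodule.smul_mem _ _ (e_mem _ _), Submodule.smul_mem _ _ (f_mem _ _)]
  have h6 : ∀ (a : Fin chevE8.nroots), act z' (ee _ (Sum.inr a)) = ee _ (Sum.inr a) → ∀ t,
      ∀ v ∈ Sz (ee (Kb (ZMod p)) (Sum.inr s)) (ee _ (Sum.inr (op s))),
        act (xr a t) v ∈ Sz (ee (Kb (ZMod p)) (Sum.inr s)) (ee _ (Sum.inr (op s))) := fun a ha t v hv => by
    have h7 : ∀ v ∈ Sz (ee (Kb (ZMod p)) (Sum.inr s)) (ee _ (Sum.inr (op s))),
        br (ee _ (Sum.inr a)) v ∈ Sz (ee (Kb (ZMod p)) (Sum.inr s)) (ee _ (Sum.inr (op s))) := fun v hv => by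
      rw [br_anti]
      exact neg_mem (R.br_mem h2 hv ha)
    have h8 := h7 _ (h7 v hv)
    rw [ee_ee h2, mul_smul, Submodule.smul_mem_iff _ (neg_ne_zero.2 h2)] at h8
    rw [act_xr, mul_smul]
    exact sub_mem (add_mem hv (Submodule.smul_mem _ _ (h7 v hv))) (Submodule.smul_mem _ _ h8)
  have h7 : m ∈ stabL (Sz (ee (Kb (ZMod p)) (Sum.inr s)) (ee _ (Sum.inr (op s)))) := by
    refine sup_le_of (S := DS.Nt.Ps e8T p (Set.range fun _ : Unit => z')) (fun a ha => ha.1) (fun a ha t => ?_) hm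
    have h8 := ((DS.Nt.mem_Ps (by rintro _ ⟨_, rfl⟩; exact mem_TT h0 hz')).1 ha).2 z' ⟨(), rfl⟩
    have h9 : act z' (ee _ (Sum.inr a)) = ee _ (Sum.inr a) := by
      rw [← wt_inr, cX_dz h0 hz', ex_cv, wt_inr] at h8
      rw [act_z_ee hz', h8, one_smul]
    exact ⟨h6 a h9 t, by rw [xr_inv]; exact h6 a h9 (-t)⟩
  rw [act_mul]
  exact h7.1 _ h5

/-- the subalgebra depends only on the involution -/
theorem Rz.Sz_unique {z : G8 (Kb (ZMod p))} {e f e' f' : L8 (Kb (ZMod p))} (h : Rz z e f) (h' : Rz z e' f') :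
    Sz e' f' = Sz e f := by
  have key : ∀ {e' f' : L8 (Kb (ZMod p))}, Rz z e' f' → e' ∈ Sz e f := by
    intro e' f' h'
    obtain ⟨g, z₀, r, hz, rfl, rfl, e1⟩ := h.std
    obtain ⟨g', z₁, s, hz', rfl, rfl, e2⟩ := h'.std
    have h1 := act_Sz g (std_mem hp hz' hz (c := g⁻¹ * g') (by
      calc g⁻¹ * g' * z₁ = g⁻¹ * (g' * z₁ * g'⁻¹) * g' := by group
        _ = g⁻¹ * (g * z₀ * g⁻¹) * g' := by rw [← e2, e1]
        _ = _ := by group))
    rwa [act_mul, act_inv'] at h1
  exact h.Sz_eq (two_K hp) h' (key h') (key h'.symm)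

theorem Rz.act_mem {z z' y : G8 (Kb (ZMod p))} {e f e' f' v : L8 (Kb (ZMod p))} (h : Rz z e f) (h' : Rz z' e' f')
    (hy : y * z = z' * y) (hv : v ∈ Sz e f) : act y v ∈ Sz e' f' := by
  rw [← h'.Sz_unique hp (h.conj' hy)]
  exact act_Sz y hv

/-- two commuting involutions of type `E₇ A₁` -/
theorem pair_frame {z y : G8 (Kb (ZMod p))} (hz : z * z = 1) (hy : y * y = 1) (hc : y * z = z * y)
    (h1 : ev (LK _ z) 1 = 136) (h3 : ev (LK _ y) 1 = 136) : ∃ (g : G8 (Kb (ZMod p))) (r s : Fin chevE8.nroots),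
      mx (g * z * g⁻¹) = dz (-1) (cv r) ∧ mx (g * y * g⁻¹) = dz (-1) (cv s) := by
  obtain ⟨g, g1, g2⟩ := pair_TT (F := ZMod p) (l := 2) (n := 1) Nat.prime_two (by exact_mod_cast two_zmod hp) (x := z)
    (y := y) (by rw [pow_two, hz]) (by rw [pow_one, pow_two, hy]) hc.symm
  have h4 : ∀ {x : G8 (Kb (ZMod p))}, x * x = 1 → g * x * g⁻¹ * (g * x * g⁻¹) = 1 := fun {x} hx => by
    rw [show g * x * g⁻¹ * (g * x * g⁻¹) = g * (x * x) * g⁻¹ by group, hx, mul_one, mul_inv_cancel]
  obtain ⟨r, hr⟩ := exists_root hp g1 (h4 hz) (by rw [Inf.ev_conj, h1])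
  obtain ⟨s, hs⟩ := exists_root hp g2 (h4 hy) (by rw [Inf.ev_conj, h3])
  exact ⟨g, r, s, hr, hs⟩

theorem ev_of_odd {z y : G8 (Kb (ZMod p))} {r s : Fin chevE8.nroots} (hz : mx z = dz (-1) (cv r))
    (hy : mx y = dz (-1) (cv s)) (h : Odd (B0 (vec chevE8 8 r) (vec chevE8 8 s))) : ev (LK _ (y * z)) 1 = 136 := by
  have h0 : (-1 : Kb (ZMod p)) ≠ 0 := neg_ne_zero.2 one_ne_zero
  have key : ∀ {s : Fin chevE8.nroots}, mx y = dz (-1) (cv s) → B0 (vec chevE8 8 r) (vec chevE8 8 s) = -1 →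
      ev (LK _ (y * z)) 1 = 136 := fun {s} hy h => by
    obtain ⟨u, hu⟩ := exists_add h
    exact (rz_std (r := u) (by rw [mx_mul, hz, hy, cv_add hu, add_comm, dz_add h0])).ev_eq (two_K hp)
  have h4 := gr_cases r (Sum.inr s)
  rw [wt_inr] at h4
  rcases h4 with h4 | h4 | h4 | h4 | h4
  · rw [h4] at h
    exact absurd h (by decide)
  · exact key (s := op s) (by rw [dz_op, hy]) (by rw [vec_op, map_neg, h4])
  · exact key hy h4
  · rw [h4.1] at h
    exact absurd h (by decide)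
  · rw [h4.1] at h
    exact absurd h (by decide)

theorem odd_of_ev {z y : G8 (Kb (ZMod p))} {r s : Fin chevE8.nroots} (hz : mx z = dz (-1) (cv r))
    (hy : mx y = dz (-1) (cv s)) (h : ev (LK _ (y * z)) 1 = 136) : Odd (B0 (vec chevE8 8 r) (vec chevE8 8 s)) := by
  have h0 : (-1 : Kb (ZMod p)) ≠ 0 := neg_ne_zero.2 one_ne_zero
  have hyz : mx (y * z) = dz (-1) (cv s + cv r) := by rw [mx_mul, hz, hy, dz_add h0]
  have hc : z * y = y * z := mx_injective (by rw [hyz, mx_mul, hz, hy, ← dz_add h0, add_comm])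
  obtain ⟨u, hu⟩ := exists_root hp (mem_TT h0 hyz) (by
    rw [show y * z * (y * z) = y * (z * y) * z by group, hc, show y * (y * z) * z = y * y * (z * z) by group,
      (rz_std hz).one, (rz_std hy).one, one_mul]) h
  have h1 := eight_dvd (v := vec chevE8 8 r + vec chevE8 8 s - vec chevE8 8 u) fun i => by
    have h3 := (cX_dz h0 hyz (Sum.inr (si i))).symm.trans (cX_dz h0 hu (Sum.inr (si i)))
    rw [ex_add, ex_cv, ex_cv, ex_cv, wt_inr, vec_si] at h3
    rw [B0_comm, map_sub, map_add, LinearMap.sub_apply, LinearMap.add_apply, add_comm]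
    exact parity (two_K hp) h3
  have h3 := (cX_dz h0 hyz (Sum.inr u)).symm.trans (cX_dz h0 hu (Sum.inr u))
  rw [ex_add, ex_cv, ex_cv, ex_cv, wt_inr, B0_vec] at h3
  obtain ⟨k, hk⟩ := parity (two_K hp) h3
  have := finW8
  have h4 := fm8.norm_sub_smul (vec chevE8 8 r + vec chevE8 8 s) (vec chevE8 8 u) 1
  rw [one_smul, B0_add, B0_vec, B0_vec, B0_vec, map_add, LinearMap.add_apply] at h4
  rw [← Int.not_even_iff_odd]
  rintro ⟨m, hm⟩
  omega

theorem fix_of_types {z y : G8 (Kb (ZMod p))} {e f v : L8 (Kb (ZMod p))} (h : Rz z e f) (hy : y * y = 1)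
    (hc : y * z = z * y) (h1 : ev (LK _ y) 1 = 136) (h3 : ev (LK _ (y * z)) 1 ≠ 136) (hv : v ∈ Sz e f) :
    act y v = v := by
  obtain ⟨g, r, s, hr, hs⟩ := pair_frame hp h.one hy hc (h.ev_eq (two_K hp)) h1
  have h4 : Even (B0 (vec chevE8 8 s) (vec chevE8 8 r)) := by
    rw [← Int.not_odd_iff_even, B0_comm]
    intro h5
    have h6 := ev_of_odd hp hr hs h5
    rw [show g * y * g⁻¹ * (g * z * g⁻¹) = g * (y * z) * g⁻¹ by group, Inf.ev_conj] at h6
    exact h3 h6
  have h5 := h.act_mem hp (rz_std hr) (y := g) (by group) hv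
  have h6 := fix_Sz (y := g * y * g⁻¹) (by rw [act_z_ee hs, h4.neg_one_zpow, one_smul])
    (by rw [act_z_ee hs, vec_op, map_neg, h4.neg.neg_one_zpow, one_smul]) h5
  rw [act_mul, act_mul, act_inv] at h6
  exact act_injective g h6

theorem neg_of_types {z y : G8 (Kb (ZMod p))} (hz : z * z = 1) (hy : y * y = 1) (hc : y * z = z * y)
    (h0 : ev (LK _ z) 1 = 136) (h1 : ev (LK _ y) 1 = 136) (h3 : ev (LK _ (y * z)) 1 = 136) :
    ∃ e f, Rz z e f ∧ act y e = -e ∧ act y f = -f := by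
  obtain ⟨g, r, s, hr, hs⟩ := pair_frame hp hz hy hc h0 h1
  have h4 : Odd (B0 (vec chevE8 8 s) (vec chevE8 8 r)) := by
    rw [B0_comm]
    exact odd_of_ev hp hr hs (by rw [show g * y * g⁻¹ * (g * z * g⁻¹) = g * (y * z) * g⁻¹ by group, Inf.ev_conj, h3])
  have h5 : ∀ v, act y (act g⁻¹ v) = act g⁻¹ (act (g * y * g⁻¹) v) := fun v => by
    rw [act_mul, act_mul, act_inv]
  refine ⟨_, _, (rz_std hr).conj' (y := g⁻¹) (by group), ?_, ?_⟩
  · rw [h5, act_z_ee hs, h4.neg_one_zpow, neg_one_smul, act_neg]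
  · rw [h5, act_z_ee hs, vec_op, map_neg, h4.neg.neg_one_zpow, neg_one_smul, act_neg]

end

end Cfsg.Agent.E8A.Odd
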