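import Cfsg.Agent.E8A.Odd.ThaDec
import Cfsg.Agent.DS.Nt.P8

/-!
# The box THA, part 3: existence of the decomposition (helper90)

* `rg ε h`, `pu_rg` : pure groups given by lists; `tor8`, `ab16`;
* `dec_of_roots` : the decomposition from eight orthogonal roots; `exists_dec`.
-/

set_option autoImplicit false
set_option maxRecDepth 100000
set_option linter.unusedSectionVars false

namespace Cfsg.Agent.E8A.Odd.Tha

open CoxeterSystem Cfsg Cfsg.Lie Cfsg.Lie.ChevalleyDatum Module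
open Cfsg.Agent.ChevalleyStructure Cfsg.Agent.ChevalleyStructure.Elts Cfsg.Agent.ChevalleyStructure.CoxeterGeom
  Cfsg.Agent.ChevalleyStructure.CoxeterGeomTypes
open Cfsg.Agent.Tits.Roots Cfsg.Agent.Tits.Core Cfsg.Agent.Nodes Cfsg.Agent.Nodes.RGDChev Cfsg.Agent.Nodes.Coroot
open Cfsg.Agent.KFacts.RgdField Cfsg.Agent.KFacts.RgdChevCoord Cfsg.Agent.BpExc.TowChev
open Cfsg.Agent.H129.TorusChar
open Cfsg.Agent.H469.Exc (KK locFin)
open Cfsg.Agent.H167.KKL (sg_add sg_eq_one exists_sgn)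
open Cfsg.Agent.H942.E8Tab (e8T)
open Cfsg.Agent.H942.CB (W8 cs8)
open Cfsg.Agent.H288.E8L (wt Rt act8 wt_inl wt_inr rt_vec vec_ne_zero exists_idx)
open Cfsg.Agent.H952.F4 (ev)
open Cfsg.Agent.DS.Nt (ad dd Fx Ps Mz RP form₂ comm_Mz Mz_le mem_Ps finrank_Fx dd_tor)
open Cfsg.Agent.DS.Nt.P8
open Cfsg.Agent.E8A.Frm (B0 fm8 finW8 invB8)
open Cfsg.Agent.E8A.Inf (kf finrank_L8)
open Cfsg.Agent.E8A.Par (op vec_op kf_ee act_xr kf_eq_zero_of_br)
open Cfsg.Agent.E8A.Reg5.Cls (ex dz)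
open Cfsg.Agent.E8A.TwoH

universe u

/-! ### pure groups -/

/-- the group listed by `ε` -/
def rg {G A : Type*} [Group G] [AddCommGroup A] (ε : A → G) (h : ∀ j k, ε (j + k) = ε j * ε k) : Subgroup G :=
  (MonoidHom.mk' (fun k : Multiplicative A => ε k.toAdd) fun _ _ => h _ _).range

theorem mem_rg {G A : Type*} [Group G] [AddCommGroup A] {ε : A → G} {h : ∀ j k, ε (j + k) = ε j * ε k} {x : G} :
    x ∈ rg ε h ↔ ∃ k, ε k = x := ⟨fun ⟨k, e⟩ => ⟨k.toAdd, e⟩, fun ⟨k, e⟩ => ⟨Multiplicative.ofAdd k, e⟩⟩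

theorem eps_zero {G A : Type*} [Group G] [AddCommGroup A] {ε : A → G} (h : ∀ j k, ε (j + k) = ε j * ε k) : ε 0 = 1 := by
  have h1 := h 0 0
  rwa [add_zero, left_eq_mul] at h1

theorem card_rg {G A : Type*} [Group G] [AddCommGroup A] {ε : A → G} {h : ∀ j k, ε (j + k) = ε j * ε k}
    (hi : Function.Injective ε) : Nat.card (rg ε h) = Nat.card A :=
  (Nat.card_congr (MonoidHom.ofInjective (f := MonoidHom.mk' (fun k : Multiplicative A => ε k.toAdd) fun _ _ => h _ _)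
    fun _ _ e => Multiplicative.toAdd.injective (hi e)).toEquiv).symm

theorem ev_one {K : Type u} [Field K] : ev (LK K (1 : G8 K)) 1 = 248 := by
  have h : End.eigenspace (1 : End K (L8 K)) 1 = ⊤ :=
    eq_top_iff.2 fun v _ => End.mem_eigenspace_iff.2 (one_smul K v).symm
  rw [map_one, ev, h, finrank_top, finrank_L8]

theorem act_TT_ee {K : Type u} [Field K] {t : G8 K} (ht : t ∈ TT chevE8 K) {r : Fin chevE8.nroots}
    (h : cX e8T t (vec chevE8 8 r) = 1) : act t (ee K (Sum.inr r)) = ee K (Sum.inr r) := by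
  funext i
  rw [act_TT ht]
  by_cases e : i = Sum.inr r
  · rw [e, wt_inr, h, one_mul]
  · rw [ee_ne e, mul_zero]

theorem cX_of_fix {K : Type u} [Field K] {t : G8 K} (ht : t ∈ TT chevE8 K) {v : L8 K} (hv : act t v = v)
    {r : Fin chevE8.nroots} (h : v (Sum.inr r) ≠ 0) : cX e8T t (vec chevE8 8 r) = 1 := by
  have h1 := act_TT ht v (Sum.inr r)
  rw [hv, wt_inr] at h1
  exact mul_right_cancel₀ h (h1.symm.trans (one_mul _).symm)

variable {p : ℕ} [Fact p.Prime]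

theorem dd_eq (y : G8 (KK p)) : dd p y = ev (LK (KK p) y) 1 := rfl

section Pure

variable {A : Type} [AddCommGroup A] [Finite A] (hp : p ≠ 2) (h2 : ∀ a : A, a + a = 0) {ε : A → G8 (KK p)}
  (h : ∀ j k, ε (j + k) = ε j * ε k) (hd : ∀ a, a ≠ 0 → ev (LK (KK p) (ε a)) 1 = 120)

include h hd in
theorem eps_inj : Function.Injective ε := by
  intro a b e
  by_contra h1
  have h3 := hd (a - b) (sub_ne_zero.2 h1)
  have h4 := h (a - b) b
  rw [sub_add_cancel, e, right_eq_mul] at h4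
  rw [h4, ev_one] at h3
  omega

include hp h2 hd in
theorem pu_rg : Pu (rg ε h) := by
  have h3 : ∀ x ∈ rg ε h, ∀ y ∈ rg ε h, x * y = y * x := by
    intro x hx y hy
    obtain ⟨a, rfl⟩ := mem_rg.1 hx
    obtain ⟨b, rfl⟩ := mem_rg.1 hy
    rw [← h, add_comm, h]
  have h4 : ∀ x ∈ rg ε h, x ^ 2 = 1 := by
    intro x hx
    obtain ⟨a, rfl⟩ := mem_rg.1 hx
    rw [pow_two, ← h, h2, eps_zero h]
  refine ⟨⟨Nat.prime_two, hp.symm, Finite.of_surjective _ (MonoidHom.rangeRestrict_surjective _), h3, h4,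
    fun x hx y hy => Two.pair_TT (F := ZMod p) (n := 1) Nat.prime_two ?_ (h4 x hx) (h4 y hy) (h3 x hx y hy)⟩, ?_⟩
  · exact_mod_cast H167.KKL.two_ne (k := ZMod p) p hp
  · intro x hx h1
    obtain ⟨a, rfl⟩ := mem_rg.1 hx
    exact hd a fun h5 => h1 (by rw [h5, eps_zero h])

include hp h2 h hd in
theorem tor8 (h8 : Nat.card A = 8) : ∃ g : G8 (KK p), ∀ a, g * ε a * g⁻¹ ∈ TT chevE8 (KK p) :=
  let ⟨g, hg⟩ := toral8 (pu_rg hp h2 h hd) ((card_rg (eps_inj h hd)).trans h8)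
  ⟨g, fun a => hg _ (mem_rg.2 ⟨a, rfl⟩)⟩

include hp h2 h hd in
/-- the fixed space of a pure group of order 16 is abelian -/
theorem ab16 (h16 : Nat.card A = 16) {u v : L8 (KK p)} (hu : ∀ a, act (ε a) u = u) (hv : ∀ a, act (ε a) v = v) :
    br u v = 0 := by
  classical
  have H := pu_rg hp h2 h hd
  have hc := (card_rg (h := h) (eps_inj h hd)).trans h16
  obtain ⟨g, hg⟩ := toral16 H hc
  have hZ : (((rg ε h).map (MulAut.conj g).toMonoidHom : Subgroup _) : Set (G8 (KK p))) ⊆ TT chevE8 (KK p) := by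
    rintro _ ⟨a, ha, rfl⟩
    exact hg a ha
  have h3 := (H.conj g).fx
  rw [card_conj, hc, finrank_Fx e8T hZ] at h3
  have h4 : ∀ w : L8 (KK p), (∀ a, act (ε a) w = w) → InT (act g w) := by
    intro w hw r
    by_contra h5
    rw [show 256 = 16 * (8 + 0) + 8 * 16 from rfl, add_left_inj, mul_right_inj' (by norm_num), add_right_inj,
      Finset.card_eq_zero, Finset.filter_eq_empty_iff] at h3
    refine h3 (Finset.mem_univ r) ((mem_Ps (hp := e8T) hZ).2 ⟨rt_vec r, ?_⟩)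
    rintro _ ⟨x, hx, rfl⟩
    obtain ⟨a, rfl⟩ := mem_rg.1 hx
    refine cX_of_fix (hg _ hx) ?_ h5
    rw [← act_mul, inv_mul_cancel_right, act_mul, hw]
  refine act_eq_zero (g := g) (funext fun i => ?_)
  rw [act_br, br_T (h4 u hu)]
  rcases i with i | r
  · rw [wt_inl, map_zero, zero_mul]
    rfl
  · rw [h4 v hv r, mul_zero]
    rfl

end Pure

/-! ### eight orthogonal roots -/

section Roots

variable {K : Type u} [Field K] {I : Type} [AddCommGroup I] [Fintype I] [DecidableEq I]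

variable (K) in
/-- the Cartan subalgebra -/
def inT : (Fin chevE8.rank → K) →ₗ[K] L8 K where
  toFun x := Sum.elim x fun _ => 0
  map_add' x y := funext fun i => by
    rcases i with i | i
    · rfl
    · exact (add_zero (0 : K)).symm
  map_smul' c x := funext fun i => by
    rcases i with i | i
    · rfl
    · exact (mul_zero c).symm

theorem tor_zero (h2 : (2 : K) ≠ 0) (h8 : Fintype.card I = 8) {c : I → Q8}
    (hc : ∀ j k, B0 (c j) (c k) = if j = k then 2 else 0) {u : L8 K} (hu : InT u) (h0 : ∀ k, rl u (c k) = 0) : u = 0 := by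
  have h1 : ∀ v : L8 K, InT v → inT K (fun i => v (Sum.inl i)) = v := fun v hv => tp_of_inT hv
  let ρ : (Fin chevE8.rank → K) →ₗ[K] I → K := LinearMap.pi (fun k => kf K (hq K (c k))) ∘ₗ inT K
  have hρ : ∀ x k, ρ x k = rl (inT K x) (c k) := fun x k => kf_hq _ _
  have h3 : Function.Surjective ρ := by
    rw [← LinearMap.range_eq_top, eq_top_iff, ← (Pi.basisFun K I).span_eq, Submodule.span_le]
    rintro _ ⟨j, rfl⟩
    refine ⟨fun i => ((2 : K)⁻¹ • hq K (c j)) (Sum.inl i), funext fun k => ?_⟩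
    rw [hρ, h1 _ fun r => mul_zero _, rl_smul, rl_hq, hc, Pi.basisFun_apply, Pi.single_apply]
    by_cases e : j = k
    · rw [if_pos e, if_pos e.symm, Int.cast_ofNat, inv_mul_cancel₀ h2]
    · rw [if_neg e, if_neg fun e' => e e'.symm, Int.cast_zero, mul_zero]
  rw [← LinearMap.injective_iff_surjective_of_finrank_eq_finrank (by
    rw [finrank_fintype_fun_eq_card, finrank_fintype_fun_eq_card, h8]; rfl), injective_iff_map_eq_zero] at h3
  rw [← h1 u hu, h3 (fun i => u (Sum.inl i)) (funext fun k => by rw [hρ, h1 u hu, h0]; rfl), map_zero]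

variable (K) in
/-- the algebra of a root -/
def sr8 (r : Fin chevE8.nroots) : Submodule K (L8 K) := sl (ee K (Sum.inr r)) (ee K (Sum.inr (op r)))

variable (K) in
/-- the projection -/
noncomputable def pr8 (r : Fin chevE8.nroots) : L8 K →ₗ[K] L8 K :=
  (LinearMap.proj (Sum.inr r)).smulRight (ee K (Sum.inr r)) +
    (2 : K)⁻¹ • (kf K (hq K (vec chevE8 8 r))).smulRight (hq K (vec chevE8 8 r)) +
    (LinearMap.proj (Sum.inr (op r))).smulRight (ee K (Sum.inr (op r)))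

theorem pr8_apply (r : Fin chevE8.nroots) (v : L8 K) : pr8 K r v = v (Sum.inr r) • ee K (Sum.inr r) +
    ((2 : K)⁻¹ * rl v (vec chevE8 8 r)) • hq K (vec chevE8 8 r) + v (Sum.inr (op r)) • ee K (Sum.inr (op r)) := by
  rw [← kf_hq, mul_smul]
  rfl

theorem pr8_mem (r : Fin chevE8.nroots) (v : L8 K) : pr8 K r v ∈ sr8 K r :=
  mem_sl.2 ⟨_, _, _, by rw [pr8_apply, br_ee_op]⟩

theorem pr8_inr (r t : Fin chevE8.nroots) (v : L8 K) :
    pr8 K r v (Sum.inr t) = if t = r ∨ t = op r then v (Sum.inr t) else 0 := by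
  rw [pr8_apply, Pi.add_apply, Pi.add_apply, Pi.smul_apply, Pi.smul_apply, Pi.smul_apply, inT_hq, smul_zero, add_zero]
  by_cases h1 : t = r
  · rw [if_pos (Or.inl h1), h1, ee_self, ee_ne fun e => op_ne' r (Sum.inr.inj e).symm, smul_zero, add_zero, smul_eq_mul,
      mul_one]
  · rw [ee_ne fun e => h1 (Sum.inr.inj e), smul_zero, zero_add]
    by_cases h2 : t = op r
    · rw [if_pos (Or.inr h2), h2, ee_self, smul_eq_mul, mul_one]
    · rw [if_neg (not_or.2 ⟨h1, h2⟩), ee_ne fun e => h2 (Sum.inr.inj e), smul_zero]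

theorem rl_ee (r : Fin chevE8.nroots) (a : Q8) : rl (ee K (Sum.inr r)) a = 0 := by
  rw [rl_congr (w := 0) fun i => ee_ne (by simp), rl_zero]

theorem rl_pr8 (r : Fin chevE8.nroots) (v : L8 K) (a : Q8) :
    rl (pr8 K r v) a = (2 : K)⁻¹ * rl v (vec chevE8 8 r) * ((B0 (vec chevE8 8 r) a : ℤ) : K) := by
  rw [pr8_apply, rl_add, rl_add, rl_smul, rl_smul, rl_smul, rl_ee, rl_ee, rl_hq, mul_zero, mul_zero, zero_add, add_zero]

theorem ee_mem_sr8 {r t : Fin chevE8.nroots} (h : t = r ∨ t = op r) :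
    ee K (Sum.inr t) ∈ sr8 K r ∧ ee K (Sum.inr (op t)) ∈ sr8 K r := by
  rcases h with rfl | rfl
  · exact ⟨e_mem _ _, f_mem _ _⟩
  · exact ⟨f_mem _ _, by rw [op_op]; exact e_mem _ _⟩

theorem orth_sr8 {r t : Fin chevE8.nroots} (h : B0 (vec chevE8 8 r) (vec chevE8 8 t) = 0) {u v : L8 K}
    (hu : u ∈ sr8 K r) (hv : v ∈ sr8 K t) : br u v = 0 := by
  refine br_comm_zero (br_sl_zero (br_comm_zero (br_sl_zero (br_ee_zero h.ge) (br_ee_zero ?_) hv))
    (br_comm_zero (br_sl_zero (br_ee_zero ?_) (br_ee_zero ?_) hv)) hu)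
  all_goals simp only [vec_op, map_neg, LinearMap.neg_apply, h, neg_zero, le_refl]

theorem sum_pr8 (h2 : (2 : K) ≠ 0) (h8 : Fintype.card I = 8) {r : I → Fin chevE8.nroots}
    (hc : ∀ j k, B0 (vec chevE8 8 (r j)) (vec chevE8 8 (r k)) = if j = k then 2 else 0) {v : L8 K}
    (hv : ∀ t, v (Sum.inr t) ≠ 0 → ∃ k, t = r k ∨ t = op (r k)) : ∑ k, pr8 K (r k) v = v := by
  refine sub_eq_zero.1 (tor_zero h2 h8 hc (fun t => ?_) fun j => ?_)
  · rw [Pi.sub_apply, Finset.sum_apply, sub_eq_zero]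
    by_cases h : v (Sum.inr t) = 0
    · rw [h]
      exact Finset.sum_eq_zero fun k _ => by rw [pr8_inr, h, ite_self]
    · obtain ⟨k, hk⟩ := hv t h
      rw [Finset.sum_eq_single k (fun j _ hj => ?_) fun h => absurd (Finset.mem_univ k) h, pr8_inr, if_pos hk]
      rw [pr8_inr, if_neg fun h3 => ?_]
      have h4 := hc j k
      have h5 := B0_vec t
      rw [if_neg hj] at h4
      have h6 : ∀ l, t = r l ∨ t = op (r l) →
          vec chevE8 8 (r l) = vec chevE8 8 t ∨ vec chevE8 8 (r l) = -vec chevE8 8 t := fun l hl =>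
        hl.imp (fun e => by rw [e]) fun e => by rw [e, vec_op, neg_neg]
      rcases h6 j h3 with e | e <;> rcases h6 k hk with e' | e' <;> rw [e, e'] at h4 <;>
        simp only [map_neg, LinearMap.neg_apply, h5] at h4 <;> omega
  · rw [rl_sub, ← kf_hq, map_sum, Finset.sum_eq_single j (fun k _ hk => ?_) fun h => absurd (Finset.mem_univ j) h,
      kf_hq, rl_pr8, hc, if_pos rfl, Int.cast_ofNat, mul_right_comm, inv_mul_cancel₀ h2, one_mul, sub_self]
    rw [kf_hq, rl_pr8, hc, if_neg hk, Int.cast_zero, mul_zero]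

theorem xr_mem (h2 : (2 : K) ≠ 0) {r t : Fin chevE8.nroots}
    (h : (t = r ∨ t = op r) ∨ B0 (vec chevE8 8 t) (vec chevE8 8 r) = 0) (c : K) {v : L8 K} (hv : v ∈ sr8 K r) :
    act (xr t c) v ∈ sr8 K r := by
  rw [act_xr]
  rcases h with h | h
  · exact sub_mem (add_mem hv (Submodule.smul_mem _ _ ((tri_ee h2 r).br_mem (ee_mem_sr8 h).1 hv)))
      (Submodule.smul_mem _ _ (ee_mem_sr8 h).1)
  · have h1 := orth_sr8 h (e_mem _ _) hv
    rwa [h1, kf_eq_zero_of_br h1, smul_zero, mul_zero, zero_smul, add_zero, sub_zero]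

theorem isMC_sg (f : Fn) : IsMC fun x => (H167.KKL.sg (f x) : K) where
  zero := by
    show (H167.KKL.sg (f 0) : K) = 1
    rw [map_zero]
    rfl
  add x y := by
    show (H167.KKL.sg (f (x + y)) : K) = _
    rw [map_add, sg_add]

theorem sg_int (m : ℤ) : (H167.KKL.sg (m : ZMod 2) : K) = (-1) ^ m := by
  unfold H167.KKL.sg
  split_ifs with h
  · exact (((ZMod.intCast_eq_zero_iff_even).1 h).neg_one_zpow).symm
  · exact ((Int.not_even_iff_odd.1 fun h1 => h ((ZMod.intCast_eq_zero_iff_even).2 h1)).neg_one_zpow).symm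

theorem gr_B0 (x : Q8) (r : Fin chevE8.nroots) : gr (vec chevE8 8 r) x = ((B0 x (vec chevE8 8 r) : ℤ) : ZMod 2) := by
  rw [gr_apply e8T x (rt_vec r), fm8.cpr x _ (rt_vec r)]

theorem exists_z (r : Fin chevE8.nroots) : ∃ z ∈ TT chevE8 K, (∀ x, cX e8T z x = H167.KKL.sg (gr (vec chevE8 8 r) x)) ∧
    Rz z (ee K (Sum.inr r)) (ee K (Sum.inr (op r))) := by
  obtain ⟨z, hz, h⟩ := exists_cX e8T invB8 one_ne_zero (isMC_sg (K := K) (gr (vec chevE8 8 r))) fun i => ⟨_, pow_one _⟩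
  refine ⟨z, hz, h, 1, r, (act_one _).symm, (act_one _).symm, ?_⟩
  rw [mx_one, Matrix.mul_one, Matrix.one_mul, mx_TT hz, dz]
  congr 1
  funext i
  rw [h, ← sg_int]
  congr 1
  show ((∑ k, wt i k * pairing (cartanOf chevE8 8) k (vec chevE8 8 r) : ℤ) : ZMod 2) = _
  congr 1
  exact Finset.sum_congr rfl fun k _ => by rw [pairing_vec e8T k r.2]; rfl

end Roots

/-- the roots annihilated by a pure group of order eight -/
structure RD {I : Type} [AddCommGroup I] [DecidableEq I] (ε : I → G8 (KK p)) (f : I → Fn) (r : I → Fin chevE8.nroots) :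
    Prop where
  ch : ∀ a x, cX e8T (ε a) x = H167.KKL.sg (f a x)
  zero : ∀ k j, f j (vec chevE8 8 (r k)) = 0
  all : ∀ t : Fin chevE8.nroots, (∀ j, f j (vec chevE8 8 t) = 0) → ∃ k, t = r k ∨ t = op (r k)
  add : ∀ j k, gr (vec chevE8 8 (r (j + k))) = gr (vec chevE8 8 (r j)) + f k
  orth : ∀ j k, B0 (vec chevE8 8 (r j)) (vec chevE8 8 (r k)) = if j = k then 2 else 0

section Ex

variable {I : Type} [AddCommGroup I] [Fintype I] [DecidableEq I] (hp : p ≠ 2) (h2 : ∀ a : I, a + a = 0)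
  (h8 : Fintype.card I = 8) {ε : I → G8 (KK p)} (h : ∀ j k, ε (j + k) = ε j * ε k)
  (hd : ∀ a, a ≠ 0 → ev (LK (KK p) (ε a)) 1 = 120) (hT : ∀ a, ε a ∈ TT chevE8 (KK p))

include hp h2 h8 h hd hT

theorem exists_rd : ∃ f r, RD ε f r := by
  classical
  have H := pu_rg hp h2 h hd
  have hi := eps_inj h hd
  have two := H.two
  have hZ : (rg ε h : Set (G8 (KK p))) ⊆ TT chevE8 (KK p) := fun x hx => by
    obtain ⟨a, rfl⟩ := mem_rg.1 hx
    exact hT a
  have h1 := H.fx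
  rw [card_rg hi, Nat.card_eq_fintype_card, h8] at h1
  choose f hf0 using fun a => exists_sgn e8T p (locFin p) (hT a) (H.sq (mem_rg.2 ⟨a, rfl⟩))
  have hf : ∀ a x, cX e8T (ε a) x = H167.KKL.sg (f a x) := fun a =>
    (isMC_cX e8T (hT a)).ext (isMC_sg (f a)) fun i => by rw [cX_sr, hf0 _ _ (isRoot_sr cs8 e8T.isCartan i)]
  have hsg : ∀ x y : ZMod 2, (H167.KKL.sg x : KK p) = H167.KKL.sg y → x = y := fun x y h => by
    have h3 := sg_eq_one (k := KK p) two x
    rw [h, sg_eq_one two] at h3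
    exact (by decide : ∀ x y : ZMod 2, (y = 0 ↔ x = 0) → x = y) x y h3
  have hz : ∀ a b, cX e8T (ε a) b = 1 ↔ f a b = 0 := fun a b => by rw [hf, sg_eq_one two]
  have h16 : (Finset.univ.filter fun s : Fin chevE8.nroots => ∀ a, f a (vec chevE8 8 s) = 0).card = 16 := by
    have h3 := finrank_Fx e8T hZ
    rw [Finset.filter_congr (q := fun s : Fin chevE8.nroots => ∀ a, f a (vec chevE8 8 s) = 0) fun s _ => by
      rw [mem_Ps hZ, and_iff_right (rt_vec s)]
      exact ⟨fun h3 a => (hz a _).1 (h3 _ (mem_rg.2 ⟨a, rfl⟩)), fun h3 x hx => by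
        obtain ⟨a, rfl⟩ := mem_rg.1 hx
        exact (hz a _).2 (h3 a)⟩] at h3
    omega
  have hadd : ∀ a b, f (a + b) = f a + f b := fun a b => AddMonoidHom.ext fun x => hsg _ _ (by
    rw [AddMonoidHom.add_apply, sg_add, ← hf, ← hf, ← hf, h, cX_mul e8T (hT a) (hT b)])
  have hinj : Function.Injective f := fun a b e => hi (cX_inj e8T (hT a) (hT b) fun i => by rw [hf, hf, e])
  have hS : ∀ a, f a ≠ 0 → Sing (f a) := by
    intro a ha
    have h3 : dd p (ε a) = 120 := hd a fun e => ha (AddMonoidHom.ext fun x => (hz a x).1 (by rw [e, eps_zero h, cX_one]))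
    rw [dd_tor e8T (hT a), Finset.filter_congr (q := fun s : Fin chevE8.nroots => f a (vec chevE8 8 s) = 0)
      fun s _ => hz a _] at h3
    unfold Sing
    omega
  obtain ⟨r0, hr0⟩ := Finset.card_pos.1 (by rw [h16]; norm_num :
    0 < (Finset.univ.filter fun s : Fin chevE8.nroots => ∀ a, f a (vec chevE8 8 s) = 0).card)
  have hr0' := (Finset.mem_filter.1 hr0).2
  have hadd' : ∀ a b, ∃ c, f c = f a + f b := fun a b => ⟨_, hadd a b⟩
  choose r hr1 hr2 using fun k => (show ∃ r : Fin chevE8.nroots, (∀ j, f j (vec chevE8 8 r) = 0) ∧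
      gr (vec chevE8 8 r) = gr (vec chevE8 8 r0) + f k from by
    obtain ⟨c, hc, h3⟩ := exists_shift e8T hadd' hS (rt_vec r0) hr0' k
    obtain ⟨r, rfl⟩ := exists_idx hc
    exact ⟨r, h3⟩)
  refine ⟨f, r, hf, hr1, fun t ht => ?_, fun j k => by rw [hr2, hr2, hadd, add_assoc], fun j k => ?_⟩
  · obtain ⟨k, hk⟩ := coset e8T hadd' hS h8 hinj h16 (rt_vec r0) hr0' (rt_vec t) ht
    exact ⟨k, (eq_of_gr e8T (rt_vec (r k)) (rt_vec t) (hk.trans (hr2 k).symm)).imp vec_injective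
      fun e => vec_injective (e.trans (vec_op _).symm)⟩
  · have hev : gr (vec chevE8 8 (r k)) (vec chevE8 8 (r j)) = 0 := by
      have h3 := gr_B0 (vec chevE8 8 (r j)) (r j)
      rw [B0_vec, hr2, AddMonoidHom.add_apply, hr1, add_zero] at h3
      rw [hr2, AddMonoidHom.add_apply, hr1, add_zero, h3]
      rfl
    split_ifs with e
    · rw [e, B0_vec]
    · have h3 : gr (vec chevE8 8 (r j)) ≠ gr (vec chevE8 8 (r k)) := fun h3 => e (hinj (by
        rw [hr2, hr2] at h3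
        exact add_left_cancel h3))
      have h4 := fm8.sl _ _ (rt_vec (r j)) (rt_vec (r k)) (fun h4 => h3 (by rw [h4]))
        fun h4 => h3 (by rw [h4, gr_neg e8T (rt_vec _)])
      rw [gr_B0, ZMod.intCast_zmod_eq_zero_iff_dvd] at hev
      rw [← fm8.cpr _ _ (rt_vec (r k)), abs_le] at h4
      omega

end Ex

namespace RD

variable {I : Type} [AddCommGroup I] [Fintype I] [DecidableEq I] {ε : I → G8 (KK p)} {f : I → Fn}
  {r : I → Fin chevE8.nroots} (R : RD ε f r) (two : (2 : KK p) ≠ 0)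

include R two

theorem one_iff (a : I) (b : Q8) : cX e8T (ε a) b = 1 ↔ f a b = 0 := by rw [R.ch, sg_eq_one two]

omit two in
theorem gr_zero {t : Fin chevE8.nroots} {j : I} (h : t = r j ∨ t = op (r j)) (k : I) :
    gr (vec chevE8 8 (r k)) (vec chevE8 8 t) = 0 := by
  have h1 : gr (vec chevE8 8 (r k)) (vec chevE8 8 (r j)) = 0 := by
    rw [gr_B0, R.orth]
    split_ifs <;> rfl
  rcases h with e | e
  · rw [e, h1]
  · rw [e, vec_op, map_neg, h1, neg_zero]

theorem xr_stab {t : Fin chevE8.nroots} {j : I} (h : t = r j ∨ t = op (r j)) (l : I) (c : KK p) :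
    xr t c ∈ stabL (sr8 (KK p) (r l)) := by
  have h1 : (t = r l ∨ t = op (r l)) ∨ B0 (vec chevE8 8 t) (vec chevE8 8 (r l)) = 0 := by
    by_cases e : j = l
    · exact Or.inl (e ▸ h)
    · right
      rcases h with e' | e'
      · rw [e', R.orth, if_neg e]
      · rw [e', vec_op, map_neg, LinearMap.neg_apply, R.orth, if_neg e, neg_zero]
  exact ⟨fun v hv => xr_mem two h1 c hv, fun v hv => by rw [xr_inv]; exact xr_mem two h1 _ hv⟩

theorem nor (hi : Function.Injective ε) (hT : ∀ a, ε a ∈ TT chevE8 (KK p)) {Z : I → G8 (KK p)}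
    (hZ1 : ∀ k, Z k ∈ TT chevE8 (KK p)) (hZ2 : ∀ k x, cX e8T (Z k) x = H167.KKL.sg (gr (vec chevE8 8 (r k)) x))
    {g : G8 (KK p)} (hg : ∀ k, ∃ j, g * ε k = ε j * g) (k : I) :
    ∃ l, g * Z k * g⁻¹ = Z l ∧ ∀ v ∈ sr8 (KK p) (r k), act g v ∈ sr8 (KK p) (r l) := by
  choose j hj using hg
  have hj' : Function.Surjective j := Finite.surjective_of_injective fun a b e =>
    hi (mul_left_cancel (a := g) (by rw [hj, hj, e]))
  obtain ⟨m, hm, w, n, hn, hnε, e0⟩ := form₂ e8T (s := ε) (t := fun a => ε (j a)) hT (fun a => hT _) hj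
  have hZ' : (Set.range fun a => ε (j a)) ⊆ TT chevE8 (KK p) := by
    rintro _ ⟨a, rfl⟩
    exact hT _
  have hPs : ∀ a ∈ Ps e8T p (Set.range fun a => ε (j a)), ∃ (t : Fin chevE8.nroots) (l : I),
      vec chevE8 8 t = a ∧ (t = r l ∨ t = op (r l)) := by
    intro a ha
    obtain ⟨h3, h4⟩ := (mem_Ps hZ').1 ha
    obtain ⟨t, rfl⟩ := exists_idx h3
    obtain ⟨l, hl⟩ := R.all t fun b => by
      obtain ⟨a, rfl⟩ := hj' b
      exact (R.one_iff two _ _).1 (h4 _ ⟨a, rfl⟩)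
    exact ⟨t, l, rfl, hl⟩
  obtain ⟨t, ht⟩ := exists_idx ((rt_vec (r k)).act w)
  obtain ⟨l, hl⟩ := R.all t fun b => by
    obtain ⟨a, rfl⟩ := hj' b
    have h3 := hn.cX (hT a) (vec chevE8 8 (r k))
    rw [hnε, mul_inv_cancel_right, ← ht, (R.one_iff two _ _).2 (R.zero k a)] at h3
    exact (R.one_iff two _ _).1 h3
  have h3 : n * Z k * n⁻¹ = Z l := by
    have h4 : gr (vec chevE8 8 (r l)) = gr (vec chevE8 8 t) := by
      rcases hl with e | e
      · rw [e]
      · rw [e, vec_op, gr_neg e8T (rt_vec _)]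
    refine cX_inj e8T (hn.conj_mem (hZ1 k)) (hZ1 l) fun i => ?_
    rw [← rep_apply_inv cs8 e8T.isCartan w (sr i), hn.cX (hZ1 k), hZ2, hZ2, h4, ht, gr_rep e8T w (rt_vec _)]
  have h4 : Z l * m = m * Z l := comm_Mz (hZ1 l) (fun a ha => by
    obtain ⟨t', l', e, h4⟩ := hPs a ha
    rw [hZ2, sg_eq_one two, ← e, R.gr_zero h4]) hm
  have h6 : m ∈ stabL (sr8 (KK p) (r l)) := Mz_le (K := stabL (sr8 (KK p) (r l))) (fun a ha x hx => by
    obtain ⟨t', l', e, h6⟩ := hPs a ha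
    rw [← e] at hx
    obtain ⟨c, e'⟩ := mem_XX_iff.1 hx
    rw [e']
    exact R.xr_stab two h6 l c) hm
  refine ⟨l, ?_, fun v hv => ?_⟩
  · rw [e0, show m * n * Z k * (m * n)⁻¹ = m * (n * Z k * n⁻¹) * m⁻¹ by group, h3, ← h4, mul_inv_cancel_right]
  · rw [e0, act_mul]
    obtain ⟨c, -, e⟩ := RepK.ee hn.toT ht
    obtain ⟨c', -, e'⟩ := RepK.ee hn.toT (r := op (r k)) (s := op t) (by rw [vec_op, vec_op, act8_neg, ht])
    have h7 : act n (ee (KK p) (Sum.inr (r k))) ∈ sr8 (KK p) (r l) := by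
      rw [e]
      exact Submodule.smul_mem _ _ (ee_mem_sr8 hl).1
    have h8 : act n (ee (KK p) (Sum.inr (op (r k)))) ∈ sr8 (KK p) (r l) := by
      rw [e']
      exact Submodule.smul_mem _ _ (ee_mem_sr8 hl).2
    exact h6.1 _ (act_sl h7 h8 ((tri_ee two (r l)).br_mem h7 h8) hv)

end RD

/-- **The decomposition.** -/
theorem exists_dec {I : Type} [AddCommGroup I] [Fintype I] [DecidableEq I] (hp : p ≠ 2) (h2 : ∀ a : I, a + a = 0)
    (h8 : Fintype.card I = 8) {ε : I → G8 (KK p)} (h : ∀ j k, ε (j + k) = ε j * ε k)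
    (hd : ∀ a, a ≠ 0 → ev (LK (KK p) (ε a)) 1 = 120) (hT : ∀ a, ε a ∈ TT chevE8 (KK p)) :
    ∃ Z s π, Dec ε Z s π := by
  obtain ⟨f, r, R⟩ := exists_rd hp h2 h8 h hd hT
  have hi := eps_inj h hd
  have two := (pu_rg hp h2 h hd).two
  choose Z hZ1 hZ2 hZ3 using fun k => exists_z (K := KK p) (r k)
  refine ⟨Z, fun k => sr8 _ (r k), fun k => pr8 _ (r k), two, h, hi, fun k => ⟨_, _, hZ3 k, rfl⟩, fun j k => ?_,
    fun j k => BpExc.TorChev.TT_comm e8T _ (hT j) _ (hZ1 k), fun k v hv j => ?_,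
    fun j k e u hu v hv => orth_sr8 (by rw [R.orth, if_neg e]) hu hv, fun k v => pr8_mem _ v,
    fun v hv => sum_pr8 two h8 R.orth fun t ht => R.all t fun j => (R.one_iff two _ _).1 (cX_of_fix (hT j) (hv j) ht),
    fun g hg => R.nor two hi hT hZ1 hZ2 hg⟩
  · refine cX_inj e8T (hZ1 _) (mul_mem (hZ1 j) (hT k)) fun i => ?_
    rw [cX_mul e8T (hZ1 j) (hT k), hZ2, hZ2, R.ch, ← sg_add, R.add, AddMonoidHom.add_apply]
  · exact fix_sl (act_TT_ee (hT j) ((R.one_iff two _ _).2 (R.zero k j)))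
      (act_TT_ee (hT j) ((R.one_iff two _ _).2 (by rw [vec_op, map_neg, R.zero, neg_zero]))) hv

end Cfsg.Agent.E8A.Odd.Tha
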