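import Cfsg.Agent.E8A.Odd.ThaAbs
import Cfsg.Agent.E8A.Odd.ThaEx
import Cfsg.Agent.E8A.Two.El

/-!
# The box THA: the group `A₈` centralizes a long root `SL₂` (helper90)

* `eps ψ` : the regular group `2³`; `cfg` : the relations; `gen8` : generators of `A₈`;
* `key` : the conclusion for the group `2³ : L₃(2)`; `tha : THA`.
-/

set_option autoImplicit false
set_option maxRecDepth 100000

namespace Cfsg.Agent.E8A.Odd

namespace Tha

open Cfsg Cfsg.Lie Module Equiv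
open Cfsg.Agent.KFacts.RgdChevCoord
open Cfsg.Agent.H952.F4 (ev)
open Cfsg.Agent.H469.Exc (KK)
open Cfsg.Agent.R2.T1.Odd
open Cfsg.Agent.E8A.Two.Mk (eqP P_eqP P_mul evP mem_Tg)

universe u

/-- the elements of the group of order 8 -/
def eW (k : I8) : List (ℕ × ℕ) :=
  wd gQs ((if k.1 = 0 then [] else [0, 2]) ++ (if k.2.1 = 0 then [] else [1, 3]) ++ if k.2.2 = 0 then [] else [4])

/-- the elements of the group of order 16 -/
def dW (k : ZMod 2 × I8) : List (ℕ × ℕ) := wd gQs ((if k.1 = 0 then [] else [0]) ++ (if k.2.1 = 0 then [] else [1]) ++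
  (if k.2.2.1 = 0 then [] else [2]) ++ if k.2.2.2 = 0 then [] else [3])

/-- conjugating elements -/
def cW : List (List (ℕ × ℕ)) := [[], [(0, 3), (4, 7)], [(0, 2), (4, 6)], [(0, 5), (2, 7)], [(0, 4), (2, 6)],
  [(0, 7), (2, 5)], [(0, 6), (2, 4)], [(0, 1), (0, 2)], [(0, 1), (0, 3)], [(0, 4), (1, 5), (2, 6), (3, 7)],
  [(0, 4), (1, 6), (2, 5), (3, 7)], [(0, 1), (4, 7)], [(0, 2), (4, 7)], [(0, 4), (1, 7), (2, 5), (3, 6)],
  [(0, 1), (4, 6)], [(0, 3), (4, 6)]]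

/-- a permutation -/
def lb : List (ℕ × ℕ) := [(0, 2), (1, 3)]

/-- a permutation -/
def lc : List (ℕ × ℕ) := [(0, 1), (4, 5)]

/-- a permutation -/
def lg : List (ℕ × ℕ) := [(2, 4), (4, 6), (3, 5), (5, 7)]

/-- a permutation -/
def lu : List (ℕ × ℕ) := [(1, 5), (2, 6)]

/-- generators of `A₈` -/
def gA : List (List (ℕ × ℕ)) := [lt, lb, [(0, 4), (1, 5), (2, 6), (3, 7)], lc, lu, [(0, 5), (2, 6)]]

/-- the words for `(0 1)(a b)` -/
def tA : List (List (List ℕ)) :=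
  [[[], [], [5, 0, 1, 4, 5, 1, 4, 1], [4, 0, 1, 4, 5, 1, 5], [4, 3, 5], [5, 4], [0, 1, 4, 5, 4, 1], [1, 5, 2, 4, 5, 1, 3]],
  [[], [], [1, 4, 0, 1, 4, 5, 1, 5], [5, 0, 1, 4, 5, 1, 4], [5, 3, 4], [4, 5], [0, 1, 4, 0, 5, 1], [2, 1, 3, 4, 5, 1, 2]],
  [[5, 0, 1, 4, 5, 1, 4, 1], [1, 4, 0, 1, 4, 5, 1, 5], [], [0], [0, 1, 4, 3, 5, 1], [0, 1, 5, 4, 1], [4, 5, 4],
    [2, 3, 4, 0, 5, 2]],
  [[4, 0, 1, 4, 5, 1, 5], [5, 0, 1, 4, 5, 1, 4], [0], [], [0, 1, 5, 3, 4, 1], [0, 1, 4, 5, 1], [4, 0, 5], [2, 4, 5, 3, 4]],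
  [[4, 3, 5], [5, 3, 4], [0, 1, 4, 3, 5, 1], [0, 1, 5, 3, 4, 1], [], [3], [4, 0, 1, 4, 3, 5, 1, 5],
    [2, 3, 4, 0, 1, 4, 5, 1, 5, 2]],
  [[5, 4], [4, 5], [0, 1, 5, 4, 1], [0, 1, 4, 5, 1], [3], [], [4, 1, 5, 1, 4, 1, 5, 1, 4], [2, 4, 1, 5, 4, 3, 1, 2, 5]],
  [[0, 1, 4, 5, 4, 1], [0, 1, 4, 0, 5, 1], [4, 5, 4], [4, 0, 5], [4, 0, 1, 4, 3, 5, 1, 5], [4, 1, 5, 1, 4, 1, 5, 1, 4], [],
    [2, 0, 2, 3]],
  [[1, 5, 2, 4, 5, 1, 3], [2, 1, 3, 4, 5, 1, 2], [2, 3, 4, 0, 5, 2], [2, 4, 5, 3, 4], [2, 3, 4, 0, 1, 4, 5, 1, 5, 2],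
    [2, 4, 1, 5, 4, 3, 1, 2, 5], [2, 0, 2, 3], []]]

theorem tA_spec : ∀ a < 8, ∀ b < 8, a ≠ b → cd 8 [(0, 1), (a, b)] = cd 8 (wd gA ((tA.getD a []).getD b [])) := by
  decide +kernel

section Perm

variable {n : ℕ} [NeZero n] (hn : 8 ≤ n)

include hn

theorem P3 {a b c d : List (ℕ × ℕ)} {a' c' : List (ℕ × ℕ)}
    (h : (vl 8 a && vl 8 a' && vl 8 c && vl 8 c' && eqP 8 (a ++ a') b (c ++ c') d) = true) :
    P n a * P n a' * P n b = P n c * P n c' * P n d := by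
  simp only [Bool.and_eq_true] at h
  rw [← P_append hn h.1.1.1.1 h.1.1.1.2, ← P_append hn h.1.1.2 h.1.2, P_eqP hn h.2]

theorem mem_wd {gens : List (List (ℕ × ℕ))} (h : gens.all (vl 8) = true) {l : List (ℕ × ℕ)} (hl : vl 8 l = true)
    (w : List ℕ) (hc : cd 8 l = cd 8 (wd gens w)) : P n l ∈ Tg n gens := by
  rw [(P_eq_iff hn hl (vl_wd h w)).2 hc]
  exact P_wd_mem hn h w

omit hn in
theorem vl_two {x y : ℕ × ℕ} (hx : x.1 < 8 ∧ x.2 < 8 ∧ x.1 ≠ x.2) (hy : y.1 < 8 ∧ y.2 < 8 ∧ y.1 ≠ y.2) :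
    vl 8 [x, y] = true := vl_iff.2 ⟨Nat.mod_self 2, by
  intro z hz
  simp only [List.mem_cons, List.not_mem_nil, or_false] at hz
  rcases hz with rfl | rfl
  exacts [hx, hy]⟩

theorem gen8 : ∀ l : List (ℕ × ℕ), vl 8 l = true → P n l ∈ Tg n gA
  | [], _ => by rw [P_nil]; exact one_mem _
  | [_], h => absurd (vl_iff.1 h).1 (by simp)
  | x :: y :: l, h => by
    obtain ⟨h1, h2⟩ := vl_iff.1 h
    have h3 : vl 8 l = true := vl_iff.2 ⟨by simp only [List.length_cons] at h1; omega, h2.tail.tail⟩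
    have hx := h2.cons
    have hy := h2.tail.cons
    have h0 : ((0, 1) : ℕ × ℕ).1 < 8 ∧ ((0, 1) : ℕ × ℕ).2 < 8 ∧ ((0, 1) : ℕ × ℕ).1 ≠ ((0, 1) : ℕ × ℕ).2 := by decide
    have h4 : ∀ z : ℕ × ℕ, z.1 < 8 ∧ z.2 < 8 ∧ z.1 ≠ z.2 → P n [(0, 1), z] ∈ Tg n gA := fun z hz =>
      mem_wd hn (by decide) (vl_two h0 hz) _ (tA_spec _ hz.1 _ hz.2.1 hz.2.2)
    have h5 : P n [(0, 1), x] * P n [x, y] = P n [(0, 1), y] := by
      apply Subtype.ext
      rw [Subgroup.coe_mul, coe_P hn (vl_two h0 hx), coe_P hn (vl_two hx hy), coe_P hn (vl_two h0 hy)]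
      simp only [pm_cons, pm_nil, mul_one]
      rw [mul_assoc, ← mul_assoc (swap _ _) (swap _ _) (swap (Fin.ofNat n y.1) _), swap_mul_self, one_mul]
    rw [show x :: y :: l = [x, y] ++ l from rfl, P_append hn (vl_two hx hy) h3]
    exact mul_mem ((mul_mem_cancel_left (h4 x hx)).1 (h5 ▸ h4 y hy)) (gen8 l h3)

omit hn in
/-- conjugation by a transposition -/
noncomputable def tau (n : ℕ) [NeZero n] : MulAut (Alt n) := MulAut.conjNormal (pm n [(0, 1)])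

theorem tau_P {l l' : List (ℕ × ℕ)} (h : (vl 8 l && vl 8 l' && cd 8 ([(0, 1)] ++ l) == cd 8 (l' ++ [(0, 1)])) = true) :
    tau n (P n l) = P n l' := by
  simp only [Bool.and_eq_true, beq_iff_eq] at h
  have h0 : En 8 [(0, 1)] := by unfold En; decide
  apply Subtype.ext
  rw [tau, MulAut.conjNormal_apply, coe_P hn h.1.1, coe_P hn h.1.2, mul_inv_eq_iff_eq_mul, ← pm_append, ← pm_append]
  exact pm_eq hn (h0.append (vl_iff.1 h.1.1).2) ((vl_iff.1 h.1.2).2.append h0) h.2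

end Perm

section Act

variable {K : Type u} [Field K] {n : ℕ} [NeZero n] (hn : 8 ≤ n) (ψ : Alt n →* G8 K)

/-- the group of order 8 -/
noncomputable def eps (k : I8) : G8 K := ψ (P n (eW k))

/-- the group of order 16 -/
noncomputable def del (k : ZMod 2 × I8) : G8 K := ψ (P n (dW k))

/-- fixed by the group of order 32 -/
def Fq (v : L8 K) : Prop := ∀ l ∈ gQs, act (ψ (P n l)) v = v

theorem fix_Tg {gens : List (List (ℕ × ℕ))} {v : L8 K} (h : ∀ l ∈ gens, act (ψ (P n l)) v = v) {x : Alt n}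
    (hx : x ∈ Tg n gens) : act (ψ x) v = v := (mem_Tg (Inf.rp ψ)).2 h x hx

include hn

theorem eps_add (j k : I8) : eps ψ (j + k) = eps ψ j * eps ψ k := by
  rw [eps, eps, eps, ← map_mul, P_mul hn ((by decide +kernel : ∀ j k : I8, eqP 8 (eW j) (eW k) (eW (j + k)) [] = true) j k)]

theorem del_add (j k : ZMod 2 × I8) : del ψ (j + k) = del ψ j * del ψ k := by
  rw [del, del, del, ← map_mul,
    P_mul hn ((by decide +kernel : ∀ j k : ZMod 2 × I8, eqP 8 (dW j) (dW k) (dW (j + k)) [] = true) j k)]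

theorem eps_ev (h : ev (LK K (ψ (P n ls))) 1 = 120) (k : I8) (hk : k ≠ 0) : ev (LK K (eps ψ k)) 1 = 120 := by
  obtain ⟨c, -, hc⟩ := List.any_eq_true.1
    ((by decide +kernel : ∀ k : I8, k ≠ 0 → (cW.any fun c => eqP 8 (eW k) c c ls) = true) k hk)
  exact (evP (Inf.rp ψ) hn c hc).trans h

theorem del_ev (h : ev (LK K (ψ (P n ls))) 1 = 120) (h' : ev (LK K (ψ (P n lt))) 1 = 120) (k : ZMod 2 × I8) (hk : k ≠ 0) :
    ev (LK K (del ψ k)) 1 = 120 := by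
  obtain ⟨c, -, hc⟩ := List.any_eq_true.1 ((by decide +kernel :
    ∀ k : ZMod 2 × I8, k ≠ 0 → (cW.any fun c => eqP 8 (dW k) c c ls || eqP 8 (dW k) c c lt) = true) k hk)
  rcases Bool.or_eq_true_iff.1 hc with hc | hc
  · exact (evP (Inf.rp ψ) hn c hc).trans h
  · exact (evP (Inf.rp ψ) hn c hc).trans h'

theorem nor_eps {l : List (ℕ × ℕ)} {M : I8 → I8} (h : ∀ k, eqP 8 l (eW k) (eW (M k)) l = true) (k : I8) :
    ψ (P n l) * eps ψ k = eps ψ (M k) * ψ (P n l) := by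
  rw [eps, eps, ← map_mul, ← map_mul, P_eqP hn (h k)]

theorem rel3 {a b c d a' c' : List (ℕ × ℕ)}
    (h : (vl 8 a && vl 8 a' && vl 8 c && vl 8 c' && eqP 8 (a ++ a') b (c ++ c') d) = true) :
    ψ (P n a) * ψ (P n a') * ψ (P n b) = ψ (P n c) * ψ (P n c') * ψ (P n d) := by
  simp only [← map_mul, P3 hn h]

theorem cfg : Cfg (eps ψ) (ψ (P n lt)) (ψ (P n lb)) (ψ (P n l33)) (ψ (P n lc)) (ψ (P n lg)) where
  ha := nor_eps hn ψ (by decide +kernel)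
  hb := nor_eps hn ψ (by decide +kernel)
  hw := nor_eps hn ψ (by decide +kernel)
  hc := nor_eps hn ψ (by decide +kernel)
  hg := nor_eps hn ψ (by decide +kernel)
  aa := by simpa only [P_nil, map_one, one_mul] using rel3 hn ψ (a := []) (a' := lt) (b := lt) (c := []) (c' := []) (d := []) rfl
  bb := by simpa only [P_nil, map_one, one_mul] using rel3 hn ψ (a := []) (a' := lb) (b := lb) (c := []) (c' := []) (d := []) rfl
  ab := by simpa only [P_nil, map_one, one_mul] using rel3 hn ψ (a := []) (a' := lt) (b := lb) (c := []) (c' := lb) (d := lt) rfl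
  wa := by simpa only [P_nil, map_one, one_mul] using rel3 hn ψ (a := []) (a' := l33) (b := lt) (c := lt) (c' := lb) (d := l33) rfl
  wb := by simpa only [P_nil, map_one, one_mul] using rel3 hn ψ (a := []) (a' := l33) (b := lb) (c := []) (c' := lt) (d := l33) rfl
  bw := by simpa only [P_nil, map_one, one_mul] using rel3 hn ψ (a := []) (a' := lb) (b := l33) (c := l33) (c' := lb) (d := lt) rfl
  www := by simpa only [P_nil, map_one, one_mul] using rel3 hn ψ (a := l33) (a' := l33) (b := l33) (c := []) (c' := []) (d := []) rfl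
  ca := by simpa only [P_nil, map_one, one_mul] using rel3 hn ψ (a := []) (a' := lc) (b := lt) (c := []) (c' := lt) (d := lc) rfl
  cb := by simpa only [P_nil, map_one, one_mul] using rel3 hn ψ (a := []) (a' := lc) (b := lb) (c := lt) (c' := lb) (d := lc) rfl
  wcw := by simpa only [P_nil, map_one, one_mul] using rel3 hn ψ (a := l33) (a' := lc) (b := l33) (c := []) (c' := []) (d := lc) rfl
  ga := by simpa only [P_nil, map_one, one_mul] using rel3 hn ψ (a := []) (a' := lg) (b := lt) (c := []) (c' := lc) (d := lg) rfl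
  gc := by
    have h := rel3 hn ψ (a := []) (a' := lg) (b := lc) (c := lt ++ lc) (c' := eW (1, 0, 0)) (d := lg) (by decide +kernel)
    rwa [P_nil, map_one, one_mul, P_append hn rfl rfl, map_mul] at h
  ggg := by simpa only [P_nil, map_one, one_mul] using rel3 hn ψ (a := lg) (a' := lg) (b := lg) (c := []) (c' := []) (d := []) rfl

theorem lu_eq : ψ (P n l33) * ψ (P n lg) * ψ (P n lb) * (ψ (P n l33) * ψ (P n lg))⁻¹ = ψ (P n lu) := by
  rw [mul_inv_eq_iff_eq_mul, ← mul_assoc]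
  exact rel3 hn ψ rfl

theorem fq_iff (v : L8 K) : Fq ψ v ↔ FQ (eps ψ) (ψ (P n lt)) (ψ (P n lb)) v := by
  constructor
  · exact fun h => ⟨fun k => fix_Tg ψ h (P_wd_mem hn (by decide) _), h _ (by decide), h _ (by decide)⟩
  · rintro ⟨h1, h2, h3⟩ l hl
    refine fix_Tg ψ (gens := [lt, lb, eW (1, 0, 0), eW (0, 1, 0), eW (0, 0, 1)]) ?_ ?_
    · simp only [List.forall_mem_cons, List.not_mem_nil, IsEmpty.forall_iff, implies_true, and_true]
      exact ⟨h2, h3, h1 _, h1 _, h1 _⟩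
    · obtain ⟨w, -, hw⟩ := List.any_eq_true.1 ((by decide +kernel : ∀ l ∈ gQs, ([[0], [1], [0, 2], [1, 3], [4]].any fun w =>
        vl 8 l && cd 8 l == cd 8 (wd [lt, lb, eW (1, 0, 0), eW (0, 1, 0), eW (0, 0, 1)] w)) = true) l hl)
      simp only [Bool.and_eq_true, beq_iff_eq] at hw
      exact mem_wd hn (by decide +kernel) hw.1 w hw.2

end Act

/-- the conclusion for the group `2³ : L₃(2)` -/
def Key {K : Type u} [Field K] {n : ℕ} [NeZero n] (ψ : Alt n →* G8 K) : Prop :=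
  ev (LK K (ψ (P n lt))) 1 = 136 ∧ (∃ z e f, Rz z e f ∧ Fq ψ e ∧ Fq ψ f) ∧
    ∀ e f, Tri e f → Fq ψ e → Fq ψ f → ∀ v ∈ sl e f, act (ψ (P n lc)) v = v ∧ act (ψ (P n lu)) v = v

variable {p : ℕ} [Fact p.Prime] (hp : p ≠ 2) {n : ℕ} [NeZero n] (hn : 8 ≤ n)

include hp hn

theorem key_T {ψ : Alt n →* G8 (KK p)} (h : Num ψ) (hT : ∀ k, eps ψ k ∈ TT chevE8 (KK p)) : Key ψ := by
  obtain ⟨Z, s, π, D⟩ := exists_dec hp (by decide) rfl (eps_add hn ψ) (eps_ev hn ψ h.1) hT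
  rcases h.2 with h1 | ⟨h1, h2⟩
  · obtain ⟨u, v, hu, hv, h2⟩ := (cfg hn ψ).reg D
    rw [← fq_iff hn] at hu hv
    exact absurd (ab16 hp (by decide) (del_add hn ψ) (del_ev hn ψ h.1 h1) (by rw [Nat.card_eq_fintype_card]; rfl)
      (fun a => fix_Tg ψ hu (P_wd_mem hn (by decide) _)) fun a => fix_Tg ψ hv (P_wd_mem hn (by decide) _)) h2
  · have h3 := (cfg hn ψ).main D (fun v => (mem_Tg (Inf.rp ψ)).trans (fq_iff hn ψ v)) h2
    simp only [← fq_iff hn, lu_eq hn] at h3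
    exact ⟨h1, h3⟩

theorem key {ψ : Alt n →* G8 (KK p)} (h : Num ψ) : Key ψ := by
  obtain ⟨g, hg⟩ := tor8 hp (by decide) (eps_add hn ψ) (eps_ev hn ψ h.1) (by rw [Nat.card_eq_fintype_card]; rfl)
  obtain ⟨φ, hφ⟩ : ∃ φ : Alt n →* G8 (KK p), ∀ x, φ x = g * ψ x * g⁻¹ :=
    ⟨(MulAut.conj g).toMonoidHom.comp ψ, fun _ => rfl⟩
  have h1 : ∀ x, ev (LK (KK p) (φ x)) 1 = ev (LK (KK p) (ψ x)) 1 := fun x => by
    rw [hφ]
    exact DS.Nt.dd_conj g _
  have h2 : ∀ x v, act (φ x) (act g v) = act g v ↔ act (ψ x) v = v := fun x v => by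
    rw [hφ, ← act_mul, inv_mul_cancel_right, act_mul]
    exact (act_injective g).eq_iff
  have h3 : ∀ v, Fq φ (act g v) ↔ Fq ψ v := fun v => forall_congr' fun l => forall_congr' fun _ => h2 _ v
  obtain ⟨h4, ⟨z, e, f, h5, h6, h7⟩, h8⟩ := key_T hp hn (ψ := φ) ⟨(h1 _).trans h.1, h.2.imp (h1 _).trans fun h4 =>
    ⟨(h1 _).trans h4.1, (DS.Nt.finrank_eq_of_ad g fun v => (mem_Tg (Inf.rp φ)).trans
      ((h3 v).trans (mem_Tg (Inf.rp ψ)).symm)).trans h4.2⟩⟩ fun k => by rw [eps, hφ]; exact hg k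
  refine ⟨(h1 _).symm.trans h4, ⟨_, _, _, rz_conj h5 g⁻¹, (h3 _).1 (by rwa [act_inv']), (h3 _).1 (by rwa [act_inv'])⟩,
    fun e f h9 he hf v hv => ?_⟩
  rw [← h2, ← h2]
  exact h8 _ _ (h9.act g) ((h3 e).2 he) ((h3 f).2 hf) _
    (act_sl (e_mem _ _) (f_mem _ _) (h_mem _ _) hv)

end Tha

open Tha Cfsg.Agent.R2.T1.Odd in
/-- **THA** -/
theorem tha : THA := by
  intro p _ hp n _ hn ψ _ h
  obtain ⟨h1, ⟨z, e, f, h2, he, hf⟩, h3⟩ := key hp hn (ψ := ψ) (h 1)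
  have h4 := (key hp hn (h (tau n))).2.2
  have h5 := tri_of_rz (H167.KKL.two_ne p hp) h2
  have h6 : ∀ v, Fq ψ v → act (ψ (P n lc)) v = v → Fq (ψ.comp (tau n).toMonoidHom) v := by
    intro v h6 h7 l hl
    obtain ⟨w, -, hw⟩ := List.any_eq_true.1 ((by decide +kernel : ∀ l ∈ gQs,
      ([[1], [1, 2], [3], [4], [0, 5]].any fun w => vl 8 l && vl 8 (wd (lc :: gQs) w) &&
        cd 8 ([(0, 1)] ++ l) == cd 8 (wd (lc :: gQs) w ++ [(0, 1)])) = true) l hl)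
    show act (ψ (tau n (P n l))) v = v
    rw [tau_P hn hw]
    exact fix_Tg ψ (List.forall_mem_cons.2 ⟨h7, h6⟩) (P_wd_mem hn (by decide) w)
  have h7 := h4 e f h5 (h6 e he (h3 e f h5 he hf e (e_mem e f)).1) (h6 f hf (h3 e f h5 he hf f (f_mem e f)).1)
  have h8 : ∀ v ∈ sl e f, ∀ l ∈ gA, act (ψ (P n l)) v = v := by
    intro v hv
    have h8 : act (ψ (tau n (P n lu))) v = v := (h7 v hv).2
    rw [tau_P hn (l' := [(0, 5), (2, 6)]) rfl] at h8
    simp only [gA, List.forall_mem_cons, List.not_mem_nil, IsEmpty.forall_iff, implies_true, and_true]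
    exact ⟨fix_sl (he _ (by decide)) (hf _ (by decide)) hv, fix_sl (he _ (by decide)) (hf _ (by decide)) hv,
      fix_sl (he _ (by decide)) (hf _ (by decide)) hv, (h3 e f h5 he hf v hv).1, (h3 e f h5 he hf v hv).2, h8⟩
  exact ⟨h1, z, e, f, h2, fun l hl => ⟨fix_Tg ψ (h8 e (e_mem e f)) (gen8 hn l hl), fix_Tg ψ (h8 f (f_mem e f)) (gen8 hn l hl)⟩⟩

end Cfsg.Agent.E8A.Odd
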