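import Cfsg.Agent.E8A.Odd.ThaDec

/-!
# The box THA, part 4: the action of `2³ : L₃(2)` on the eight algebras (helper90)

* `Cfg ε a b w c g` : the relations between the elements; `FQ ε a b v` : the vectors fixed by the group of order 32;
* `Cfg.reg` : there are non-commuting fixed vectors; `Cfg.main` : the case of a fixed space of dimension 9.
-/

set_option autoImplicit false
set_option linter.unusedSectionVars false

namespace Cfsg.Agent.E8A.Odd.Tha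

open Cfsg Cfsg.Lie Module
open Cfsg.Agent.E8A.TwoH

universe u

variable {K : Type u} [Field K]

section Dim

variable {I : Type} [AddCommGroup I] [Fintype I] [DecidableEq I] {ε Z : I → G8 K} {s : I → Submodule K (L8 K)}
  {π : I → L8 K →ₗ[K] L8 K}

theorem bound (π : I → L8 K →ₗ[K] L8 K) (U : Submodule K (L8 K)) (R : Finset I) (m : I → ℕ)
    (h1 : ∀ v ∈ U, (∀ k ∈ R, π k v = 0) → v = 0) (h2 : ∀ k ∈ R, finrank K (U.map (π k)) ≤ m k) :
    finrank K U ≤ ∑ k ∈ R, m k := by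
  have h3 : Function.Injective (LinearMap.pi fun k : R => (π k).submoduleMap U) := by
    rw [injective_iff_map_eq_zero]
    exact fun v hv => Subtype.ext (h1 v v.2 fun k hk => congrArg Subtype.val (congrFun hv ⟨k, hk⟩))
  refine (LinearMap.finrank_le_finrank_of_injective h3).trans ?_
  rw [finrank_pi_fintype, Finset.sum_coe_sort R fun k => finrank K (U.map (π k))]
  exact Finset.sum_le_sum h2

theorem Dec.lower (D : Dec ε Z s π) (U : Submodule K (L8 K)) (R : Finset I)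
    (h : ∀ k ∈ R, ∀ y ∈ s k, ∃ v ∈ U, ∀ j ∈ R, π j v = π j y) : 3 * R.card ≤ Module.finrank K U := by
  have h3 : Function.Surjective (LinearMap.pi fun k : R =>
      LinearMap.codRestrict (s k) (π k ∘ₗ U.subtype) fun v => D.mem k v) := by
    intro y
    choose v hv1 hv2 using fun k : R => h k k.2 (y k) (y k).2
    refine ⟨∑ k, ⟨v k, hv1 k⟩, funext fun j => Subtype.ext ?_⟩
    show π j ((∑ k, (⟨v k, hv1 k⟩ : U) : U) : L8 K) = y j
    rw [Submodule.coe_sum, map_sum, Finset.sum_eq_single j (fun k _ hk => ?_) fun h => absurd (Finset.mem_univ j) h,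
      hv2 j j j.2, D.pi_self (y j).2]
    rw [hv2 k j j.2, D.pi_ne (y k).2 fun e => hk (Subtype.ext e.symm)]
  refine le_of_eq_of_le ?_ (LinearMap.finrank_le_finrank_of_surjective h3)
  rw [finrank_pi_fintype, Finset.sum_congr rfl fun (k : R) _ => D.finrank k, Finset.sum_const, Finset.card_univ,
    Fintype.card_coe, smul_eq_mul, mul_comm]

theorem Dec.map_le (D : Dec ε Z s π) (U : Submodule K (L8 K)) (k : I) : U.map (π k) ≤ s k := by
  rintro _ ⟨v, -, rfl⟩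
  exact D.mem k v

theorem Dec.map_three (D : Dec ε Z s π) (U : Submodule K (L8 K)) (k : I) : Module.finrank K (U.map (π k)) ≤ 3 :=
  (Submodule.finrank_mono (D.map_le U k)).trans (D.finrank k).le

theorem Dec.base (D : Dec ε Z s π) {g : G8 K} {M : I → I} (hM : ∀ k, g * ε k = ε (M k) * g) (h0 : M 0 = 0) {α : I → I}
    (h : Mv Z s g α) (h1 : α 0 = 0) : Mv Z s g M := by
  obtain ⟨d, hd⟩ := D.exists_mv hM
  have h2 := D.uniq hd h 0
  rw [h0, add_zero, h1] at h2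
  simpa only [h2, zero_add] using hd

end Dim

/-- the index group -/
abbrev I8 : Type := ZMod 2 × ZMod 2 × ZMod 2

/-- the action on the index group -/
def ma (k : I8) : I8 := (k.1 + k.2.2, k.2.1, k.2.2)

/-- the action on the index group -/
def mb (k : I8) : I8 := (k.1, k.2.1 + k.2.2, k.2.2)

/-- the action on the index group -/
def mw (k : I8) : I8 := (k.1 + k.2.1, k.1, k.2.2)

/-- the action on the index group -/
def mc (k : I8) : I8 := (k.1 + k.2.1, k.2.1, k.2.2)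

/-- the action on the index group -/
def mg (k : I8) : I8 := (k.1, k.2.2, k.2.1 + k.2.2)

set_option synthInstance.maxSize 100000 in
theorem comb1 : ∀ x y z : I8, x + ma (x + ma 0) = 0 → y + mb (y + mb 0) = 0 →
    z + mw (x + ma 0) = x + ma (y + mb (z + mw 0)) → z + mw (y + mb 0) = x + ma (z + mw 0) →
    z + mw (z + mw (z + mw 0)) = 0 →
    (∃ k, x + ma k = k ∧ y + mb k = k ∧ z + mw k = k) ∨
      ((0 ≠ x + ma 0 ∧ 0 ≠ y + mb 0 ∧ 0 ≠ x + ma (y + mb 0)) ∧ ∀ k, ∃ r ∈ ({0, (0, 0, 1)} : Finset I8),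
        k = r ∨ k = x + ma r ∨ k = y + mb r ∨ k = x + ma (y + mb r)) := by decide +kernel

theorem comb2 : ∀ x : I8, x + mc (ma 0) = ma (x + mc 0) → x + mc (mb 0) = ma (mb (x + mc 0)) →
    mw (x + mc (mw 0)) = x + mc 0 → x + mc 0 = 0 := by decide +kernel

theorem comb3 : ∀ x : I8, x + mg (ma 0) = mc (x + mg 0) → x + mg (mc 0) = ma (mc (x + mg 0)) →
    x + mg (x + mg (x + mg 0)) = 0 → x + mg 0 = 0 := by decide +kernel

/-- the relations -/
structure Cfg (ε : I8 → G8 K) (a b w c g : G8 K) : Prop where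
  ha : ∀ k, a * ε k = ε (ma k) * a
  hb : ∀ k, b * ε k = ε (mb k) * b
  hw : ∀ k, w * ε k = ε (mw k) * w
  hc : ∀ k, c * ε k = ε (mc k) * c
  hg : ∀ k, g * ε k = ε (mg k) * g
  aa : a * a = 1
  bb : b * b = 1
  ab : a * b = b * a
  wa : w * a = a * b * w
  wb : w * b = a * w
  bw : b * w = w * b * a
  www : w * w * w = 1
  ca : c * a = a * c
  cb : c * b = a * b * c
  wcw : w * c * w = c
  ga : g * a = c * g
  gc : g * c = a * c * ε (1, 0, 0) * g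
  ggg : g * g * g = 1

/-- the fixed vectors -/
def FQ (ε : I8 → G8 K) (a b : G8 K) (v : L8 K) : Prop := FE ε v ∧ act a v = v ∧ act b v = v

variable {ε Z : I8 → G8 K} {s : I8 → Submodule K (L8 K)} {π : I8 → L8 K →ₗ[K] L8 K} {a b w c g : G8 K}

namespace Cfg

variable (C : Cfg ε a b w c g) (D : Dec ε Z s π)

include C D

omit C in
theorem mv_one : Mv Z s 1 fun k => k := fun _ => ⟨by group, fun v hv => by rwa [act_one]⟩

theorem cases : (∃ Z s π, Dec ε Z s π ∧ Mv Z s a ma ∧ Mv Z s b mb ∧ Mv Z s w mw) ∨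
    ∃ α β, Mv Z s a α ∧ Mv Z s b β ∧ (0 ≠ α 0 ∧ 0 ≠ β 0 ∧ 0 ≠ α (β 0)) ∧
      ∀ k, ∃ r ∈ ({0, (0, 0, 1)} : Finset I8), k = r ∨ k = α r ∨ k = β r ∨ k = α (β r) := by
  obtain ⟨x, hx⟩ := D.exists_mv C.ha
  obtain ⟨y, hy⟩ := D.exists_mv C.hb
  obtain ⟨z, hz⟩ := D.exists_mv C.hw
  refine (comb1 x y z (D.uniq (hx.mul hx) (C.aa ▸ mv_one D) 0) (D.uniq (hy.mul hy) (C.bb ▸ mv_one D) 0)
    (D.uniq (hz.mul hx) (C.wa ▸ (hx.mul hy).mul hz) 0) (D.uniq (hz.mul hy) (C.wb ▸ hx.mul hz) 0)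
    (D.uniq ((hz.mul hz).mul hz) (C.www ▸ mv_one D) 0)).imp ?_ fun h => ⟨_, _, hx, hy, h⟩
  rintro ⟨k, h1, h2, h3⟩
  exact ⟨_, _, _, D.shift k, (D.shift k).base C.ha rfl (hx.shift k) (by rw [add_zero, h1, sub_self]),
    (D.shift k).base C.hb rfl (hy.shift k) (by rw [add_zero, h2, sub_self]),
    (D.shift k).base C.hw rfl (hz.shift k) (by rw [add_zero, h3, sub_self])⟩

/-- non-commuting fixed vectors -/
theorem reg : ∃ u v, FQ ε a b u ∧ FQ ε a b v ∧ br u v ≠ 0 := by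
  rcases C.cases D with ⟨Z, s, π, D, ha, hb, -⟩ | ⟨α, β, ha, hb, ⟨h1, h2, h3⟩, -⟩
  · obtain ⟨u, v, h1, h2, h3, h4, h5, h6, h7⟩ := D.reg ha hb C.aa C.bb C.ab (r := (0, 0, 1)) (by decide) (by decide)
      (by decide)
    exact ⟨u, v, ⟨h1, h2, h3⟩, ⟨h4, h5, h6⟩, h7⟩
  · obtain ⟨u, v, h1, h2, h3, h4, h5, h6, h7⟩ := D.reg ha hb C.aa C.bb C.ab h1 h2 h3
    exact ⟨u, v, ⟨h1, h2, h3⟩, ⟨h4, h5, h6⟩, h7⟩

variable {U : Submodule K (L8 K)} (hU : ∀ v, v ∈ U ↔ FQ ε a b v) (h9 : finrank K U = 9)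

include hU

omit C in
theorem zero_of {α β : I8 → I8} (ha : Mv Z s a α) (hb : Mv Z s b β) {R : Finset I8}
    (hR : ∀ k, ∃ r ∈ R, k = r ∨ k = α r ∨ k = β r ∨ k = α (β r)) : ∀ v ∈ U, (∀ k ∈ R, π k v = 0) → v = 0 := by
  intro v hv h0
  obtain ⟨h1, h2, h3⟩ := (hU v).1 hv
  refine D.eq_zero h1 fun k => ?_
  obtain ⟨r, hr, rfl | rfl | rfl | rfl⟩ := hR k
  · exact h0 _ hr
  · exact D.pi_move ha h1 h2 (h0 _ hr)
  · exact D.pi_move hb h1 h3 (h0 _ hr)
  · exact D.pi_move ha h1 h2 (D.pi_move hb h1 h3 (h0 _ hr))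

variable (ha : Mv Z s a ma) (hb : Mv Z s b mb) (hw : Mv Z s w mw)

include ha hb hw

omit hU ha hb in
theorem fx_w {k : I8} (h : ∀ v ∈ s k, act a v = v ∧ act b v = v) : ∀ v ∈ s (mw k), act a v = v ∧ act b v = v := by
  intro v hv
  have h0 : act (w * w) v ∈ s (mw (mw (mw k))) := ((hw.mul hw) (mw k)).2 v hv
  rw [(by decide : ∀ k, mw (mw (mw k)) = k) k] at h0
  have h1 := h _ h0
  have h2 : act w (act (w * w) v) = v := by rw [← act_mul, ← mul_assoc, C.www, act_one]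
  constructor
  · rw [← h2, ← act_mul a, ← C.wb, act_mul w b, h1.2]
  · rw [← h2, ← act_mul b, C.bw, act_mul _ a, h1.1, act_mul w b, h1.2]

include h9

theorem not_fx : ¬ ∀ v ∈ s (1, 0, 0), act a v = v ∧ act b v = v := by
  intro h1
  have h2 := C.fx_w D hw h1
  have h3 := C.fx_w D hw h2
  have h4 := D.lower U {(1, 0, 0), mw (1, 0, 0), mw (mw (1, 0, 0)), (0, 0, 1)} (by
    intro k hk y hy
    simp only [Finset.mem_insert, Finset.mem_singleton] at hk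
    rcases hk with rfl | rfl | rfl | rfl
    · exact ⟨y, (hU y).2 ⟨D.fix _ y hy, h1 y hy⟩, fun _ _ => rfl⟩
    · exact ⟨y, (hU y).2 ⟨D.fix _ y hy, h2 y hy⟩, fun _ _ => rfl⟩
    · exact ⟨y, (hU y).2 ⟨D.fix _ y hy, h3 y hy⟩, fun _ _ => rfl⟩
    · refine ⟨os a b y, (hU _).2 ⟨D.fe_os ha hb hy, os_left C.aa y, os_right C.bb C.ab y⟩, fun j hj => ?_⟩
      have h5 := (by decide : ∀ j ∈ ({(1, 0, 0), mw (1, 0, 0), mw (mw (1, 0, 0)), (0, 0, 1)} : Finset I8),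
        j ≠ ma (0, 0, 1) ∧ j ≠ mb (0, 0, 1) ∧ j ≠ ma (mb (0, 0, 1))) j hj
      exact D.pi_os ha hb hy h5.1 h5.2.1 h5.2.2)
  rw [h9, show ({(1, 0, 0), mw (1, 0, 0), mw (mw (1, 0, 0)), (0, 0, 1)} : Finset I8).card = 4 by decide] at h4
  omega

theorem eq_zero_of_fx {k : I8} (hk : k.2.2 = 0) (h : ∀ v ∈ s k, act a v = v ∧ act b v = v) : k = 0 := by
  rcases (by decide : ∀ k : I8, k.2.2 = 0 → k = 0 ∨ k = (1, 0, 0) ∨ mw k = (1, 0, 0) ∨ mw (mw k) = (1, 0, 0)) k hk with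
    e | e | e | e
  · exact e
  · exact absurd (e ▸ h) (C.not_fx D hU h9 ha hb hw)
  · exact absurd (e ▸ C.fx_w D hw h) (C.not_fx D hU h9 ha hb hw)
  · exact absurd (e ▸ C.fx_w D hw (C.fx_w D hw h)) (C.not_fx D hU h9 ha hb hw)

omit hw h9 in
theorem one_of_not {k : I8} (hk : k.2.2 = 0) (h : ¬ ∀ v ∈ s k, act a v = v ∧ act b v = v) :
    finrank K (U.map (π k)) ≤ 1 := by
  by_contra h1
  obtain ⟨h2, h3⟩ := (by decide : ∀ k : I8, k.2.2 = 0 → ma k = k ∧ mb k = k) k hk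
  refine h fun v hv => ⟨D.fix_of_two (D.map_le U k) (by omega) C.aa (fun v hv => h2 ▸ (ha k).2 v hv) ?_ hv,
    D.fix_of_two (D.map_le U k) (by omega) C.bb (fun v hv => h3 ▸ (hb k).2 v hv) ?_ hv⟩
  · rintro _ ⟨v, hv, rfl⟩
    rw [← D.pi_act ha ((hU v).1 hv).1, h2, ((hU v).1 hv).2.1]
  · rintro _ ⟨v, hv, rfl⟩
    rw [← D.pi_act hb ((hU v).1 hv).1, h3, ((hU v).1 hv).2.2]

theorem fx_zero : ∀ v ∈ s 0, act a v = v ∧ act b v = v := by
  by_contra h
  have h1 := bound π U (Finset.univ.filter fun k : I8 => k.2.2 = 0 ∨ k = (0, 0, 1)) (fun k => if k.2.2 = 0 then 1 else 3)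
    (zero_of D hU ha hb (by decide)) fun k _ => by
      split_ifs with hk
      · exact C.one_of_not D hU ha hb hk fun h2 => h (C.eq_zero_of_fx D hU h9 ha hb hw hk h2 ▸ h2)
      · exact D.map_three U k
  rw [h9] at h1
  revert h1
  decide

omit hU h9 in
theorem mv_g : Mv Z s g mg := by
  obtain ⟨x, hx⟩ := D.exists_mv C.hc
  have hc := D.base C.hc rfl hx (comb2 x (D.uniq (hx.mul ha) (C.ca ▸ ha.mul hx) 0)
    (D.uniq (hx.mul hb) (C.cb ▸ (ha.mul hb).mul hx) 0) (D.uniq (C.wcw ▸ (hw.mul hx).mul hw) hx 0))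
  obtain ⟨y, hy⟩ := D.exists_mv C.hg
  exact D.base C.hg rfl hy (comb3 y (D.uniq (hy.mul ha) (C.ga ▸ hc.mul hy) 0)
    (D.uniq (hy.mul hc) (C.gc ▸ ((ha.mul hc).mul (D.mv_eps _)).mul hy) 0)
    (D.uniq ((hy.mul hy).mul hy) (C.ggg ▸ mv_one D) 0))

theorem fix_more {v : L8 K} (hv : v ∈ s 0) : act c v = v ∧ act (w * g * b * (w * g)⁻¹) v = v := by
  have hg := C.mv_g D ha hb hw
  have h1 := C.fx_zero D hU h9 ha hb hw
  have h2 : g⁻¹ = g * g := inv_eq_of_mul_eq_one_left C.ggg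
  have h3 : (w * g)⁻¹ = g * g * (w * w) := by rw [mul_inv_rev, h2, inv_eq_of_mul_eq_one_left C.www]
  constructor
  · rw [← mul_inv_cancel_right c g, ← C.ga, act_mul, act_mul, (h1 _ (h2 ▸ ((hg.mul hg) 0).2 v hv)).1, act_inv']
  · rw [act_mul, act_mul, (h1 _ (h3 ▸ (((hg.mul hg).mul (hw.mul hw)) 0).2 v hv)).2, act_inv']

omit ha hb hw in
/-- **The main lemma.** -/
theorem main : (∃ z e f, Rz z e f ∧ FQ ε a b e ∧ FQ ε a b f) ∧ ∀ e f, Tri e f → FQ ε a b e → FQ ε a b f →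
    ∀ v ∈ sl e f, act c v = v ∧ act (w * g * b * (w * g)⁻¹) v = v := by
  rcases C.cases D with ⟨Z, s, π, D, ha, hb, hw⟩ | ⟨α, β, ha, hb, -, h⟩
  · constructor
    · obtain ⟨e, f, h1, h2⟩ := D.rz 0
      have he : e ∈ s 0 := h2 ▸ e_mem e f
      have hf : f ∈ s 0 := h2 ▸ f_mem e f
      exact ⟨_, e, f, h1, ⟨D.fix _ e he, C.fx_zero D hU h9 ha hb hw e he⟩, D.fix _ f hf, C.fx_zero D hU h9 ha hb hw f hf⟩
    · intro e f h he hf v hv
      obtain ⟨k, hk⟩ := D.tri_eq h he.1 hf.1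
      have h1 : e ∈ s k := hk ▸ e_mem e f
      have h2 := D.idx_eq (he.2.1 ▸ (ha k).2 e h1) h1 h.ne
      obtain rfl := C.eq_zero_of_fx D hU h9 ha hb hw ((by decide : ∀ k : I8, ma k = k → k.2.2 = 0) k h2)
        fun v hv => ⟨fix_sl he.2.1 hf.2.1 (hk ▸ hv), fix_sl he.2.2 hf.2.2 (hk ▸ hv)⟩
      exact C.fix_more D hU h9 ha hb hw (hk ▸ hv)
  · have h1 := bound π U _ (fun _ => 3) (zero_of D hU ha hb h) fun k _ => D.map_three U k
    rw [h9] at h1
    exact absurd h1 (by decide)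

end Cfg

end Cfsg.Agent.E8A.Odd.Tha
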