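import Cfsg.Agent.E8A.Odd.ThaSl

/-!
# The box THA, part 2: the fixed space of a group `2³` of type `D₈` as a sum of eight algebras `sl₂` (helper90)

* `Dec ε Z s π` : `ε` lists the group, `s k` is the algebra of the involution `Z k`, `π k` the projection;
* `Mv Z s g α` : `g` permutes the indices by `α`;
* `Dec.pi_act`, `Dec.tri_eq`, `Dec.pi_br`; `os a b` : orbit sums.
-/

set_option autoImplicit false
set_option linter.unusedSectionVars false

namespace Cfsg.Agent.E8A.Odd.Tha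

open Cfsg Cfsg.Lie Module
open Cfsg.Agent.E8A.TwoH

universe u

variable {K : Type u} [Field K] {I : Type} [AddCommGroup I] [Fintype I] [DecidableEq I]

/-- the fixed vectors -/
def FE (ε : I → G8 K) (v : L8 K) : Prop := ∀ j, act (ε j) v = v

/-- the decomposition -/
structure Dec (ε Z : I → G8 K) (s : I → Submodule K (L8 K)) (π : I → L8 K →ₗ[K] L8 K) : Prop where
  two : (2 : K) ≠ 0
  add : ∀ j k, ε (j + k) = ε j * ε k
  inj : Function.Injective ε
  rz : ∀ k, ∃ e f, Rz (Z k) e f ∧ s k = sl e f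
  zk : ∀ j k, Z (j + k) = Z j * ε k
  cm : ∀ j k, ε j * Z k = Z k * ε j
  fix : ∀ k, ∀ v ∈ s k, FE ε v
  orth : ∀ j k, j ≠ k → ∀ u ∈ s j, ∀ v ∈ s k, br u v = 0
  mem : ∀ k v, π k v ∈ s k
  sum : ∀ v, FE ε v → ∑ k, π k v = v
  nor : ∀ g : G8 K, (∀ k, ∃ j, g * ε k = ε j * g) → ∀ k, ∃ j, g * Z k * g⁻¹ = Z j ∧ ∀ v ∈ s k, act g v ∈ s j

/-- `g` permutes the indices -/
def Mv (Z : I → G8 K) (s : I → Submodule K (L8 K)) (g : G8 K) (α : I → I) : Prop :=
  ∀ k, g * Z k * g⁻¹ = Z (α k) ∧ ∀ v ∈ s k, act g v ∈ s (α k)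

/-- the orbit sum -/
def os (a b : G8 K) (y : L8 K) : L8 K := y + act a y + act b y + act a (act b y)

theorem os_left {a b : G8 K} (ha : a * a = 1) (y : L8 K) : act a (os a b y) = os a b y := by
  have h : ∀ v, act a (act a v) = v := fun v => by rw [← act_mul, ha, act_one]
  rw [os, act_add, act_add, act_add, h, h]
  abel

theorem os_right {a b : G8 K} (hb : b * b = 1) (hab : a * b = b * a) (y : L8 K) : act b (os a b y) = os a b y := by
  have h : ∀ v, act b (act b v) = v := fun v => by rw [← act_mul, hb, act_one]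
  have h' : ∀ v, act b (act a v) = act a (act b v) := fun v => by rw [← act_mul, ← hab, act_mul]
  rw [os, act_add, act_add, act_add, h, h', h', h]
  abel

theorem FE.add {ε : I → G8 K} {u v : L8 K} (hu : FE ε u) (hv : FE ε v) : FE ε (u + v) := fun j => by
  rw [act_add, hu j, hv j]

variable {ε Z : I → G8 K} {s : I → Submodule K (L8 K)} {π : I → L8 K →ₗ[K] L8 K} {g g' : G8 K} {α β : I → I}

theorem Mv.mul (h : Mv Z s g α) (h' : Mv Z s g' β) : Mv Z s (g * g') fun k => α (β k) := fun k =>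
  ⟨by rw [← (h _).1, ← (h' _).1]; group, fun v hv => by rw [act_mul]; exact (h _).2 _ ((h' k).2 v hv)⟩

theorem Mv.shift (h : Mv Z s g α) (a : I) :
    Mv (fun k => Z (a + k)) (fun k => s (a + k)) g fun k => α (a + k) - a := fun k => by
  simp only [add_sub_cancel]
  exact h (a + k)

namespace Dec

variable (D : Dec ε Z s π)

include D

theorem shift (a : I) : Dec ε (fun k => Z (a + k)) (fun k => s (a + k)) fun k => π (a + k) where
  two := D.two
  add := D.add
  inj := D.inj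
  rz k := D.rz _
  zk j k := by rw [← add_assoc, D.zk]
  cm j k := D.cm _ _
  fix k := D.fix _
  orth j k h := D.orth _ _ fun e => h (add_left_cancel e)
  mem k := D.mem _
  sum v hv := (Equiv.sum_comp (Equiv.addLeft a) fun k => π k v).trans (D.sum v hv)
  nor g hg k := by
    obtain ⟨j, hj⟩ := D.nor g hg (a + k)
    exact ⟨j - a, by rwa [add_sub_cancel]⟩

theorem z_inj : Function.Injective Z := fun j k h => by
  rw [← zero_add j, ← zero_add k, D.zk, D.zk] at h
  exact D.inj (mul_left_cancel h)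

theorem tri (k : I) : ∃ e f, Tri e f ∧ s k = sl e f :=
  let ⟨e, f, h1, h2⟩ := D.rz k
  ⟨e, f, tri_of_rz D.two h1, h2⟩

theorem finrank (k : I) : finrank K (s k) = 3 := by
  obtain ⟨e, f, h1, h2⟩ := D.tri k
  rw [h2, h1.finrank]

theorem br_mem {k : I} {u v : L8 K} (hu : u ∈ s k) (hv : v ∈ s k) : br u v ∈ s k := by
  obtain ⟨e, f, h1, h2⟩ := D.tri k
  rw [h2] at hu hv ⊢
  exact h1.br_mem hu hv

theorem nil_zero {k : I} {y : L8 K} (hy : y ∈ s k) (h0 : ∀ w ∈ s k, br y (br y w) = 0) : y = 0 := by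
  obtain ⟨e, f, h1, h2⟩ := D.tri k
  rw [h2] at hy h0
  exact h1.nil_zero hy h0

theorem exists_mv {M : I → I} (hM : ∀ k, g * ε k = ε (M k) * g) : ∃ d, Mv Z s g fun k => d + M k := by
  obtain ⟨d, hd, -⟩ := D.nor g (fun k => ⟨_, hM k⟩) 0
  refine ⟨d, fun k => ?_⟩
  obtain ⟨j, h1, h2⟩ := D.nor g (fun k => ⟨_, hM k⟩) k
  obtain rfl : j = d + M k := D.z_inj (by
    rw [← h1, D.zk, ← hd, ← zero_add k, D.zk, zero_add, ← mul_assoc, mul_inv_eq_iff_eq_mul, mul_assoc _ _ g, ← hM,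
      ← mul_assoc, inv_mul_cancel_right])
  exact ⟨h1, h2⟩

theorem mv_eps (j : I) : Mv Z s (ε j) fun k => k := fun k =>
  ⟨by rw [D.cm, mul_inv_cancel_right], fun v hv => by rwa [D.fix k v hv j]⟩

theorem uniq (h : Mv Z s g α) (h' : Mv Z s g β) (k : I) : α k = β k := D.z_inj ((h k).1.symm.trans (h' k).1)

theorem mv_inj (h : Mv Z s g α) : Function.Injective α := fun j k e => D.z_inj (by
  have h1 := (h j).1
  rw [e, ← (h k).1] at h1
  exact mul_left_cancel (mul_right_cancel h1))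

theorem br_sum {y : I → L8 K} (hy : ∀ j, y j ∈ s j) {k : I} {w : L8 K} (hw : w ∈ s k) :
    br (∑ j, y j) w = br (y k) w := by
  have h1 : br (∑ j, y j) w = ∑ j, br (y j) w := map_sum ((brL K).flip w) y Finset.univ
  rw [h1, Finset.sum_eq_single k (fun j _ hj => D.orth j k hj _ (hy j) _ hw) fun h => absurd (Finset.mem_univ k) h]

theorem cmp_zero {y : I → L8 K} (hy : ∀ j, y j ∈ s j) (h0 : ∑ j, y j = 0) (k : I) : y k = 0 :=
  D.nil_zero (hy k) fun w hw => by rw [← D.br_sum hy hw, h0, br_zero_left, br_zero_right]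

theorem fe_sum {y : I → L8 K} {α : I → I} (hy : ∀ j, y j ∈ s (α j)) : FE ε (∑ j, y j) := fun i => by
  rw [act_sum]
  exact Finset.sum_congr rfl fun j _ => D.fix _ _ (hy j) i

theorem pi_eq {y : I → L8 K} (hy : ∀ j, y j ∈ s j) (k : I) : π k (∑ j, y j) = y k :=
  sub_eq_zero.1 (D.cmp_zero (y := fun k => π k (∑ j, y j) - y k) (fun k => sub_mem (D.mem k _) (hy k))
    (by rw [Finset.sum_sub_distrib, D.sum _ (D.fe_sum (α := fun k => k) hy), sub_self]) k)

theorem pi_mem {j : I} {v : L8 K} (hv : v ∈ s j) (k : I) : π k v = if k = j then v else 0 := by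
  have h := D.pi_eq (y := fun k => if k = j then v else 0) (fun k => by
    split_ifs with h
    · rwa [h]
    · exact zero_mem _) k
  rwa [Finset.sum_ite_eq' Finset.univ j, if_pos (Finset.mem_univ j)] at h

theorem pi_self {j : I} {v : L8 K} (hv : v ∈ s j) : π j v = v := by rw [D.pi_mem hv, if_pos rfl]

theorem pi_ne {j k : I} {v : L8 K} (hv : v ∈ s j) (h : k ≠ j) : π k v = 0 := by rw [D.pi_mem hv, if_neg h]

theorem idx_eq {j k : I} {v : L8 K} (hj : v ∈ s j) (hk : v ∈ s k) (h0 : v ≠ 0) : j = k := by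
  by_contra h
  exact h0 ((D.pi_self hj).symm.trans (D.pi_ne hk h))

theorem fe_act (h : Mv Z s g α) {v : L8 K} (hv : FE ε v) : FE ε (act g v) := by
  rw [← D.sum v hv, act_sum]
  exact D.fe_sum fun j => (h j).2 _ (D.mem j v)

theorem pi_act (h : Mv Z s g α) {v : L8 K} (hv : FE ε v) (k : I) : π (α k) (act g v) = act g (π k v) := by
  conv_lhs => rw [← D.sum v hv, act_sum, map_sum]
  rw [Finset.sum_eq_single k (fun j _ hj => D.pi_ne ((h j).2 _ (D.mem j v)) fun e => hj (D.mv_inj h e).symm)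
    fun h => absurd (Finset.mem_univ k) h, D.pi_self ((h k).2 _ (D.mem k v))]

theorem eq_zero {v : L8 K} (hv : FE ε v) (h : ∀ k, π k v = 0) : v = 0 := by
  rw [← D.sum v hv]
  exact Finset.sum_eq_zero fun k _ => h k

theorem pi_move (h : Mv Z s g α) {v : L8 K} (hv : FE ε v) (hg : act g v = v) {k : I} (h0 : π k v = 0) :
    π (α k) v = 0 := by rw [← hg, D.pi_act h hv, h0, act_zero]

theorem br_pi {u : L8 K} (hu : FE ε u) {k : I} {w : L8 K} (hw : w ∈ s k) : br u w = br (π k u) w := by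
  conv_lhs => rw [← D.sum u hu]
  exact D.br_sum (fun j => D.mem j u) hw

theorem pi_br {u v : L8 K} (hu : FE ε u) (hv : FE ε v) (h : br u v = 0) (k : I) : br (π k u) (π k v) = 0 := by
  refine D.cmp_zero (y := fun k => br (π k u) (π k v)) (fun k => D.br_mem (D.mem k u) (D.mem k v)) ?_ k
  have h1 : br u (∑ j, π j v) = ∑ j, br u (π j v) := map_sum (brL K u) _ Finset.univ
  rw [← h, ← D.sum v hv, h1, D.sum v hv]
  exact Finset.sum_congr rfl fun j _ => (D.br_pi hu (D.mem j v)).symm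

theorem ext_mem {y : L8 K} (hy : FE ε y) (h0 : y ≠ 0) (hx : ∀ w, ∃ c : K, br y (br y w) = c • y) : ∃ k, y ∈ s k := by
  by_contra h
  refine h0 (D.eq_zero hy fun k => D.nil_zero (D.mem k y) fun w hw => ?_)
  have h1 := D.br_mem (D.mem k y) hw
  obtain ⟨c, hc⟩ := hx w
  rw [D.br_pi hy hw, D.br_pi hy h1] at hc
  by_cases h2 : c = 0
  · rw [hc, h2, zero_smul]
  · exact absurd ⟨k, (Submodule.smul_mem_iff _ h2).1 (hc ▸ D.br_mem (D.mem k y) h1)⟩ h

theorem tri_eq {e f : L8 K} (h : Tri e f) (he : FE ε e) (hf : FE ε f) : ∃ k, sl e f = s k := by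
  obtain ⟨j, hj⟩ := D.ext_mem he h.ne h.xe
  obtain ⟨k, hk⟩ := D.ext_mem hf h.f_ne h.xf
  obtain rfl : j = k := by
    by_contra h1
    exact h.h_ne (D.orth j k h1 _ hj _ hk)
  exact ⟨j, Submodule.eq_of_le_of_finrank_eq (sl_le hj hk (D.br_mem hj hk)) (by rw [h.finrank, D.finrank])⟩

theorem fix_of_two {k : I} {W : Submodule K (L8 K)} (hW : W ≤ s k) (h2 : 2 ≤ Module.finrank K W) (hg : g * g = 1)
    (hs : ∀ v ∈ s k, act g v ∈ s k) (hf : ∀ v ∈ W, act g v = v) {x : L8 K} (hx : x ∈ s k) : act g x = x := by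
  obtain ⟨e, f, h1, h3⟩ := D.tri k
  rw [h3] at hW hs hx
  exact h1.fix_of_two hW h2 hg hs hf hx

variable {a b : G8 K} (ha : Mv Z s a α) (hb : Mv Z s b β)

include ha hb

theorem fe_os {r : I} {y : L8 K} (hy : y ∈ s r) : FE ε (os a b y) :=
  have h := D.fix r y hy
  ((h.add (D.fe_act ha h)).add (D.fe_act hb h)).add (D.fe_act ha (D.fe_act hb h))

theorem pi_os {r : I} {y : L8 K} (hy : y ∈ s r) {k : I} (h1 : k ≠ α r) (h2 : k ≠ β r) (h3 : k ≠ α (β r)) :
    π k (os a b y) = π k y := by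
  rw [os, map_add, map_add, map_add, D.pi_ne ((ha r).2 y hy) h1, D.pi_ne ((hb r).2 y hy) h2,
    D.pi_ne ((ha _).2 _ ((hb r).2 y hy)) h3, add_zero, add_zero, add_zero]

/-- a regular orbit gives non-commuting fixed vectors -/
theorem reg (h1 : a * a = 1) (h2 : b * b = 1) (h3 : a * b = b * a) {r : I} (h4 : r ≠ α r) (h5 : r ≠ β r)
    (h6 : r ≠ α (β r)) : ∃ u v, FE ε u ∧ act a u = u ∧ act b u = u ∧ FE ε v ∧ act a v = v ∧ act b v = v ∧ br u v ≠ 0 := by
  obtain ⟨e, f, h7, h8⟩ := D.tri r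
  have he : e ∈ s r := h8 ▸ e_mem e f
  have hf : f ∈ s r := h8 ▸ f_mem e f
  refine ⟨os a b e, os a b f, D.fe_os ha hb he, os_left h1 e, os_right h2 h3 e, D.fe_os ha hb hf, os_left h1 f,
    os_right h2 h3 f, fun h0 => h7.h_ne ?_⟩
  have h9 := D.pi_br (D.fe_os ha hb he) (D.fe_os ha hb hf) h0 r
  rwa [D.pi_os ha hb he h4 h5 h6, D.pi_os ha hb hf h4 h5 h6, D.pi_self he, D.pi_self hf] at h9

end Dec

end Cfsg.Agent.E8A.Odd.Tha
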