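import Cfsg.Agent.E8A.Odd.Iface
import Cfsg.Agent.E8A.TwoH.Lie

/-!
# The box THA, part 1: triples of long root vectors (helper90)

* `Tri e f` : the relations of a pair of opposite long root vectors; `tri_of_rz`;
* `sl e f` : the subalgebra they generate; `Tri.finrank`, `Tri.br_mem`, `Tri.nil_zero`, `Tri.fix_of_two`.
-/

set_option autoImplicit false
set_option maxRecDepth 100000

namespace Cfsg.Agent.E8A.Odd.Tha

open Cfsg Cfsg.Lie Module
open Cfsg.Agent.ChevalleyStructure.CoxeterGeomTypes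
open Cfsg.Agent.E8A.Inf (kf kf_act)
open Cfsg.Agent.E8A.Par (op vec_op kf_ee act_xr)
open Cfsg.Agent.E8A.TwoH

universe u

variable {K : Type u} [Field K]

theorem op_op (r : Fin chevE8.nroots) : op (op r) = r := vec_injective (by rw [vec_op, vec_op, neg_neg])

theorem op_ne' (r : Fin chevE8.nroots) : op r ≠ r := fun h => Par.op_ne r (congrArg Fin.val h)

theorem br_neg_left (x y : L8 K) : br (-x) y = -br x y := by rw [← neg_one_smul K x, br_smul_left, neg_one_smul]

theorem br_neg_right (x y : L8 K) : br x (-y) = -br x y := by rw [← neg_one_smul K y, br_smul_right, neg_one_smul]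

theorem ext_ee (h2 : (2 : K) ≠ 0) (r : Fin chevE8.nroots) (v : L8 K) :
    br (ee K (Sum.inr r)) (br (ee K (Sum.inr r)) v) = (-2 * kf K (ee K (Sum.inr r)) v) • ee K (Sum.inr r) := by
  have h0 : kf K (ee K (Sum.inr r)) (ee K (Sum.inr r)) = 0 := by
    rw [kf_ee, ee_ne fun h => op_ne' r (Sum.inr.inj h)]
  have h1 : ∀ s t : K, s + t = 0 → act (xr r s) (act (xr r t) v) = v := fun s t h => by
    rw [← act_mul, xr_add, h, xr_zero, act_one]
  have h3 := h1 1 (-1) (by ring)
  have h4 := h1 (-1) 1 (by ring)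
  simp only [act_xr, br_add_right, br_sub_right, br_smul_right, br_self, map_add, map_sub, map_smul, h0] at h3 h4
  funext i
  have h5 := congrFun h3 i
  have h6 := congrFun h4 i
  simp only [Pi.add_apply, Pi.sub_apply, Pi.smul_apply, smul_eq_mul, Pi.zero_apply] at h5 h6 ⊢
  refine mul_left_cancel₀ h2 ?_
  linear_combination -h5 - h6

/-- opposite long root vectors -/
structure Tri (e f : L8 K) : Prop where
  two : (2 : K) ≠ 0
  xe : ∀ v, ∃ c : K, br e (br e v) = c • e
  xf : ∀ v, ∃ c : K, br f (br f v) = c • f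
  he : br (br e f) e = (2 : K) • e
  hf : br (br e f) f = (-2 : K) • f
  ne : e ≠ 0

theorem tri_ee (h2 : (2 : K) ≠ 0) (r : Fin chevE8.nroots) : Tri (ee K (Sum.inr r)) (ee K (Sum.inr (op r))) where
  two := h2
  xe v := ⟨_, ext_ee h2 r v⟩
  xf v := ⟨_, ext_ee h2 _ v⟩
  he := by rw [br_anti, ext_ee h2, kf_ee, ee_self, mul_one, neg_smul, neg_neg]
  hf := by
    rw [br_anti, br_anti (ee K (Sum.inr r)), br_neg_right, neg_neg, ext_ee h2, kf_ee, op_op, ee_self, mul_one]
  ne := ee_ne_zero _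

theorem Tri.act {e f : L8 K} (h : Tri e f) (g : G8 K) : Tri (act g e) (act g f) where
  two := h.two
  xe v := by
    obtain ⟨c, hc⟩ := h.xe (E8A.act g⁻¹ v)
    exact ⟨c, by rw [← act_smul, ← hc, act_br, act_br, act_inv']⟩
  xf v := by
    obtain ⟨c, hc⟩ := h.xf (E8A.act g⁻¹ v)
    exact ⟨c, by rw [← act_smul, ← hc, act_br, act_br, act_inv']⟩
  he := by rw [← act_br, ← act_br, h.he, act_smul]
  hf := by rw [← act_br, ← act_br, h.hf, act_smul]
  ne h0 := h.ne (act_eq_zero h0)

theorem tri_of_rz (h2 : (2 : K) ≠ 0) {z : G8 K} {e f : L8 K} (h : Rz z e f) : Tri e f := by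
  obtain ⟨g, r, rfl, rfl, -⟩ := h
  exact (tri_ee h2 r).act g

theorem rz_conj {z : G8 K} {e f : L8 K} (h : Rz z e f) (g : G8 K) : Rz (g * z * g⁻¹) (act g e) (act g f) := by
  obtain ⟨c, r, rfl, rfl, h⟩ := h
  refine ⟨g * c, r, (act_mul _ _ _).symm, (act_mul _ _ _).symm, ?_⟩
  rw [← mx_mul, show g * z * g⁻¹ * (g * c) = g * (z * c) by group, mx_mul, mx_mul, h, mx_mul, Matrix.mul_assoc]

/-- the subalgebra generated by `e`, `f` -/
def sl (e f : L8 K) : Submodule K (L8 K) := Submodule.span K (Set.range ![e, br e f, f])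

theorem mem_sl {e f v : L8 K} : v ∈ sl e f ↔ ∃ a b c : K, v = a • e + b • br e f + c • f := by
  rw [sl, Submodule.mem_span_range_iff_exists_fun]
  constructor
  · rintro ⟨c, rfl⟩
    exact ⟨c 0, c 1, c 2, by rw [Fin.sum_univ_three]; rfl⟩
  · rintro ⟨a, b, c, rfl⟩
    exact ⟨![a, b, c], by rw [Fin.sum_univ_three]; rfl⟩

theorem e_mem (e f : L8 K) : e ∈ sl e f := Submodule.subset_span ⟨0, rfl⟩

theorem h_mem (e f : L8 K) : br e f ∈ sl e f := Submodule.subset_span ⟨1, rfl⟩

theorem f_mem (e f : L8 K) : f ∈ sl e f := Submodule.subset_span ⟨2, rfl⟩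

theorem sl_le {e f : L8 K} {W : Submodule K (L8 K)} (h1 : e ∈ W) (h2 : f ∈ W) (h3 : br e f ∈ W) : sl e f ≤ W := by
  intro v hv
  obtain ⟨a, b, c, rfl⟩ := mem_sl.1 hv
  exact add_mem (add_mem (W.smul_mem a h1) (W.smul_mem b h3)) (W.smul_mem c h2)

theorem fix_sl {e f : L8 K} {g : G8 K} (h1 : act g e = e) (h2 : act g f = f) {v : L8 K} (hv : v ∈ sl e f) :
    act g v = v := by
  obtain ⟨a, b, c, rfl⟩ := mem_sl.1 hv
  rw [act_add, act_add, act_smul, act_smul, act_smul, act_br, h1, h2]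

theorem br_sl_zero {e f x : L8 K} (h1 : br x e = 0) (h2 : br x f = 0) {v : L8 K} (hv : v ∈ sl e f) : br x v = 0 := by
  obtain ⟨a, b, c, rfl⟩ := mem_sl.1 hv
  rw [br_add_right, br_add_right, br_smul_right, br_smul_right, br_smul_right, h1, h2, br_br_zero h1 h2, smul_zero,
    smul_zero, smul_zero, add_zero, add_zero]

theorem act_sl {e f : L8 K} {g : G8 K} {W : Submodule K (L8 K)} (h1 : act g e ∈ W) (h2 : act g f ∈ W)
    (h3 : br (act g e) (act g f) ∈ W) {v : L8 K} (hv : v ∈ sl e f) : act g v ∈ W := by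
  obtain ⟨a, b, c, rfl⟩ := mem_sl.1 hv
  rw [act_add, act_add, act_smul, act_smul, act_smul, act_br]
  exact add_mem (add_mem (W.smul_mem a h1) (W.smul_mem b h3)) (W.smul_mem c h2)

namespace Tri

variable {e f : L8 K} (h : Tri e f)

include h

theorem br_e (a b c : K) : br (a • e + b • br e f + c • f) e = (2 * b) • e + (0 : K) • f + (-c) • br e f := by
  rw [br_add_left, br_add_left, br_smul_left, br_smul_left, br_smul_left, br_self, h.he, br_anti f e]
  module

theorem br_f (a b c : K) : br (a • e + b • br e f + c • f) f = (0 : K) • e + (-2 * b) • f + a • br e f := by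
  rw [br_add_left, br_add_left, br_smul_left, br_smul_left, br_smul_left, br_self, h.hf]
  module

theorem br_h (a b c : K) :
    br (a • e + b • br e f + c • f) (br e f) = (-2 * a) • e + (2 * c) • f + (0 : K) • br e f := by
  rw [br_add_left, br_add_left, br_smul_left, br_smul_left, br_smul_left, br_self, br_anti e (br e f),
    br_anti f (br e f), h.he, h.hf]
  module

theorem br_eq (a b c a' b' c' : K) : br (a • e + b • br e f + c • f) (a' • e + b' • br e f + c' • f) =
    (2 * (a' * b - a * b')) • e + (a * c' - a' * c) • br e f + (2 * (b' * c - b * c')) • f := by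
  rw [br_add_right, br_add_right, br_smul_right, br_smul_right, br_smul_right, h.br_e, h.br_f, h.br_h]
  module

theorem li {a b c : K} (h0 : a • e + b • br e f + c • f = 0) : a = 0 ∧ b = 0 ∧ c = 0 := by
  have h1 := h.br_e a b c
  rw [h0, br_zero_left, zero_smul, add_zero] at h1
  have h2 := h.br_e (2 * b) (-c) 0
  rw [zero_smul, add_zero, ← h1, br_zero_left, neg_zero, zero_smul, add_zero, add_zero, eq_comm,
    smul_eq_zero] at h2
  have hc : c = 0 := neg_eq_zero.1 ((mul_eq_zero.1 (h2.resolve_right h.ne)).resolve_left h.two)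
  rw [hc, neg_zero, zero_smul, add_zero, eq_comm, smul_eq_zero] at h1
  have hb : b = 0 := (mul_eq_zero.1 (h1.resolve_right h.ne)).resolve_left h.two
  rw [hb, hc, zero_smul, zero_smul, add_zero, add_zero, smul_eq_zero] at h0
  exact ⟨h0.resolve_right h.ne, hb, hc⟩

theorem h_ne : br e f ≠ 0 := fun h0 =>
  one_ne_zero (h.li (a := 0) (b := 1) (c := 0) (by rw [h0, zero_smul, zero_smul, smul_zero, add_zero, add_zero])).2.1

theorem f_ne : f ≠ 0 := fun h0 => h.h_ne (by rw [h0, br_zero_right])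

theorem finrank : finrank K (sl e f) = 3 := by
  rw [sl, finrank_span_eq_card, Fintype.card_fin]
  rw [Fintype.linearIndependent_iff]
  intro c hc i
  rw [Fin.sum_univ_three] at hc
  obtain ⟨h1, h2, h3⟩ := h.li hc
  fin_cases i
  exacts [h1, h2, h3]

theorem br_mem {x y : L8 K} (hx : x ∈ sl e f) (hy : y ∈ sl e f) : br x y ∈ sl e f := by
  obtain ⟨a, b, c, rfl⟩ := mem_sl.1 hx
  obtain ⟨a', b', c', rfl⟩ := mem_sl.1 hy
  exact mem_sl.2 ⟨_, _, _, h.br_eq ..⟩

theorem nil_zero {y : L8 K} (hy : y ∈ sl e f) (h0 : ∀ w ∈ sl e f, br y (br y w) = 0) : y = 0 := by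
  obtain ⟨a, b, c, rfl⟩ := mem_sl.1 hy
  have h1 := h0 _ (mem_sl.2 ⟨1, 0, 0, rfl⟩)
  have h2 := h0 _ (mem_sl.2 ⟨0, 0, 1, rfl⟩)
  rw [h.br_eq, h.br_eq] at h1 h2
  obtain ⟨h3, -, h4⟩ := h.li h1
  obtain ⟨h5, -, -⟩ := h.li h2
  have h6 := h.two
  have hc : c = 0 := by
    refine pow_eq_zero_iff two_ne_zero |>.1 (mul_left_cancel₀ h6 ?_)
    linear_combination -h4
  have ha : a = 0 := by
    refine pow_eq_zero_iff two_ne_zero |>.1 (mul_left_cancel₀ h6 ?_)
    linear_combination -h5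
  have hb : b = 0 := by
    refine pow_eq_zero_iff two_ne_zero |>.1 (mul_left_cancel₀ h6 (mul_left_cancel₀ h6 ?_))
    rw [hc] at h3
    linear_combination h3
  rw [ha, hb, hc, zero_smul, zero_smul, zero_smul, add_zero, add_zero]

/-- an involution which fixes a plane is trivial -/
theorem fix_of_two {W : Submodule K (L8 K)} (hW : W ≤ sl e f) (h2 : 2 ≤ Module.finrank K W) {g : G8 K} (hg : g * g = 1)
    (hs : ∀ v ∈ sl e f, E8A.act g v ∈ sl e f) (hf : ∀ v ∈ W, E8A.act g v = v) {x : L8 K} (hx : x ∈ sl e f) :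
    E8A.act g x = x := by
  have two : ∀ v : L8 K, v = -v → v = 0 := fun v hv => by
    rw [eq_neg_iff_add_eq_zero, ← two_smul K, smul_eq_zero] at hv
    exact hv.resolve_left h.two
  obtain ⟨y, hy⟩ : ∃ y, y = x - E8A.act g x := ⟨_, rfl⟩
  have h3 : y ∈ sl e f := hy ▸ sub_mem hx (hs x hx)
  have h4 : E8A.act g y = -y := by rw [hy, act_sub, ← act_mul, hg, act_one, neg_sub]
  refine (sub_eq_zero.1 (hy ▸ ?_ : x - E8A.act g x = 0)).symm
  by_contra h5
  have h6 : y ∉ W := fun h6 => h5 (two y ((hf y h6).symm.trans h4))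
  have h7 : W ⊔ K ∙ y = sl e f := by
    refine Submodule.eq_of_le_of_finrank_le (sup_le hW ((Submodule.span_singleton_le_iff_mem _ _).2 h3)) ?_
    have h8 : W < W ⊔ K ∙ y := lt_of_le_of_ne le_sup_left fun h8 =>
      h6 (h8 ▸ Submodule.mem_sup_right (Submodule.mem_span_singleton_self y))
    have h9 := Submodule.finrank_lt_finrank_of_lt h8
    rw [h.finrank]
    omega
  have h8 : ∀ v ∈ sl e f, ∃ w ∈ W, ∃ t : K, v = w + t • y := fun v hv => by
    rw [← h7, Submodule.mem_sup] at hv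
    obtain ⟨w, hw, u, hu, rfl⟩ := hv
    obtain ⟨t, rfl⟩ := Submodule.mem_span_singleton.1 hu
    exact ⟨w, hw, t, rfl⟩
  refine h5 (h.nil_zero h3 fun v hv => ?_)
  obtain ⟨w, hw, t, rfl⟩ := h8 v hv
  obtain ⟨w', hw', t', h9⟩ := h8 _ (h.br_mem h3 (hW hw))
  have h10 := act_br g y w
  rw [h4, hf w hw, br_neg_left, h9, act_add, act_smul, hf w' hw', h4, smul_neg, neg_add, add_left_inj] at h10
  rw [br_add_right, br_smul_right, br_self, smul_zero, add_zero, h9, two w' h10, zero_add, br_smul_right, br_self,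
    smul_zero]

end Tri

end Cfsg.Agent.E8A.Odd.Tha
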